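import Cfsg.Agent.E82.Soc.B1
import Cfsg.Agent.E82.F5.Row44
import Cfsg.Agent.E82.Grp.G44

/-!
# S3369, `Sp₄(4)`: the frame `B5` exists (helper94)
-/

set_option autoImplicit false
set_option maxRecDepth 100000
set_option maxHeartbeats 400000

namespace Cfsg.Agent.E82.Soc

open Cfsg Cfsg.Lie
open Cfsg.Agent.H939.L64 (KK E2 LK L2 em aK rE brK fr up rE_apply)
open Cfsg.Agent.H876.L64 (aK_mul aK_one aK_add aK_smul aK_brK aK_inv aK_inv')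
open Cfsg.Agent.H413.L16 (er hr S2 ipj Ph Psi Zt ipj_lt Zt_Psi xr fr_aK fr_br fr_inj)
open Cfsg.Agent.H201.L34 (gw fr_add fr_smul)
open Cfsg.Agent.H942.L16 (fr_hr BF_hr_hr ipr)
open Cfsg.Agent.BpExc.FamUntw (phi)
open Cfsg.Agent.Lib.VonDyck (a5 b5)
open Cfsg.Agent.E82.Fr (cj cj_apply rE_cj Tv)
open Cfsg.Agent.E82.F5 (A5 x5 w5 vh LN2 Frame c2 Fx VH)
open Cfsg.Agent.E82.Grp (S44 ph)

attribute [local instance] Cfsg.Agent.H413.L64.charKK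

/-- the letters `x₁, x₂, w₃, y₃, w₄, y₄, w₁, y₁` -/
noncomputable def mac : ℕ → S44 := fun j =>
  [ph 0 x5, ph 1 x5, ph 2 w5, ph 2 b5, ph 3 w5, ph 3 b5, ph 0 w5, ph 0 b5].getD j 1

namespace B4

theorem xr_hr {r a : ℕ} (h : r < 240) (e : ipr a r % 2 = 0) (c : KK) : aK (xr r c) (hr a) = hr a := by
  have e1 := Fr.aK_xr_hv h c fun i => ((Cfsg.Agent.ChevalleyStructure.Columns.cor chevE8 a i : ℤ) : KK)
  have e2 : Cfsg.Agent.H942.L16.BF (hr a) (hr r) = 0 := by rw [BF_hr_hr, Cfsg.Agent.H413.L16.cast_even e]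
  rw [← hr, e2, mul_zero, zero_smul, add_zero] at e1
  exact e1

theorem Psi_hr (B : Fin 4 → S2) (k : Fin 4) : aK (Psi B) (hr (ipj k)) = hr (ipj k) := by
  have e : ∀ j k, ipr (ipj k) (ipj j) % 2 = 0 ∧ ipr (ipj k) (239 - ipj j) % 2 = 0 := by decide +kernel
  have h : ∀ j A, aK (Ph j A) (hr (ipj k)) = hr (ipj k) := fun j A =>
    Ph_mem (P := fxV (hr (ipj k))) (fun c => xr_hr (ipj_lt j) (e j k).1 c)
      (fun c => xr_hr (by have := ipj_lt j; omega) (e j k).2 c) A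
  rw [Cfsg.Agent.H413.L16.Psi_apply, aK_mul, aK_mul, aK_mul, h, h, h, h]

theorem Psi_hr' (B : Fin 4 → S2) (k : Fin 4) : aK (Psi B)⁻¹ (hr (ipj k)) = hr (ipj k) := by rw [← map_inv, Psi_hr]

theorem nf_hr {g s : GK} {l : List ℕ} {B : Fin 4 → S2} (hl : okW l = true) (hs : s ∈ Zt) (e : g = gw l * (Psi B * s))
    (C : Fin 4 → S2) {k m : Fin 4} (h : pw l (ipj k) = ipj m) : aK ((Psi C)⁻¹ * g * Psi C) (hr (ipj k)) = hr (ipj m) := by
  rw [aK_mul, aK_mul, Psi_hr, e, aK_mul, aK_mul, Fr.aK_t_hr hs.1, Psi_hr, (mn_gw hl).hr (ipj_lt k), h, Psi_hr']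

theorem z13_eq : z13 = hr (ipj 0) + hr (ipj 2) := rfl

theorem z24_eq : z24 = hr (ipj 1) + hr (ipj 3) := rfl

theorem cj_mul' (z c : GK) (g : E2) : cj (z * c) g = c⁻¹ * cj z g * c := by
  rw [cj_apply, cj_apply]
  group

theorem dg5 {t : GK} {ζ : KK} (hζ : IsPrimitiveRoot ζ 5) {i : Fin 2} (h : Tv t (![vh 152 159, vh 226 239] i) ζ) : Dg t ζ (v5 i) := by
  have e : ∀ i : Fin 2, ((List.range 240).all fun r => decide ((Cfsg.Agent.H259.L34.dz (![vh 152 159, vh 226 239] i)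
      (Cfsg.Agent.Nodes.RGDChev.vec chevE8 8 r)).val = v5 i r)) = true := by decide +kernel
  exact ⟨h.1, fun r hr' => by rw [Fr.cX_dz hζ h.1 h.2, of_decide_eq_true (all_lt (e i) hr')]⟩

theorem fr_rE (g : E2) (v : LK) : fr (rE g v) = rE g (fr v) := by
  have hcard : Nat.card (ZMod 2) = 2 ^ 1 := by simp
  have e : Cfsg.Agent.H129.TorusUntw.phi chevE8 KK 2 1 (em g) = em g :=
    Cfsg.Agent.H378.TorFin.phi_emb' Cfsg.Agent.BpExc.RowsUntw.e8T (algebraMap (ZMod 2) KK) 2 hcard g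
  rw [rE_apply, rE_apply, fr_aK, e]

theorem fr_up (x : L2) : fr (up x) = up x := funext fun i => by
  show algebraMap (ZMod 2) KK (x i) ^ 2 = algebraMap (ZMod 2) KK (x i)
  rw [← map_pow, ZMod.pow_card]

/-- the Frobenius map in a frame -/
noncomputable def FF (z : GK) : LK →+ LK :=
  AddMonoidHom.mk' (fun v => aK z⁻¹ (fr (aK z v))) fun u v => by rw [aK_add, fr_add, aK_add]

theorem FF_apply (z : GK) (v : LK) : FF z v = aK z⁻¹ (fr (aK z v)) := rfl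

theorem FF_cj (z : GK) (g : E2) (v : LK) : FF z (aK (cj z g) v) = aK (cj z g) (FF z v) := by
  rw [FF_apply, FF_apply, ← rE_cj, fr_rE]
  conv_lhs => rw [← aK_inv z (fr (aK z v)), rE_cj, aK_inv']

theorem FF_hr {z : GK} (hz : z⁻¹ * phi chevE8 KK 2 1 z = gw LN2) (C : Fin 4 → S2) {k m : Fin 4} (h : pw LN2 (ipj k) = ipj m) :
    FF (z * Psi C) (hr (ipj k)) = hr (ipj m) := by
  have hz' : z⁻¹ * Cfsg.Agent.H129.TorusUntw.phi chevE8 KK 2 1 z = gw LN2 := hz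
  rw [FF_apply, aK_mul, Psi_hr, fr_aK, fr_hr, mul_inv_rev, aK_mul, ← aK_mul z⁻¹, hz',
    (mn_gw (by decide +kernel)).hr (ipj_lt k), h, Psi_hr']

theorem fix_iff (z : GK) (g : E2) (v : LK) : aK (cj z g) v = v ↔ rE g (aK z v) = aK z v := by
  rw [rE_cj]
  exact ⟨fun h => by rw [h], fun h => by rw [← aK_inv' z (aK (cj z g) v), h, aK_inv']⟩

/-- an `A₅` on a subspace on which the element of order five is trivial -/
theorem triv5 (ψ : A5 →* GK) (V : Submodule KK LK) (h1 : ∀ v ∈ V, aK (ψ x5) v = v) (h2 : ∀ v ∈ V, aK (ψ b5) v ∈ V) {v : LK}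
    (hv : v ∈ V) : aK (ψ w5) v = v := by
  have r1 : x5 * (b5 * (b5 * (x5 * (b5 * b5)))) = 1 := by decide +kernel
  have r2 : b5 * (b5 * (b5 * b5)) = b5 := by decide +kernel
  have r3 : w5 = b5 * x5 * b5 * x5 * b5⁻¹ * b5 * x5 * b5 * x5 * b5⁻¹ * b5 := by decide +kernel
  have e1 := congrArg (fun g => aK (ψ g) v) r1
  have e2 := congrArg (fun g => aK (ψ g) v) r2
  simp only [map_mul, aK_mul, map_one, aK_one] at e1 e2
  rw [h1 _ (h2 _ (h2 _ hv)), h1 _ (h2 _ (h2 _ (h2 _ (h2 _ hv)))), e2] at e1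
  have k1 : x5 ∈ (fxV v).comap ψ := h1 v hv
  have k2 : b5 ∈ (fxV v).comap ψ := e1
  have k3 : w5 ∈ (fxV v).comap ψ := by
    rw [r3]
    exact mul_mem (mul_mem (mul_mem (mul_mem (mul_mem (mul_mem (mul_mem (mul_mem (mul_mem (mul_mem k2 k1) k2) k1) (inv_mem k2))
      k2) k1) k2) k1) (inv_mem k2)) k2
  exact k3

theorem pw0 {G : Type} [Group G] (x y : G) : x ^ 0 * y ^ 1 = y ∧ x ^ 1 * y ^ 0 = x := by simp

theorem pw4 {G : Type} [Group G] {x : G} (h : x ^ 5 = 1) (y : G) : y ^ 0 * x ^ 4 = x⁻¹ ∧ x ^ 4 * y ^ 0 = x⁻¹ := by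
  have e : x ^ 4 = x⁻¹ := by rw [eq_inv_iff_mul_eq_one, ← pow_succ, h]
  rw [pow_zero, one_mul, mul_one, e]
  exact ⟨rfl, rfl⟩

theorem w3a : ph 2 w5 * ph 0 x5 * (ph 2 w5)⁻¹ = (ph 1 x5)⁻¹ := by
  rw [Grp.ph_x', Grp.ph_x, Grp.ph_w]
  exact Grp.conj (by decide +kernel)

theorem w3b : ph 2 w5 * ph 1 x5 * (ph 2 w5)⁻¹ = (ph 0 x5)⁻¹ := by
  rw [Grp.ph_x', Grp.ph_x, Grp.ph_w]
  exact Grp.conj (by decide +kernel)

theorem w4a : ph 3 w5 * ph 0 x5 * (ph 3 w5)⁻¹ = ph 1 x5 := by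
  rw [Grp.ph_x, Grp.ph_x, Grp.ph_w]
  exact Grp.conj (by decide +kernel)

theorem w4b : ph 3 w5 * ph 1 x5 * (ph 3 w5)⁻¹ = ph 0 x5 := by
  rw [Grp.ph_x, Grp.ph_x, Grp.ph_w]
  exact Grp.conj (by decide +kernel)

theorem mp {S G : Type} [Group S] [Group G] (f : S →* G) {w a b : S} (h : w * a * w⁻¹ = b) : f w * f a * (f w)⁻¹ = f b := by
  rw [← h, map_mul, map_mul, map_inv]

theorem mp' {S G : Type} [Group S] [Group G] (f : S →* G) {w a b : S} (h : w * a * w⁻¹ = b⁻¹) : f w * f a * (f w)⁻¹ = (f b)⁻¹ := by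
  rw [← map_inv f b, ← h, map_mul, map_mul, map_inv]

theorem rel3 {G : Type} [Group G] {w a b : G} (h : w * a * w⁻¹ = b⁻¹) : b * w * a = w := by
  rw [mul_inv_eq_iff_eq_mul] at h
  rw [mul_assoc, h, mul_inv_cancel_left]

/-- the monomial form of the involution -/
theorem mono {x x' w : E2} {ζ : KK} {z : GK} (h : Frame x x' 152 159 LN2 ζ z) (hx : x ^ 5 = 1) (hx' : x' ^ 5 = 1)
    (h1 : w * x * w⁻¹ = x'⁻¹) (h2 : w * x' * w⁻¹ = x⁻¹) (hw : w * w = 1) :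
    ∃ (C : Fin 4 → S2) (s : GK), Mn ((Psi C)⁻¹ * cj z w * Psi C) l3 s := by
  have z1 : cj z x ∈ Zt := (dg5 (i := 0) h.prim h.one.tv).zt (by decide +kernel)
  have z2 : cj z x' ∈ Zt := (dg5 (i := 1) h.prim h.two.tv).zt (by decide +kernel)
  have a1 := h1.trans (pw4 hx' x).1.symm
  have a2 := h2.trans (pw4 hx x').2.symm
  have hl : okW l3 = true := by decide +kernel
  obtain ⟨B, s, hs, e⟩ := h.norm2' a1 a2 (l := l3) (by decide) (by decide +kernel) (by decide +kernel)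
  rw [← mul_assoc] at e
  obtain ⟨C, hC⟩ : ∃ C : Fin 4 → S2, C = ![1, 1, B 0, B 1] := ⟨_, rfl⟩
  have k : ∀ {y y' : E2}, w * y * w⁻¹ = y' → cj z y ∈ Zt → cj z y' ∈ Zt →
      (Psi C)⁻¹ * cj z w * Psi C * cj z y * ((Psi C)⁻¹ * cj z w * Psi C)⁻¹ = cj z y' := fun k1 k2 k3 => by
    rw [mul_inv_eq_iff_eq_mul]
    exact cj1 (Zt_Psi k2 C).symm (Zt_Psi k3 C).symm (mul_inv_eq_iff_eq_mul.1 (mp (cj z) k1))
  have zz : ∀ i j : ℕ, cj z (x ^ i * x' ^ j) ∈ Zt := fun i j => by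
    rw [map_mul, map_pow, map_pow]
    exact mul_mem (pow_mem z1 i) (pow_mem z2 j)
  obtain ⟨B', s', hs', e'⟩ := h.norm2 (g := (Psi C)⁻¹ * cj z w * Psi C) (by rw [k a1 z1 (zz _ _)]; exact h.tv 0 4)
    (by rw [k a2 z2 (zz _ _)]; exact h.tv 4 0) (l := l3) (by decide) (by decide +kernel) (by decide +kernel)
  rw [← mul_assoc] at e'
  have key : ∀ (i m : Fin 4), C i = 1 → C m = B i → pw l3 (ipj i) = ipj m → ∀ a, (a = ipj i ∨ a = 239 - ipj i) →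
      aK ((Psi C)⁻¹ * cj z w * Psi C) (er a) = er (pw l3 a) := by
    intro i m c1 c2 c3 a ha
    have c4 : pw l3 a = ipj m ∨ pw l3 a = 239 - ipj m := by
      rcases ha with rfl | rfl
      exacts [Or.inl c3, Or.inr (pw_b hl c3)]
    rw [aK_mul, aK_mul, Psi_b C i ha, c1, map_one, aK_one, nf_b hl hs e c3 ha, ← c2, ← Psi_b C m c4, aK_inv']
  have sq : ∀ v, aK ((Psi C)⁻¹ * cj z w * Psi C) (aK ((Psi C)⁻¹ * cj z w * Psi C) v) = v := fun v => by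
    rw [← aK_mul, cj2, ← map_mul, hw, map_one, mul_one, inv_mul_cancel, aK_one]
  have back : ∀ a b, aK ((Psi C)⁻¹ * cj z w * Psi C) (er a) = er b → aK ((Psi C)⁻¹ * cj z w * Psi C) (er b) = er a :=
    fun a b k1 => by rw [← k1, sq]
  have k0 := key 0 2 (by rw [hC]; rfl) (by rw [hC]; rfl) (by decide +kernel)
  have k1 := key 1 3 (by rw [hC]; rfl) (by rw [hC]; rfl) (by decide +kernel)
  have p : pw l3 (ipj 0) = ipj 2 ∧ pw l3 (239 - ipj 0) = 239 - ipj 2 ∧ pw l3 (ipj 1) = ipj 3 ∧ pw l3 (239 - ipj 1) = 239 - ipj 3 ∧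
      pw l3 (ipj 2) = ipj 0 ∧ pw l3 (239 - ipj 2) = 239 - ipj 0 ∧ pw l3 (ipj 3) = ipj 1 ∧ pw l3 (239 - ipj 3) = 239 - ipj 1 := by
    decide +kernel
  obtain ⟨p1, p2, p3, p4, p5, p6, p7, p8⟩ := p
  have k2 : ∀ i : Fin 4, i = 0 ∨ i = 1 ∨ i = 2 ∨ i = 3 := by decide
  refine ⟨C, s', mn_of hl hs' e' fun i => ?_⟩
  rcases k2 i with rfl | rfl | rfl | rfl
  · exact ⟨k0 _ (Or.inl rfl), k0 _ (Or.inr rfl)⟩
  · exact ⟨k1 _ (Or.inl rfl), k1 _ (Or.inr rfl)⟩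
  · rw [p5, p6]
    exact ⟨back _ _ (p1 ▸ k0 _ (Or.inl rfl)), back _ _ (p2 ▸ k0 _ (Or.inr rfl))⟩
  · rw [p7, p8]
    exact ⟨back _ _ (p3 ▸ k1 _ (Or.inl rfl)), back _ _ (p4 ▸ k1 _ (Or.inr rfl))⟩

theorem fz_of {g : GK} {p : Fin 4 → Fin 4} (h : ∀ k, aK g (hr (ipj k)) = hr (ipj (p k))) (hp : p = ![2, 3, 0, 1] ∨ p = id) :
    aK g z13 = z13 ∧ aK g z24 = z24 := by
  rw [z13_eq, z24_eq, aK_add, aK_add, h, h, h, h]
  rcases hp with rfl | rfl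
  · exact ⟨add_comm _ _, add_comm _ _⟩
  · exact ⟨rfl, rfl⟩

end B4

open B4

/-- **the frame** -/
theorem exists_B5 (f : S44 →* E2) (hf : Function.Injective f) (h1 : cf (f (ph 0 x5)) = 68) (h2 : cf (f (ph 2 x5)) = 48) :
    ∃ (ζ : KK) (z s : GK) (F : LK →+ LK), B5 ζ (fun j => cj z (f (mac j))) s F ∧ ∀ x, F (io z x) = io z x := by
  have d := Grp.d44
  have d' := Grp.d44'
  have e23 := d.cf23 f
  have e01 : cf (f (ph 1 x5)) = cf (f (ph 0 x5)) := d'.cf23 f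
  obtain ⟨C0, hC0, hd⟩ := d.dim hf
  have p0 : f (ph 0 x5) ^ 5 = 1 := F5.x_pow f 0
  have p1 : f (ph 1 x5) ^ 5 = 1 := F5.x_pow f 1
  have h3 := F5.frame (f (ph 0 x5)) (f (ph 1 x5)) (f (ph 0 w5))
    ⟨p0, p1, d.ne' hf 0, (d.c01 x5 x5).map f, F5.inv_w (f.comp (ph 0)), (d.c01 w5 x5).map f⟩ (e01.trans h1)
  have h4 : c2 (f (ph 0 x5)) (f (ph 1 x5)) = 16 ∧ ∃ ζ z, Frame (f (ph 0 x5)) (f (ph 1 x5)) 152 159 LN2 ζ z := by
    rcases h3 with h3 | h3 | h3 | h3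
    · exact h3
    · have := h3.1
      omega
    · omega
    · omega
  obtain ⟨h16, ζ, z, h⟩ := h4
  have c23 : c2 (f (ph 2 x5)) (f (ph 3 x5)) = 16 := (F5.c2_eq23 d d' f).trans h16
  have ww : f (ph 2 w5) * f (ph 2 w5) = 1 := F5.w_sq (f.comp (ph 2))
  obtain ⟨C, s, hm⟩ := mono h p0 p1 (mp' f w3a) (mp' f w3b) ww
  have d1 := dg5 (i := 0) h.prim h.one.tv
  have d2 := dg5 (i := 1) h.prim h.two.tv
  have q : ∀ {y : E2}, cj z y ∈ Zt → cj (z * Psi C) y = cj z y := fun k => by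
    rw [cj_mul', mul_assoc, Zt_Psi k, inv_mul_cancel_left]
  rw [← q (d1.zt (by decide +kernel))] at d1
  rw [← q (d2.zt (by decide +kernel))] at d2
  rw [← cj_mul'] at hm
  have v2 : VH (f.comp (ph 2)) (f (ph 3 x5)) (f (ph 3 w5)) := d'.vh f (e23.trans h2)
  have v3 : VH (f.comp (ph 3)) (f (ph 2 x5)) (f (ph 2 w5)) :=
    ⟨F5.x_pow f 2, h2, fun g => (d.c23 x5 g).symm.map f, fun g => (d.c23 w5 g).symm.map f, F5.inv_w (f.comp (ph 2)), ww⟩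
  have fx : ∀ v, aK (cj (z * Psi C) (f (ph 0 x5))) v = v → aK (cj (z * Psi C) (f (ph 1 x5))) v = v →
      aK (z * Psi C) v ∈ Fx (f (ph 2 x5)) ⊓ Fx (f (ph 3 x5)) := fun v k1 k2 =>
    d.fx_le f ⟨mem_eig1.2 ((fix_iff _ _ v).1 k1), mem_eig1.2 ((fix_iff _ _ v).1 k2)⟩
  have y3 : ∀ v, aK (cj (z * Psi C) (f (ph 0 x5))) v = v → aK (cj (z * Psi C) (f (ph 1 x5))) v = v →
      aK (cj (z * Psi C) (f (ph 2 w5))) v = v → aK (cj (z * Psi C) (f (ph 2 b5))) v = v := fun v k1 k2 k3 =>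
    (fix_iff _ _ v).2 (F5.v5c _ _ _ v2 (Or.inl c23) _ (fx v k1 k2) ((fix_iff _ _ v).1 k3) b5)
  have y4 : ∀ v, aK (cj (z * Psi C) (f (ph 0 x5))) v = v → aK (cj (z * Psi C) (f (ph 1 x5))) v = v →
      aK (cj (z * Psi C) (f (ph 3 w5))) v = v → aK (cj (z * Psi C) (f (ph 3 b5))) v = v := fun v k1 k2 k3 =>
    (fix_iff _ _ v).2 (F5.v5c _ _ _ v3 (Or.inl ((F5.c2_comm _ _).trans c23)) _ ⟨(fx v k1 k2).2, (fx v k1 k2).1⟩
      ((fix_iff _ _ v).1 k3) b5)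
  have f0 := fz_of (p := id) (fun k => Fr.aK_t_hr d1.mem _) (Or.inr rfl)
  have f1 := fz_of (p := id) (fun k => Fr.aK_t_hr d2.mem _) (Or.inr rfl)
  have f2 := fz_of (p := ![2, 3, 0, 1]) (fun k => (hm.hr (ipj_lt k)).trans (congrArg hr (by revert k; decide +kernel))) (Or.inl rfl)
  have f4 : aK (cj (z * Psi C) (f (ph 3 w5))) z13 = z13 ∧ aK (cj (z * Psi C) (f (ph 3 w5))) z24 = z24 := by
    obtain ⟨B, s, hs, e⟩ := h.norm2' ((mp f w4a).trans (pw0 (f (ph 0 x5)) _).1.symm) ((mp f w4b).trans (pw0 _ (f (ph 1 x5))).2.symm)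
      (l := [167, 171, 180, 187]) (by decide) (by decide +kernel) (by decide +kernel)
    rw [cj_mul']
    exact fz_of (p := ![2, 3, 0, 1]) (fun k => nf_hr (by decide +kernel) hs e C (by revert k; decide +kernel)) (Or.inl rfl)
  have f6 : aK (cj (z * Psi C) (f (ph 0 w5))) z13 = z13 ∧ aK (cj (z * Psi C) (f (ph 0 w5))) z24 = z24 := by
    have k1 : f (ph 0 w5) * f (ph 0 x5) * (f (ph 0 w5))⁻¹ = (f (ph 0 x5))⁻¹ := F5.inv_w (f.comp (ph 0))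
    have k2 : f (ph 0 w5) * f (ph 1 x5) * (f (ph 0 w5))⁻¹ = f (ph 1 x5) := by
      rw [((d.c01 w5 x5).map f).eq, mul_inv_cancel_right]
    obtain ⟨B, s, hs, e⟩ := h.norm2' (k1.trans (pw4 p0 (f (ph 1 x5))).2.symm) (k2.trans (pw0 (f (ph 0 x5)) _).1.symm)
      (l := [152, 159]) (by decide) (by decide +kernel) (by decide +kernel)
    rw [cj_mul']
    exact fz_of (p := id) (fun k => nf_hr (by decide +kernel) hs e C (by revert k; decide +kernel)) (Or.inr rfl)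
  refine ⟨ζ, z * Psi C, s, FF (z * Psi C), ⟨h.prim, d1, d2, hm, fun v => ?_, ?_, ?_, y3, fun V k1 k2 v hv => ?_, fun j hj => ?_,
    fun c v => ?_, fun j v => FF_cj _ _ v, fun u v => ?_, ?_, ?_, fun u v k => ?_⟩, fun x => ?_⟩
  · show aK (cj _ (f (ph 2 w5))) (aK (cj _ (f (ph 2 w5))) v) = v
    rw [← aK_mul, ← map_mul, ww, map_one, aK_one]
  · exact rel3 (mp' (cj (z * Psi C)) (mp' f w3b))
  · exact rel3 (mp' (cj (z * Psi C)) (mp' f w3a))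
  · refine triv5 ((cj (z * Psi C)).comp (f.comp (ph 2))) V (fun u hu => ?_) k2 hv
    show aK (cj _ (f (ph 2 x5))) u = u
    rw [Grp.x2_eq, map_mul, map_mul, aK_mul]
    exact (congrArg _ (k1 u hu).2).trans (k1 u hu).1
  · have k : j = 0 ∨ j = 1 ∨ j = 2 ∨ j = 3 ∨ j = 4 ∨ j = 5 ∨ j = 6 := by omega
    rcases k with rfl | rfl | rfl | rfl | rfl | rfl | rfl
    exacts [f0, f1, f2, ⟨y3 _ f0.1 f1.1 f2.1, y3 _ f0.2 f1.2 f2.2⟩, f4, ⟨y4 _ f0.1 f1.1 f4.1, y4 _ f0.2 f1.2 f4.2⟩, f6]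
  · rw [FF_apply, FF_apply, aK_smul, fr_smul, aK_smul]
  · rw [FF_apply, FF_apply, FF_apply, aK_brK, fr_br, aK_brK]
  · rw [z13_eq, z24_eq, map_add, FF_hr h.frob C (m := 1) (by decide +kernel), FF_hr h.frob C (m := 3) (by decide +kernel)]
  · rw [z13_eq, z24_eq, map_add, FF_hr h.frob C (m := 0) (by decide +kernel), FF_hr h.frob C (m := 2) (by decide +kernel)]
  · rw [FF_apply, FF_apply] at k
    have k1 := congrArg (aK (z * Psi C)) k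
    rw [aK_inv, aK_inv] at k1
    rw [← aK_inv' (z * Psi C) u, fr_inj k1, aK_inv']
  · rw [FF_apply, io_apply, aK_inv, fr_up]

end Cfsg.Agent.E82.Soc
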