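import Cfsg.Agent.E82.Soc.S8c
import Cfsg.Agent.E82.Mach.C4Tab
import Cfsg.Agent.E82.Fr.A8
import Cfsg.Agent.E82.Small

/-!
# S3369, `Sp₈(2)`: the row from the output of the machine (helper92)

`M8` : the output of the machine; `row8_of : M8 → ROW Sp8`.
-/

set_option autoImplicit false
set_option maxRecDepth 100000
set_option maxHeartbeats 400000

namespace Cfsg.Agent.E82.Soc

open Cfsg Cfsg.Lie Module
open Cfsg.Agent.H939.L64 (KK LK L2 E2 aK brK rE)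
open Cfsg.Agent.H876.L64 (aK_mul aK_one aK_add aK_smul aK_zero aK_brK aK_inv aK_inv')
open Cfsg.Agent.E8A (act)
open Cfsg.Agent.E82.Fr (cj cj_apply rE_cj)
open Cfsg.Agent.E82.Mach (F2 X wd ops bv wfG inR opR Hom Inv Nat0 okG)
open Cfsg.Agent.E82.Mach.C4 (G1 G2 G4)

/-- the subspace contains the module of a table -/
def Has (a : ℕ → End F2 L2) (U : Submodule F2 L2) (n : ℕ) (G : List (List (ℕ × ℕ))) : Prop :=
  ∃ e : X n →ₗ[F2] L2, Function.Injective e ∧ Hom (ops n G) a e ∧ ∀ x, e x ∈ U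

/-- the elements of order three on the four planes -/
def yw : Fin 4 → List ℕ := ![[0, 1, 2, 16, 17, 18, 19, 18, 2, 17, 1, 16, 0, 15], [1, 2, 17, 18, 19, 18, 2, 17, 1, 13],
  [2, 18, 19, 18, 2, 9], [19, 3]]

/-- **the output of the machine** -/
def M8 : Prop := ∃ (σ : ℕ → Sp8) (ρ0 : Sp8 →* End F2 (X 8)), Nat0 8 G1 σ ρ0 ∧ Subgroup.closure (σ '' {j | j < 20}) = ⊤ ∧
  ∀ f : Sp8 →* E2, Function.Injective f → Fixd f ∨ cf (f (Mach.pw σ (yw 3))) = 80 ∨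
    cf (f (Mach.pw σ (yw 3))) = 134 ∧ cf (f (Mach.pw σ (yw 0 ++ yw 1 ++ yw 2 ++ yw 3))) = 80 ∧
      ∃ ρ : Sp8 →* End F2 L2, (∀ s v, ρ s v = act (f s) v) ∧ ∀ U, Inv (opR ρ σ 20) U → U ≠ ⊥ →
        Has (opR ρ σ 20) U 8 G1 ∨ Has (opR ρ σ 20) U 26 G2 ∨ Has (opR ρ σ 20) U 48 G4

/-- the four-group -/
def qw : Fin 4 → List ℕ := ![[17, 7, 16, 1, 17, 18, 17, 16, 17, 18, 7], [5, 4, 1, 17, 16, 18, 17, 1, 4, 5], [0, 2, 16, 0, 18, 2], []]

/-- the three-cycle -/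
def rw3 : List ℕ := [0, 1, 16, 17, 1, 4]

/-- the projection to the fixed vectors -/
def E1 (l : List ℕ) : Ex := .add (.add (.w []) (.w l)) (.mul (.w l) (.w l))

/-- the other projection -/
def N1 (l : List ℕ) : Ex := .add (.w l) (.mul (.w l) (.w l))

section

variable {ψ : List ℕ → GK} {k n : ℕ} {G : List (List (ℕ × ℕ))} {κ : X n →+ LK}

theorem Emb.fix (h : Emb ψ k n G κ) {l : List ℕ} (hl : inR k l = true) {x : X n} (e : (Ex.w l).ev (ops n G) x = x) :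
    aK (ψ l) (κ x) = κ x := by
  rw [← h.wd l hl]
  exact congrArg κ e

theorem Emb.ng (h : Emb ψ k n G κ) {l : List ℕ} (hl : inR k l = true) {x : X n} (e : (E1 l).ev (ops n G) x = 0) :
    Ng (ψ l) (κ x) := by
  unfold Ng
  rw [← h.wd l hl, ← h.wd l hl, ← map_add, ← map_add, ← map_zero κ]
  exact congrArg κ e

theorem Emb.ne (h : Emb ψ k n G κ) (i : Fin n) : κ (bv n (2 ^ (i : ℕ))) ≠ 0 := fun e => by
  rw [← map_zero κ, Mach.bv_two_pow] at e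
  have h1 := congrFun (h.inj e) i
  rw [Pi.single_eq_same] at h1
  exact one_ne_zero h1

theorem Emb.ptV (h : Emb ψ 20 n G κ) {f : Fin 4 → Bool} {v : ℕ}
    (e : ∀ i, (Nat.blt v (2 ^ n) && Nat.beq ((cond (f i) (E1 (yw i)) (.w (yw i))).ac G v) (cond (f i) 0 v)) = true) :
    Pt (fun i => ψ (yw i)) f (κ (bv n v)) := by
  have hy : ∀ i, inR 20 (yw i) = true := by decide
  refine ⟨fun i e1 => h.fix (hy i) ?_, fun i e1 => h.ng (hy i) ?_⟩
  · have e2 := e i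
    rw [e1] at e2
    exact ac_eq h.wf e2
  · have e2 := e i
    rw [e1] at e2
    exact (ac_eq h.wf e2).trans (Mach.bv_zero n)

theorem Emb.ptX (h : Emb ψ 20 n G κ) {f : Fin 4 → Bool} {p : Ex}
    (e : ∀ i, cond (f i) (zX n G (.mul (E1 (yw i)) p)) (eqX n G (.mul (.w (yw i)) p) p) = true) (x : X n) :
    Pt (fun i => ψ (yw i)) f (κ (p.ev (ops n G) x)) := by
  have hy : ∀ i, inR 20 (yw i) = true := by decide
  refine ⟨fun i e1 => h.fix (hy i) ?_, fun i e1 => h.ng (hy i) ?_⟩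
  · have e2 := e i
    rw [e1] at e2
    exact LinearMap.congr_fun (eqX_sound h.wf e2) x
  · have e2 := e i
    rw [e1] at e2
    exact LinearMap.congr_fun (zX_sound h.wf e2) x

end

section

variable {ψ : List ℕ → GK} {Γ : Type} {φ : Γ → GK} {U : AddSubgroup LK}

theorem t26 {κ : X 26 →+ LK} (h : Emb ψ 20 26 G2 κ) : T26 (fun i => ψ (yw i)) (fun j => ψ (qw j)) (ψ rw3) := by
  have h1 := h.ptV (f := fun _ => false) (v := 2 ^ 13) (by decide +kernel)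
  refine ⟨_, h.ne 13, fun i => h1.1 i rfl, fun j => h.fix (by revert j; decide) (ac_eq h.wf ?_),
    h.ng (by decide) ((ac_eq h.wf (u := 0) (by decide +kernel)).trans (Mach.bv_zero 26))⟩
  revert j
  decide +kernel

theorem t8 {κ : X 8 →+ LK} (h : Emb ψ 20 8 G1 κ) (h1 : κ.range ≤ U) (h2 : Stb φ κ.range) :
    T8 φ (fun i => ψ (yw i)) (fun j => ψ (qw j)) (ψ rw3) U := by
  refine ⟨_, h1, h2, _, ⟨_, rfl⟩, h.ne 3, h.ptV (v := 2 ^ 3) (by decide +kernel), h.fix (by decide) (ac_eq h.wf (by decide +kernel)), ?_⟩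
  rintro _ ⟨x, rfl⟩
  have hq : ∀ j, inR 20 (qw j) = true := by decide
  rw [← Finset.univ_sum_single x, map_sum]
  refine sum_mem fun i _ => ?_
  rcases Mach.f2_cases (x i) with e | e
  · rw [e, Pi.single_zero, map_zero]
    exact zero_mem _
  · rw [e, ← Mach.bv_two_pow]
    apply AddSubgroup.subset_closure
    have e1 : ∀ i : Fin 8, ∃ j, (Nat.blt (2 ^ 3) (2 ^ 8) && Nat.beq ((Ex.w (qw j)).ac G1 (2 ^ 3)) (2 ^ (i : ℕ))) = true ∨
        (Nat.blt (2 ^ 3) (2 ^ 8) && Nat.beq ((Ex.mul (.w (qw j)) (.w (yw 3))).ac G1 (2 ^ 3)) (2 ^ (i : ℕ))) = true := by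
      decide +kernel
    obtain ⟨j, e2 | e2⟩ := e1 i
    · refine ⟨j, Or.inl ?_⟩
      rw [← ac_eq h.wf e2]
      exact h.wd _ (hq j) _
    · refine ⟨j, Or.inr ?_⟩
      rw [← ac_eq h.wf e2]
      exact (h.wd _ (hq j) _).trans (congrArg _ (h.wd _ (by decide) _))

/-- the projection to the first pattern -/
def p48 : Ex := .mul (.mul (N1 (yw 0)) (N1 (yw 1))) (.mul (N1 (yw 2)) (E1 (yw 3)))

/-- the projection to the second pattern -/
def p8 : Ex := .mul (.mul (E1 (yw 0)) (E1 (yw 1))) (.mul (E1 (yw 2)) (N1 (yw 3)))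

/-- one term -/
def tm (j : Fin 4) : Ex := .mul (.w (qw j)) (.mul (.add p48 p8) (.w (qw j)))

theorem ev_tm {V : Type} [AddCommGroup V] [Module F2 V] (a : ℕ → End F2 V) (j : Fin 4) (x : V) :
    (tm j).ev a x = wd a (qw j) (p48.ev a (wd a (qw j) x) + p8.ev a (wd a (qw j) x)) := rfl

theorem ev_sum {V : Type} [AddCommGroup V] [Module F2 V] (a : ℕ → End F2 V) {p q r s : Ex}
    (h : (Ex.add (.add p q) (.add r s)).ev a = (Ex.w []).ev a) (x : V) : p.ev a x + q.ev a x + (r.ev a x + s.ev a x) = x :=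
  LinearMap.congr_fun h x

theorem ev_zero {V : Type} [AddCommGroup V] [Module F2 V] (a : ℕ → End F2 V) {p q : Ex} (h : (Ex.mul p q).ev a = 0) (x : V) :
    p.ev a (q.ev a x) = 0 := LinearMap.congr_fun h x

theorem c48a : eqX 48 G4 (.add (.add (tm 0) (tm 1)) (.add (tm 2) (tm 3))) (.w []) = true := by decide +kernel

theorem c48b : ∀ i, cond (f48 i) (zX 48 G4 (.mul (E1 (yw i)) p48)) (eqX 48 G4 (.mul (.w (yw i)) p48) p48) = true := by
  decide +kernel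

theorem c48c : ∀ i, cond (f8 i) (zX 48 G4 (.mul (E1 (yw i)) p8)) (eqX 48 G4 (.mul (.w (yw i)) p8) p8) = true := by
  decide +kernel

theorem c48d : zX 48 G4 (.mul (E1 rw3) p8) = true := by decide +kernel

theorem t48 {κ : X 48 →+ LK} (h : Emb ψ 20 48 G4 κ) (h1 : κ.range ≤ U) (h2 : Stb φ κ.range) :
    T48 φ (fun i => ψ (yw i)) (fun j => ψ (qw j)) (ψ rw3) U := by
  refine ⟨_, h1, h2, ⟨_, ⟨_, rfl⟩, h.ne 0, h.ptV (v := 2 ^ 0) (by decide +kernel)⟩, ?_⟩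
  rintro _ ⟨x, rfl⟩
  have hq : ∀ j, inR 20 (qw j) = true := by decide
  have e := ev_sum _ (eqX_sound h.wf c48a) x
  have key : ∀ j, κ ((tm j).ev (ops 48 G4) x) ∈ AddSubgroup.closure {x | ∃ j u, x = aK (ψ (qw j)) u ∧
      (Pt (fun i => ψ (yw i)) f48 u ∨ Pt (fun i => ψ (yw i)) f8 u ∧ Ng (ψ rw3) u)} := fun j => by
    rw [ev_tm, h.wd _ (hq j), map_add, aK_add]
    exact add_mem (AddSubgroup.subset_closure ⟨j, _, rfl, Or.inl (h.ptX c48b _)⟩) (AddSubgroup.subset_closure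
      ⟨j, _, rfl, Or.inr ⟨h.ptX c48c _, h.ng (by decide) (ev_zero _ (zX_sound h.wf c48d) _)⟩⟩)
  rw [← e, map_add, map_add, map_add]
  exact add_mem (add_mem (key 0) (key 1)) (add_mem (key 2) (key 3))

end

section

variable {σ : ℕ → Sp8} {ρ0 : Sp8 →* End F2 (X 8)}

theorem rel2 (hN : Nat0 8 G1 σ ρ0) {Γ : Type} [Group Γ] (g : Sp8 →* Γ) {a b c d : List ℕ} (e : okG 8 G1 (a ++ b) (c ++ d) = true) :
    g (Mach.pw σ a) * g (Mach.pw σ b) = g (Mach.pw σ c) * g (Mach.pw σ d) := by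
  rw [← map_mul, ← map_mul, ← Mach.pw_append, ← Mach.pw_append, hN.pw_eq e]

/-- the transvections -/
def tw : Fin 4 → List ℕ := ![[15], [13], [9], [3]]

theorem y_cube (hN : Nat0 8 G1 σ ρ0) (f : Sp8 →* E2) (i : Fin 4) : f (Mach.pw σ (yw i)) ^ 3 = 1 := by
  rw [pow_three, ← map_mul, ← map_mul, ← Mach.pw_append, ← Mach.pw_append,
    hN.pw_eq (w' := []) (by revert i; decide +kernel), Mach.pw_nil, map_one]

theorem y_comm (hN : Nat0 8 G1 σ ρ0) {Γ : Type} [Group Γ] (g : Sp8 →* Γ) (i j : Fin 4) :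
    g (Mach.pw σ (yw i)) * g (Mach.pw σ (yw j)) = g (Mach.pw σ (yw j)) * g (Mach.pw σ (yw i)) :=
  rel2 hN g (by revert i j; decide +kernel)

theorem y_inv (hN : Nat0 8 G1 σ ρ0) (f : Sp8 →* E2) (i : Fin 4) :
    f (Mach.pw σ (tw i)) * f (Mach.pw σ (yw i)) * (f (Mach.pw σ (tw i)))⁻¹ = (f (Mach.pw σ (yw i)))⁻¹ := by
  rw [mul_inv_eq_iff_eq_mul, eq_inv_mul_iff_mul_eq, ← map_mul, ← map_mul, ← Mach.pw_append, ← Mach.pw_append]
  exact congrArg f (hN.pw_eq (by revert i; decide +kernel))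

theorem t_comm (hN : Nat0 8 G1 σ ρ0) (f : Sp8 →* E2) {i j : Fin 4} (h : j ≠ i) :
    Commute (f (Mach.pw σ (tw i))) (f (Mach.pw σ (yw j))) :=
  rel2 hN f ((by decide +kernel : ∀ i j : Fin 4, j ≠ i → okG 8 G1 (tw i ++ yw j) (yw j ++ tw i) = true) i j h)

theorem y_cf (hN : Nat0 8 G1 σ ρ0) (f : Sp8 →* E2) (i : Fin 4) : cf (f (Mach.pw σ (yw i))) = cf (f (Mach.pw σ (yw 3))) := by
  have e := rel2 hN f (a := qw i) (b := yw 3) (c := yw i) (d := qw i) (by revert i; decide +kernel)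
  rw [← fd_conj (f (Mach.pw σ (qw i))) (f (Mach.pw σ (yw 3))), e, mul_inv_cancel_right]

theorem y_par (hN : Nat0 8 G1 σ ρ0) (f : Sp8 →* E2) {i j : Fin 4} (h : i ≠ j) :
    cf (f (Mach.pw σ (yw i)) * f (Mach.pw σ (yw j))) = cf (f (Mach.pw σ (yw i)) * (f (Mach.pw σ (yw j)))⁻¹) := by
  have e : ∀ t a b : E2, t * a = a * t → t * (a * b) * t⁻¹ = a * (t * b * t⁻¹) := fun t a b e => by
    rw [← mul_assoc t, e, mul_assoc, mul_assoc, mul_assoc]
  rw [← y_inv hN f j, ← e _ _ _ (t_comm hN f h).eq, fd_conj]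

theorem fix80 (hN : Nat0 8 G1 σ ρ0) (hg : Subgroup.closure (σ '' {j | j < 20}) = ⊤) {f : Sp8 →* E2} (hf : Function.Injective f)
    (h : cf (f (Mach.pw σ (yw 3))) = 80) : Fixd f := by
  have h92 : ∀ i j : Fin 4, i ≠ j → cf (f (Mach.pw σ (yw i)) * f (Mach.pw σ (yw j))) = 92 := fun i j e => by
    have h1 := par (y_cube hN f i) (y_cube hN f j) (y_comm hN f i j)
    rw [← y_par hN f e, y_cf hN f i, y_cf hN f j, h] at h1
    have h2 : f (Mach.pw σ (yw i)) * f (Mach.pw σ (yw j)) ≠ 1 := fun e1 => by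
      rw [← map_mul, ← Mach.pw_append, ← map_one f] at e1
      have e2 := hN.wd (w := yw i ++ yw j) (Mach.inR_lt ((by decide : ∀ i j, inR G1.length (yw i ++ yw j) = true) i j))
      rw [hf e1, map_one] at e2
      have e3 : ∀ i j : Fin 4, i ≠ j → (Nat.blt (2 ^ (i : ℕ)) (2 ^ 8) &&
          Nat.beq ((Ex.w (yw i ++ yw j)).ac G1 (2 ^ (i : ℕ))) (2 ^ (4 + (i : ℕ)))) = true := by decide +kernel
      have e4 : wd (ops 8 G1) (yw i ++ yw j) (bv 8 (2 ^ (i : ℕ))) = bv 8 (2 ^ (4 + (i : ℕ))) := ac_eq hN.wf (e3 i j e)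
      rw [← e2] at e4
      exact (by decide : ∀ i : Fin 4, bv 8 (2 ^ (i : ℕ)) ≠ bv 8 (2 ^ (4 + (i : ℕ)))) i e4
    have h3 : (f (Mach.pw σ (yw i)) * f (Mach.pw σ (yw j))) ^ 3 = 1 := by
      rw [Commute.mul_pow (y_comm hN f i j), y_cube hN f, y_cube hN f, one_mul]
    rcases fd3 h3 h2 with e1 | e1 | e1 | e1
    all_goals rw [e1] at h1
    exacts [absurd h1 (by decide), e1, absurd h1 (by decide), absurd h1 (by decide)]
  have cs : ∀ i j : Fin 3, i ≠ j → i.castSucc ≠ j.castSucc := by decide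
  obtain ⟨v, h0, -, h1⟩ := Fr.lemmaA8 (c := fun i => f (Mach.pw σ (yw i.castSucc))) (r := fun i => f (Mach.pw σ (tw i.castSucc)))
    ⟨fun i => y_cube hN f _, fun i j => y_comm hN f _ _, fun i => (y_cf hN f _).trans h, fun i j e => h92 _ _ (cs i j e.ne),
      fun i j e => (y_par hN f (cs i j e.ne)).symm.trans (h92 _ _ (cs i j e.ne))⟩
    (fun i => by
      rw [← map_mul, ← Mach.pw_append, hN.pw_eq (w' := []) (by revert i; decide +kernel), Mach.pw_nil, map_one])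
    (fun i => y_inv hN f _) fun i j e => t_comm hN f (cs j i e)
  refine ⟨v, h0, fix_of_closure hg ?_⟩
  rintro _ ⟨j, hj, rfl⟩
  have e : ∀ j < 20, ∃ i : Fin 3, okG 8 G1 ([j] ++ tw i.castSucc) (tw i.castSucc ++ [j]) = true ∧
      okG 8 G1 ([j] ++ yw i.castSucc) (yw i.castSucc ++ [j]) = true := by decide +kernel
  obtain ⟨i, e1, e2⟩ := e j hj
  rw [← Mach.pw_single σ j]
  exact h1 i _ (rel2 hN f e1) (Or.inl (by rw [rel2 hN f e2, mul_inv_cancel_right]))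

theorem dg_of {t : GK} {ζ : KK} (hζ : IsPrimitiveRoot ζ 3) {i : Fin 4} (h : Fr.Tv t (Fr.vc (Fr.cA i)) ζ) : Dg t ζ (w3 i) := by
  have e : ∀ i, ((List.range 240).all fun r =>
      decide ((Cfsg.Agent.H259.L34.dz (Fr.vc (Fr.cA i)) (Cfsg.Agent.Nodes.RGDChev.vec chevE8 8 r)).val = w3 i r)) = true := by decide +kernel
  exact ⟨h.1, fun r hr => by rw [Fr.cX_dz hζ h.1 h.2, of_decide_eq_true (all_lt (e i) hr)]⟩

theorem cen_of {Y : Fin 4 → GK} {ζ : KK} (hζ : IsPrimitiveRoot ζ 3) (h : ∀ i, Fr.Tv (Y i) (Fr.vc (Fr.cA i)) ζ) : CEN Y := by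
  intro u hu
  obtain ⟨m, hm, s, hs, rfl⟩ := Fr.cent_gen hζ h (fun i => by fin_cases i; exacts [Fr.sm4619, Fr.sm4375, Fr.sm2187]) Fr.LB_cA hu
  exact Fr.Psi_form hm hs

theorem cj_mul (z c : GK) (g : E2) : cj (z * c) g = c⁻¹ * cj z g * c := by
  rw [cj_apply, cj_apply]
  group

theorem raw8 (hN : Nat0 8 G1 σ ρ0) {ζ : KK} (hζ : IsPrimitiveRoot ζ 3) (g : Sp8 →* GK)
    (h4 : ∀ i, Fr.Tv (g (Mach.pw σ (yw i))) (Fr.vc (Fr.cA i)) ζ) :
    Raw ζ (fun i => g (Mach.pw σ (yw i))) (fun j => g (Mach.pw σ (qw j))) (g (Mach.pw σ rw3)) (g (Mach.pw σ [0, 16, 0]))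
      (g (Mach.pw σ [17, 13, 2, 16, 18, 7, 19, 18, 2, 17])) := by
  refine ⟨hζ, fun i => dg_of hζ (h4 i), cen_of hζ h4, fun j i => rel2 hN g (by revert j i; decide +kernel),
    fun i => rel2 hN g (by revert i; decide +kernel), fun i => rel2 hN g (by revert i; decide +kernel), map_one g, fun j k => ?_,
    fun j => rel2 hN g (by revert j; decide +kernel), ?_, ?_, rel2 hN g (by decide +kernel), ?_⟩
  · rw [← map_mul, ← Mach.pw_append]
    exact congrArg g (hN.pw_eq (by revert j k; decide +kernel))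
  · rw [← map_mul, ← map_mul, ← Mach.pw_append, ← Mach.pw_append]
    exact congrArg g (hN.pw_eq (by decide +kernel))
  · rw [← map_mul, ← map_mul, ← Mach.pw_append, ← Mach.pw_append]
    exact rel2 hN g (by decide +kernel)
  · rw [← map_mul, ← map_mul, ← map_mul, ← map_mul, ← Mach.pw_append, ← Mach.pw_append, ← Mach.pw_append, ← Mach.pw_append]
    exact congrArg g (hN.pw_eq (by decide +kernel))

theorem par8' (hN : Nat0 8 G1 σ ρ0) {ζ : KK} {g : Sp8 →* GK} {sP : Fin 4 → GK} {sR : GK}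
    (hn : Nice ζ (fun i => g (Mach.pw σ (yw i))) (fun j => g (Mach.pw σ (qw j))) (g (Mach.pw σ rw3)) sP sR) {A : AddSubgroup LK}
    (h0 : A ≠ ⊥) (h1 : Stb g A) (h2 : ∀ x ∈ A, ∀ y ∈ A, brK x y ∈ A)
    (soc : ∀ U ≤ A, Stb g U → U ≠ ⊥ → (∃ κ, Emb (fun w => g (Mach.pw σ w)) 20 8 G1 κ ∧ κ.range ≤ U ∧ Stb g κ.range) ∨
      (∃ κ, Emb (fun w => g (Mach.pw σ w)) 20 26 G2 κ) ∨
      ∃ κ, Emb (fun w => g (Mach.pw σ w)) 20 48 G4 κ ∧ κ.range ≤ U ∧ Stb g κ.range) : PAR g := by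
  refine hn.par8 (y_comm hN g) (fun j i => rel2 hN g (by revert j i; decide +kernel)) (T := g (Mach.pw σ [15, 13, 9]))
    (fun i hi => ?_) (rel2 hN g (by decide +kernel)) (fun i => ⟨_, rfl⟩) ⟨_, rfl⟩ ⟨_, rfl⟩ h0 h1 h2 fun U k1 k2 k3 => ?_
  · rw [← map_mul g (Mach.pw σ (yw i)), ← Mach.pw_append]
    exact rel2 hN g ((by decide +kernel : ∀ i : Fin 4, i ≠ 3 → okG 8 G1 ([15, 13, 9] ++ yw i) (yw i ++ yw i ++ [15, 13, 9]) = true) i hi)
  · rcases soc U k1 k2 k3 with ⟨κ, l1, l2, l3⟩ | ⟨κ, l1⟩ | ⟨κ, l1, l2, l3⟩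
    exacts [Or.inr (Or.inl (t8 l1 l2 l3 :)), Or.inl (t26 l1 :), Or.inr (Or.inr (t48 l1 l2 l3 :))]

theorem nice8 (hN : Nat0 8 G1 σ ρ0) {f : Sp8 →* E2} (h1 : cf (f (Mach.pw σ (yw 3))) = 134)
    (h2 : cf (f (Mach.pw σ (yw 0 ++ yw 1 ++ yw 2 ++ yw 3))) = 80) : ∃ (ζ : KK) (z : GK) (g : Sp8 →* GK) (sP : Fin 4 → GK) (sR : GK),
      (fun s => cj z (f s)) = g ∧
        Nice ζ (fun i => g (Mach.pw σ (yw i))) (fun j => g (Mach.pw σ (qw j))) (g (Mach.pw σ rw3)) sP sR := by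
  rw [Mach.pw_append, Mach.pw_append, Mach.pw_append, map_mul, map_mul, map_mul] at h2
  obtain ⟨ζ, z, hζ, h3, -⟩ := Fr.frame3 (y := fun i => f (Mach.pw σ (yw i))) (y_cube hN f) (y_comm hN f)
    (fun i => (y_cf hN f i).trans h1) (fun i j e => y_par hN f e.ne) h2
  obtain ⟨c, hc, sP, sR, hn⟩ := (raw8 hN hζ ((cj z).comp f) fun i => Fr.One.tv (h3 i)).nice
  have e2 : ∀ s, c⁻¹ * ((cj z).comp f) s * c = ((cj (z * c)).comp f) s := fun s => (cj_mul z c _).symm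
  have e1 : (fun i => ((cj z).comp f) (Mach.pw σ (yw i))) = fun i => ((cj (z * c)).comp f) (Mach.pw σ (yw i)) := funext fun i => by
    rw [← e2, mul_assoc, ← hc i, inv_mul_cancel_left]
  simp only [e2] at hn
  rw [e1] at hn
  exact ⟨ζ, z * c, _, sP, sR, funext fun s => (MonoidHom.comp_apply _ _ _).symm, hn⟩

/-- **the row of `Sp₈(2)`** -/
theorem row8_of (h : M8) : ROW Sp8 := by
  obtain ⟨σ, ρ0, hN, hg, h⟩ := h
  intro f H hS
  have hfx : ¬ Fixd f := hS.end_fix small_Sp8 out2_Sp8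
  rcases h f hS.inj with h | h | ⟨h1, h2, ρ, hρ, soc⟩
  · exact hfx h
  · exact hfx (fix80 hN hg hS.inj h)
  obtain ⟨ζ, z, g, sP, sR, e, hn⟩ := nice8 hN h1 h2
  have e1 : ∀ s, cj z (f s) = g s := congrFun e
  have h3 := hS.not_par small_Sp8 hfx z
  have h4 := Rat_stb z f
  have h5 := fun U => exists_emb hρ hg z (U := U)
  simp only [e1] at h3 h4 h5
  refine h3 (par8' hN hn (Rat_ne z) h4 (Rat_br z) fun U k1 k2 k3 => ?_)
  obtain ⟨U', k4, k5, k6⟩ := h5 U k1 k2 k3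
  rcases soc U' k4 k5 with ⟨e, k7⟩ | ⟨e, k7⟩ | ⟨e, k7⟩
  · exact Or.inl (k6 8 G1 e hN.wf k7.1 k7.2.1 k7.2.2)
  · obtain ⟨κ, l1, -⟩ := k6 26 G2 e (by decide +kernel) k7.1 k7.2.1 k7.2.2
    exact Or.inr (Or.inl ⟨κ, l1⟩)
  · exact Or.inr (Or.inr (k6 48 G4 e (by decide +kernel) k7.1 k7.2.1 k7.2.2))

end

end Cfsg.Agent.E82.Soc
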