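import Cfsg.Agent.E82.Soc.B3
import Cfsg.Agent.E82.Soc.B4
import Cfsg.Agent.E82.Soc.S8d
import Cfsg.Agent.E82.M44.Let

/-!
# S3369, `Sp₄(4)`: the box `CaseB` from the output of the machine (helper92)

`SocB` : the output of the machine; `caseB_of : SocB → CaseB ph`.
-/

set_option autoImplicit false
set_option maxRecDepth 100000
set_option maxHeartbeats 400000

namespace Cfsg.Agent.E82.Soc

open Cfsg Cfsg.Lie Module
open Cfsg.Agent.H939.L64 (KK LK L2 E2 aK brK)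
open Cfsg.Agent.H876.L64 (aK_mul aK_one)
open Cfsg.Agent.E8A (act)
open Cfsg.Agent.E82.Fr (cj)
open Cfsg.Agent.E82.Mach (F2 X inR opR Inv)
open Cfsg.Agent.E82.M44 (G1 G2 G3 G6 sg wA wB)
open Cfsg.Agent.E82.Grp (S44 ph)
open Cfsg.Agent.E82.F5 (x5 CaseB)

/-- **the output of the machine** -/
def SocB : Prop := ∀ f : S44 →* E2, Function.Injective f → cf (f (ph 0 x5)) = 68 → cf (f (ph 2 x5)) = 48 → Fixd f ∨
  ∃ ρ : S44 →* End F2 L2, (∀ s v, ρ s v = act (f s) v) ∧ ∀ U, Inv (opR ρ sg 14) U → U ≠ ⊥ →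
    Has (opR ρ sg 14) U 8 G1 ∨ Has (opR ρ sg 14) U 8 G2 ∨ Has (opR ρ sg 14) U 16 G3 ∨ Has (opR ρ sg 14) U 32 G6

theorem pw_mw (j : ℕ) : inR 14 (mw j) = true ∧ Mach.pw sg (mw j) = mac j := by
  by_cases h : j < 8
  · interval_cases j
    exacts [⟨rfl, M44.pw_X 0⟩, ⟨rfl, M44.pw_X 1⟩, ⟨rfl, M44.pw_W 2⟩, ⟨rfl, M44.pw_B 2⟩, ⟨rfl, M44.pw_W 3⟩, ⟨rfl, M44.pw_B 3⟩,
      ⟨rfl, M44.pw_W 0⟩, ⟨rfl, M44.pw_B 0⟩]
  · unfold mw mac
    rw [List.getD_eq_default _ _ (not_lt.1 h), List.getD_eq_default _ _ (not_lt.1 h)]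
    exact ⟨rfl, rfl⟩

theorem pw_fl (l : List ℕ) : Mach.pw sg (l.flatMap mw) = Mach.pw mac l := by
  induction l with
  | nil => rfl
  | cons j l ih => rw [List.flatMap_cons, Mach.pw_append, ih, (pw_mw j).2, Mach.pw_cons]

section

variable {g : S44 →* GK}

theorem mac_gen {P : LK → Prop} (h : ∀ j : Fin 8, ∀ v, P v → P (aK (g (mac j)) v)) (s : S44) : ∀ v, P v → P (aK (g s) v) := by
  have h1 : ∀ l, inR 8 l = true → ∀ v, P v → P (aK (g (Mach.pw mac l)) v) := fun l hl => by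
    have h2 := Mach.inR_lt hl
    clear hl
    induction l with
    | nil => exact fun v hv => by rwa [Mach.pw_nil, map_one, aK_one]
    | cons j l ih =>
      intro v hv
      rw [Mach.pw_cons, map_mul, aK_mul]
      exact h ⟨j, h2 j List.mem_cons_self⟩ _ (ih (fun i hi => h2 i (List.mem_cons_of_mem _ hi)) v hv)
  have h2 : ∀ w l, (inR 8 l && M44.okW w (l.flatMap mw)) = true → ∀ v, P v → P (aK (g (Mach.pw sg w)) v) := fun w l e => by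
    rw [Bool.and_eq_true] at e
    rw [M44.pw_eq e.2, pw_fl]
    exact h1 l e.1
  have hs : s ∈ (Subgroup.closure _).toSubmonoid := Grp.gen03 ▸ Subgroup.mem_top s
  rw [Subgroup.closure_toSubmonoid_of_finite] at hs
  induction hs using Submonoid.closure_induction with
  | mem s hs =>
    rcases hs with rfl | rfl | rfl | rfl
    · exact M44.pw_A 0 ▸ h2 (wA 0) [0, 7, 7] (by decide +kernel)
    · exact M44.pw_B 0 ▸ h2 (wB 0) [7] (by decide +kernel)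
    · exact M44.pw_A 3 ▸ h2 (wA 3) [0, 1, 1, 1, 1, 5, 5] (by decide +kernel)
    · exact M44.pw_B 3 ▸ h2 (wB 3) [5] (by decide +kernel)
  | one => exact fun v hv => by rwa [map_one, aK_one]
  | mul a b _ _ ha hb => exact fun v hv => by rw [map_mul, aK_mul]; exact ha _ (hb v hv)

theorem par_mac (h : PAR (e8 fun j => g (mac j))) : PAR g := by
  obtain ⟨W, h0, h1, h2⟩ := h
  exact ⟨W, h0, mac_gen (P := (· ∈ W)) h1, h2⟩

theorem Emb.mc {F : LK →+ LK} {n : ℕ} {G : List (List (ℕ × ℕ))} {κ : X n →+ LK} (h : Emb (fun w => g (Mach.pw sg w)) 14 n G κ)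
    (hF : ∀ x, F (κ x) = κ x) : Mc (fun j => g (mac j)) F n G κ :=
  ⟨h.wf, h.inj, fun j x => by rw [h.wd _ (pw_mw j).1, (pw_mw j).2], hF⟩

theorem B5.par {ζ : KK} {s : GK} {F : LK →+ LK} (h : B5 ζ (fun j => g (mac j)) s F) {A : AddSubgroup LK} (h0 : A ≠ ⊥)
    (h1 : Stb g A) (h2 : ∀ x ∈ A, ∀ y ∈ A, brK x y ∈ A) (hF : ∀ x ∈ A, F x = x)
    (soc : ∀ U ≤ A, Stb g U → U ≠ ⊥ → (∃ κ, Emb (fun w => g (Mach.pw sg w)) 14 8 G1 κ ∧ κ.range ≤ U ∧ Stb g κ.range) ∨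
      (∃ κ, Emb (fun w => g (Mach.pw sg w)) 14 8 G2 κ ∧ κ.range ≤ U ∧ Stb g κ.range) ∨
      (∃ κ, Emb (fun w => g (Mach.pw sg w)) 14 16 G3 κ ∧ κ.range ≤ U ∧ Stb g κ.range) ∨
      ∃ κ, Emb (fun w => g (Mach.pw sg w)) 14 32 G6 κ ∧ κ.range ≤ U ∧ Stb g κ.range) : PAR g := by
  refine par44 h0 h1 h2 fun U k1 k2 k3 => ?_
  rcases soc U k1 k2 k3 with ⟨κ, l1, l2, l3⟩ | ⟨κ, l1, l2, l3⟩ | ⟨κ, l1, l2, l3⟩ | ⟨κ, l1, l2, l3⟩
  all_goals have l4 := l1.mc fun x => hF _ (k1 (l2 ⟨x, rfl⟩))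
  · exact ⟨_, l2, l3, fun e => par_mac ((h.t8a l4).2 e), Or.inl (by rintro _ ⟨x, rfl⟩; exact (h.t8a l4).1 x)⟩
  · exact ⟨_, l2, l3, fun e => absurd e (h.t8b l4).2, Or.inl (by rintro _ ⟨x, rfl⟩; exact (h.t8b l4).1 x)⟩
  · exact ⟨_, l2, l3, fun e => par_mac ((h.t16 l4).2 e), Or.inr (by rintro _ ⟨x, rfl⟩; exact (h.t16 l4).1 x)⟩
  · exact ⟨_, l2, l3, fun e => absurd e (h.t32 l4).2, Or.inl (by rintro _ ⟨x, rfl⟩; exact (h.t32 l4).1 x)⟩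

end

/-- **the box `CaseB`** -/
theorem caseB_of (h : SocB) : CaseB ph := by
  intro f H hS h1 h2
  have hfx : ¬ Fixd f := hS.end_fix (small_Sp44 rfl) (out2_Sp44 rfl)
  obtain ⟨ρ, hρ, soc⟩ := (h f hS.inj h1 h2).resolve_left hfx
  obtain ⟨ζ, z, s, F, hB, hF⟩ := exists_B5 f hS.inj h1 h2
  obtain ⟨g, e1⟩ : ∃ g : S44 →* GK, ∀ s, cj z (f s) = g s := ⟨(cj z).comp f, fun s => (MonoidHom.comp_apply _ _ _).symm⟩
  have h3 := hS.not_par (small_Sp44 rfl) hfx z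
  have h4 := Rat_stb z f
  have h5 := fun U => exists_emb hρ (M44.sg_gen fun j hj => Subgroup.subset_closure ⟨j, hj, rfl⟩) z (U := U)
  simp only [e1] at h3 h4 h5 hB
  refine h3 (hB.par (Rat_ne z) h4 (Rat_br z) (by rintro _ ⟨x, rfl⟩; exact hF x) fun U k1 k2 k3 => ?_)
  obtain ⟨U', k4, k5, k6⟩ := h5 U k1 k2 k3
  rcases soc U' k4 k5 with ⟨e, k7⟩ | ⟨e, k7⟩ | ⟨e, k7⟩ | ⟨e, k7⟩
  · exact Or.inl (k6 8 G1 e (by decide +kernel) k7.1 k7.2.1 k7.2.2)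
  · exact Or.inr (Or.inl (k6 8 G2 e (by decide +kernel) k7.1 k7.2.1 k7.2.2))
  · exact Or.inr (Or.inr (Or.inl (k6 16 G3 e (by decide +kernel) k7.1 k7.2.1 k7.2.2)))
  · exact Or.inr (Or.inr (Or.inr (k6 32 G6 e (by decide +kernel) k7.1 k7.2.1 k7.2.2)))

end Cfsg.Agent.E82.Soc
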