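import Cfsg.Agent.E82.Soc.B1

/-!
# S3369, `Sp₄(4)`: abelian submodules in the frame of `5²` (helper92)

* `B5.no8`, `B5.no32` : two types are not abelian; `B5.par4`, `B5.par16` : the other two are in a nilradical.
-/

set_option autoImplicit false
set_option maxRecDepth 100000
set_option maxHeartbeats 400000

namespace Cfsg.Agent.E82.Soc

open Cfsg Cfsg.Lie
open Cfsg.Agent.H939.L64 (KK LK aK brK)
open Cfsg.Agent.H876.L64 (aK_mul aK_one aK_add aK_smul aK_zero aK_brK aK_inv aK_inv' two_zero)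
open Cfsg.Agent.H413.L16 (er hr xr ipj br_comm add_self' eq_of_er ipj_lt)
open Cfsg.Agent.H201.L34 (gw bf bf_zero_r br_add_l br_add_r br_smul_l br_smul_r br_zero_l br_zero_r)
open Cfsg.Agent.E8A (InN)

/-- the check for one coefficient -/
def cb (l l' : List ℕ) (γ : ℕ) (ps : List (ℕ × ℕ)) : Bool := okL l && decide (γ < 240) && !l.contains γ && decide (prs l l' γ = ps)

/-- the check for a pair of roots -/
def ckn (l l' : List ℕ) (a b β d e : ℕ) : Bool := (cb l l' β [(a, 239 - b)] && cb l l' (239 - β) [(b, 239 - a)]) &&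
  ((okL l && decide (prh l l' d = [a])) && (okL l && decide (prh l l' e = [b])))

theorem br_ne4 {l l' : List ℕ} {a b β d e : ℕ} (h : ckn l l' a b β d e = true) {x y : LK} (hx : x ∈ Sp (· ∈ l))
    (hy : y ∈ Sp (· ∈ l')) (hb : brK x y = 0) : co a x = 0 ∧ co b x = 0 ∨ co (239 - a) y = 0 ∧ co (239 - b) y = 0 := by
  rw [ckn, Bool.and_eq_true, Bool.and_eq_true, Bool.and_eq_true] at h
  have e1 := co_br h.1.1 hx hy.2
  have e2 := co_br h.1.2 hx hy.2
  have e3 := bf_hr_br h.2.1 hx hy.2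
  have e4 := bf_hr_br h.2.2 hx hy.2
  rw [hb, co_zero] at e1 e2
  rw [hb, bf_zero_r] at e3 e4
  simp only [List.map_cons, List.map_nil, List.sum_cons, List.sum_nil, add_zero] at e1 e2 e3 e4
  by_cases k1 : co a x = 0
  · by_cases k2 : co b x = 0
    · exact Or.inl ⟨k1, k2⟩
    · exact Or.inr ⟨(mul_eq_zero.1 e2.symm).resolve_left k2, (mul_eq_zero.1 e4.symm).resolve_left k2⟩
  · exact Or.inr ⟨(mul_eq_zero.1 e3.symm).resolve_left k1, (mul_eq_zero.1 e1.symm).resolve_left k1⟩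

theorem zero_list {v : LK} {l : List ℕ} (hv : v ∈ Sp (· ∈ l)) (h : ∀ r ∈ l, co r v = 0) : v = 0 := zero_of_Sp hv fun r _ => h r

section

variable {ζ : KK} {e : ℕ → GK} {s : GK} {F : LK →+ LK}

theorem B5.Fzz (h : B5 ζ e s F) : F zz = zz := by rw [zz_eq, map_add, h.F1, h.F2, add_comm]

theorem B5.EgF (h : B5 ζ e s F) {z z' v : LK} (hz : F z = z') (hv : v ∈ Eg z 1) : F v ∈ Eg z' 1 := by
  show brK z' (F v) = (1 : KK) • F v
  rw [← hz, ← h.Fb, show brK z v = (1 : KK) • v from hv, one_smul, one_smul]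

theorem B5.sp1 (h : B5 ζ e s F) {a b : ℕ} {l : List ℕ} (hl : (decide (0 < a ∧ a < 5 ∧ b < 5) &&
    (List.range 240).all fun r => decide (v5 0 r = a → v5 1 r = b → od r = true → r ∈ l)) = true) {n : LK} (hn : Wt ζ e a b n)
    (h1 : n ∈ Eg zz 1) : n ∈ Sp (· ∈ l) := by
  rw [Bool.and_eq_true, decide_eq_true_eq] at hl
  refine Sp_mono (fun r hr' k => of_decide_eq_true (all_lt hl.2 hr') k.1.1 k.1.2 k.2)
    (Eg_sp (A := fun r => v5 0 r = a ∧ v5 1 r = b) T0_zz (fun r h1 v => co_zz h1 v) (fun r hr' e1 => ?_) h1)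
  by_cases e2 : v5 0 r = a
  · exact h.d2.eig h.prim hl.1.2.2 hn.2 hr' (v5_lt 1 hr') fun e3 => e1 ⟨e2, e3⟩
  · exact h.d1.eig h.prim hl.1.2.1 hn.1 hr' (v5_lt 0 hr') e2

/-- **the second module of dimension four is not abelian** -/
theorem B5.no8 (h : B5 ζ e s F) {m : LK} (hw : Wt ζ e 1 4 m) (h1 : m ∈ Eg zz 1) (h2 : aK (e 2) m = m) (h3 : brK m (F (F m)) = 0) :
    m = 0 := by
  have s1 := h.sp1 (l := [65, 55, 114, 110]) (by decide +kernel) hw h1
  have s2 := h.sp1 (l := [174, 184, 125, 129]) (by decide +kernel)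
    (h.wtF (a' := 4) (b' := 1) rfl rfl (h.wtF (a' := 2) (b' := 3) rfl rfl hw)) (h.EgF h.Fzz (h.EgF h.Fzz h1))
  have c1 := h.mW.cos (a := 65) (L := [(65, 114), (55, 110)]) (by decide +kernel) m
  have c2 := h.mW.cos (a := 174) (L := [(174, 125), (184, 129)]) (by decide +kernel) (F (F m))
  rw [h2] at c1
  rw [← h.Fe, ← h.Fe, h2] at c2
  simp only [List.forall_mem_cons, List.not_mem_nil, false_imp_iff, implies_true, and_true] at c1 c2
  rcases br_ne4 (a := 65) (b := 55) (β := 135) (d := 6) (e := 5) (by decide +kernel) s1 s2 h3 with k | k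
  · exact zero_list s1 (by simp [c1.1, c1.2, k.1, k.2])
  · simp only [Nat.reduceSub] at k
    exact h.FF (zero_list s2 (by simp [c2.1, c2.2, k.1, k.2]))

/-- **the module of dimension 32 is not abelian** -/
theorem B5.no32 (h : B5 ζ e s F) {n : LK} (hw : Wt ζ e 1 2 n) (h1 : n ∈ Eg zz 1) (h3 : brK n (F (F n)) = 0) : n = 0 := by
  have s1 := h.sp1 (l := [213, 203, 10, 9]) (by decide +kernel) hw h1
  have s2 := h.sp1 (l := [26, 36, 229, 230]) (by decide +kernel)
    (h.wtF (a' := 4) (b' := 3) rfl rfl (h.wtF (a' := 2) (b' := 4) rfl rfl hw)) (h.EgF h.Fzz (h.EgF h.Fzz h1))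
  have key : ∀ {z : LK} {g : ℕ → Bool} {a b : ℕ}, (∀ v, T0 (brK z v)) →
      (∀ r < 240, ∀ v, co r (brK z v) = if g r = true then co r v else 0) → F (F z) = z → a < 240 ∧ b < 240 ∧ g a = true ∧ g b = true →
      (∀ r < 240, r ∈ [26, 36, 229, 230] ∧ g r = true → r ∈ [239 - a, 239 - b] ∧ g r = true) →
      co a n = 0 ∧ co b n = 0 ∨ co (239 - a) (F (F n)) = 0 ∧ co (239 - b) (F (F n)) = 0 → co a n = 0 ∧ co b n = 0 := by
    intro z g a b k1 k2 k3 k4 k5 k6
    refine k6.elim id fun k6 => ?_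
    have k7 : brK z n = 0 := h.FF (by
      rw [h.Fb, h.Fb, k3]
      refine zero_of_Sp (Sp_mono k5 (Sp_one k1 k2 s2.2)) fun r k8 k9 => ?_
      rw [k2 r k8, if_pos k9.2]
      rcases List.mem_pair.1 k9.1 with rfl | rfl
      exacts [k6.1, k6.2])
    have k8 := k2 a k4.1 n
    have k9 := k2 b k4.2.1 n
    rw [k7, co_zero, if_pos k4.2.2.1] at k8
    rw [k7, co_zero, if_pos k4.2.2.2] at k9
    exact ⟨k8.symm, k9.symm⟩
  have e1 := key (z := z13) (T0_h2 _ _) (fun r h1 v => co_z13 h1 v) (by rw [h.F1, h.F2]) (by decide +kernel) (by decide +kernel)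
    (br_ne4 (a := 213) (b := 203) (β := 141) (d := 14) (e := 15) (by decide +kernel) s1 s2 h3)
  have e2 := key (z := z24) (T0_h2 _ _) (fun r h1 v => co_z24 h1 v) (by rw [h.F2, h.F1]) (by decide +kernel) (by decide +kernel)
    (br_ne4 (a := 10) (b := 9) (β := 126) (d := 4) (e := 3) (by decide +kernel) s1 s2 h3)
  exact zero_list s1 (by simp [e1.1, e1.2, e2.1, e2.2])

/-! ### the centraliser of `x₁, x₂, w₃` -/

/-- elements which commute with `x₁, x₂, w₃` and fix the toral elements -/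
structure Cm (e : ℕ → GK) (c : GK) : Prop where
  c0 : e 0 * c = c * e 0
  c1 : e 1 * c = c * e 1
  c2 : e 2 * c = c * e 2
  f1 : aK c z13 = z13
  f2 : aK c z24 = z24

theorem Cm.wt {c : GK} (hc : Cm e c) {a b : ℕ} {n : LK} (hn : Wt ζ e a b n) : Wt ζ e a b (aK c n) :=
  ⟨by rw [← aK_mul, hc.c0, aK_mul, hn.1, aK_smul], by rw [← aK_mul, hc.c1, aK_mul, hn.2, aK_smul]⟩

theorem Cm.w {c : GK} (hc : Cm e c) (n : LK) : aK (e 2) (aK c n) = aK c (aK (e 2) n) := by rw [← aK_mul, hc.c2, aK_mul]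

theorem Cm.zz {c : GK} (hc : Cm e c) : aK c zz = zz := by rw [zz_eq, aK_add, hc.f1, hc.f2]

theorem xr_h2 {r a b : ℕ} (h : r < 240 ∧ (pa a r + pa b r) % 2 = 0) (t : KK) : aK (xr r t) (hr a + hr b) = hr a + hr b := by
  have h1 : brK (er r) (hr a + hr b) = 0 := by
    rw [br_comm]
    refine eq_zero_of (T0_h2 a b _) fun u hu => ?_
    rw [br_add_l, co_add, co_br_hr, co_br_hr]
    by_cases e : r = u
    · rw [← add_mul, ← Int.cast_add, ← e, Cfsg.Agent.H413.L16.cast_even h.2, zero_mul]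
    · rw [co_er_ne e, mul_zero, mul_zero, add_zero]
  rw [aK_xr' h.1, h1, co_add, co_hr, co_hr, add_zero, mul_zero, zero_smul, smul_zero, add_zero, add_zero]

theorem B5.cm_xl (h : B5 ζ e s F) {p q : ℕ} (hp : (p, q) ∈ [(118, 98), (113, 104)]) (t : KK) : Cm e (xl [p, q] t) := by
  have k : ∀ x ∈ [(118, 98), (113, 104)], (∀ r ∈ [x.1, x.2], r < 240 ∧ v5 0 r = 0 ∧ v5 1 r = 0 ∧ (∃ k, r = 239 - ipj k) ∧
      (pa 121 r + pa 141 r) % 2 = 0 ∧ (pa 126 r + pa 135 r) % 2 = 0) ∧ [x.1, x.2].Perm ([x.1, x.2].map (pw l3)) ∧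
      [x.1, x.2].Pairwise fun a b => a < 240 ∧ b < 240 ∧ b ≠ 239 - a ∧ tf a b = 240 := by decide +kernel
  obtain ⟨k1, k2, k3⟩ := k _ hp
  dsimp only at k1 k2 k3
  have kp := k1 p (by simp)
  have kq := k1 q (by simp)
  have e1 : ∀ v, aK (xl [p, q] t) v = aK (xr p t) (aK (xr q t) v) := fun v => by
    rw [xl_cons, xl_cons, aK_mul, aK_mul, show xl [] t = 1 from rfl, aK_one]
  refine ⟨comm_xl (σ := id) t (fun r k => ⟨(k1 r k).1, (k1 r k).1, ?_⟩) (by rw [List.map_id]) k3,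
    comm_xl (σ := id) t (fun r k => ⟨(k1 r k).1, (k1 r k).1, ?_⟩) (by rw [List.map_id]) k3,
    comm_xl (σ := pw l3) t (fun r k => ?_) k2 k3, ?_, ?_⟩
  · rw [h.d1.er (k1 r k).1, (k1 r k).2.1, pow_zero, one_smul, id]
  · rw [h.d2.er (k1 r k).1, (k1 r k).2.2.1, pow_zero, one_smul, id]
  · obtain ⟨j, hj⟩ := (k1 r k).2.2.2.1
    exact ⟨(k1 r k).1, h.mW.lt (k1 r k).1, h.mW.b j (Or.inr hj)⟩
  · rw [e1, z13, xr_h2 ⟨kq.1, kq.2.2.2.2.1⟩, xr_h2 ⟨kp.1, kp.2.2.2.2.1⟩]
  · rw [e1, z24, xr_h2 ⟨kq.1, kq.2.2.2.2.2⟩, xr_h2 ⟨kp.1, kp.2.2.2.2.2⟩]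

theorem B5.cm_gw (h : B5 ζ e s F) {l : List ℕ} (hl : l ∈ [[121, 141], [126, 135]]) : Cm e (gw l) := by
  have k : ∀ l ∈ [[121, 141], [126, 135]], okW l = true ∧ ((List.range 240).all fun r => decide (v5 0 (pw l r) = v5 0 r ∧
      v5 1 (pw l r) = v5 1 r ∧ pw l3 (pw l r) = pw l (pw l3 r)) && cob l (pw l r) (r, pw l r)) = true ∧
      ∀ r ∈ [121, 141, 126, 135], pw l r = r ∨ pw l r = 239 - r := by decide +kernel
  obtain ⟨k1, k2, k3⟩ := k l hl
  have k4 : ∀ r < 240, (v5 0 (pw l r) = v5 0 r ∧ v5 1 (pw l r) = v5 1 r ∧ pw l3 (pw l r) = pw l (pw l3 r)) ∧ ky r (pw l r) :=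
    fun r h1 => by
      have h2 := all_lt k2 h1
      rw [Bool.and_eq_true, decide_eq_true_eq, cob, Bool.and_eq_true, decide_eq_true_eq] at h2
      exact ⟨h2.1, h2.2.2⟩
  have k5 : ∀ r ∈ [121, 141, 126, 135], aK (gw l) (hr r) = hr r := fun r h1 => by
    have h2 : r < 240 := (by decide : ∀ r ∈ [121, 141, 126, 135], r < 240) r h1
    rw [(mn_gw k1).hr h2]
    rcases k3 r h1 with e1 | e1
    · rw [e1]
    · rw [e1, Cfsg.Agent.H413.L16.hr_neg h2]
  refine ⟨(gw_conj k1 h.d1 h.d1 fun r h1 => (k4 r h1).1.1).symm, (gw_conj k1 h.d2 h.d2 fun r h1 => (k4 r h1).1.2.1).symm,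
    eq_of_er fun r h1 => ?_, ?_, ?_⟩
  · rw [aK_mul, aK_mul, (gw_er k1 h1).1, h.mW.er h1, h.mW.er (gw_er k1 h1).2, aK_smul, (gw_er k1 (h.mW.lt h1)).1, (k4 r h1).1.2.2,
      chi_ky h.mW.2.1 (k4 r h1).2]
  · rw [z13, aK_add, k5 _ (by decide), k5 _ (by decide)]
  · rw [z24, aK_add, k5 _ (by decide), k5 _ (by decide)]

theorem co_gw {l : List ℕ} {L : List (ℕ × ℕ)} (h : (okW l && L.all fun p => Nat.blt p.1 240 && Nat.beq (pw l p.1) p.2) = true)
    (v : LK) : ∀ p ∈ L, co p.2 (aK (gw l) v) = co p.1 v := fun p hp => by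
  rw [Bool.and_eq_true] at h
  have h1 := List.all_eq_true.1 h.2 p hp
  rw [Bool.and_eq_true, Nat.blt_eq] at h1
  rw [← Nat.eq_of_beq_eq_true h1.2, (mn_gw h.1).co h1.1, chi, Cfsg.Agent.H129.TorusChar.cX_one, one_mul]

/-! ### the first module of dimension four -/

/-- the hypotheses -/
structure H4 (ζ : KK) (e : ℕ → GK) (p m : LK) : Prop where
  w1 : Wt ζ e 1 0 p
  w2 : Wt ζ e 4 0 m
  g1 : p ∈ Eg zz 1
  g2 : m ∈ Eg zz 1
  b1 : brK p (aK (e 2) p) = 0
  b2 : brK m (aK (e 2) m) = 0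
  b3 : brK p (aK (e 2) m) = 0
  b4 : brK p m = 0

/-- the conclusion -/
def C4 (e : ℕ → GK) (p m : LK) : Prop := ∃ g : GK, InN (aK g p) ∧ InN (aK g m) ∧ InN (aK g (aK (e 2) p)) ∧ InN (aK g (aK (e 2) m))

theorem H4.conj {p m : LK} (h : H4 ζ e p m) {c : GK} (hc : Cm e c) : H4 ζ e (aK c p) (aK c m) :=
  ⟨hc.wt h.w1, hc.wt h.w2, Eg_aK hc.zz h.g1, Eg_aK hc.zz h.g2, by rw [hc.w, ← aK_brK, h.b1, aK_zero],
    by rw [hc.w, ← aK_brK, h.b2, aK_zero], by rw [hc.w, ← aK_brK, h.b3, aK_zero], by rw [← aK_brK, h.b4, aK_zero]⟩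

theorem C4.conj {p m : LK} {c : GK} (hc : Cm e c) (h : C4 e (aK c p) (aK c m)) : C4 e p m := by
  obtain ⟨g, h1⟩ := h
  rw [hc.w, hc.w, ← aK_mul, ← aK_mul, ← aK_mul g c, ← aK_mul g c] at h1
  exact ⟨_, h1⟩

theorem B5.sp4 (h : B5 ζ e s F) {p m : LK} (k : H4 ζ e p m) : p ∈ Sp (· ∈ [148, 143, 147, 142, 137, 131, 136, 130]) ∧
    m ∈ Sp (· ∈ [109, 103, 108, 102, 97, 92, 96, 91]) :=
  ⟨h.sp1 (by decide +kernel) k.w1 k.g1, h.sp1 (by decide +kernel) k.w2 k.g2⟩

theorem sq0 {a b : KK} (h : a * a + b * b = 0) : a = b := by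
  have h1 : (a - b) ^ 2 = 0 := by linear_combination h - a * b * two_zero
  exact sub_eq_zero.1 ((pow_eq_zero_iff two_ne_zero).1 h1)

theorem B5.rel4 (h : B5 ζ e s F) {p m : LK} (k : H4 ζ e p m) : (co 147 p = co 143 p ∧ co 136 p = co 131 p ∧ co 108 m = co 103 m ∧
    co 96 m = co 92 m) ∧ ∀ i j, ![co 148 p, co 137 p, co 109 m, co 97 m] i * ![co 142 p, co 130 p, co 102 m, co 91 m] j +
      ![co 142 p, co 130 p, co 102 m, co 91 m] i * ![co 148 p, co 137 p, co 109 m, co 97 m] j = 0 := by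
  obtain ⟨s1, s2⟩ := h.sp4 k
  have s3 : aK (e 2) p ∈ Sp (· ∈ [64, 61, 54, 51, 63, 60, 53, 50]) := h.mW.sp (by decide +kernel) s1
  have s4 : aK (e 2) m ∈ Sp (· ∈ [189, 186, 179, 176, 188, 185, 178, 175]) := h.mW.sp (by decide +kernel) s2
  have p1 := h.mW.cos (a := 148) (L := [(148, 64), (143, 61), (147, 54), (142, 51), (137, 63), (131, 60), (136, 53), (130, 50)])
    (by decide +kernel) p
  have p2 := h.mW.cos (a := 109) (L := [(109, 189), (103, 186), (108, 179), (102, 176), (97, 188), (92, 185), (96, 178), (91, 175)])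
    (by decide +kernel) m
  simp only [List.forall_mem_cons, List.not_mem_nil, false_imp_iff, implies_true, and_true] at p1 p2
  obtain ⟨p11, p12, p13, p14, p15, p16, p17, p18⟩ := p1
  obtain ⟨p21, p22, p23, p24, p25, p26, p27, p28⟩ := p2
  have e1 := co_br (γ := 73) (ps := [(148, 51), (143, 61), (147, 54), (142, 64)]) (by decide +kernel) s1 s3.2
  have e2 := co_br (γ := 67) (ps := [(137, 50), (131, 60), (136, 53), (130, 63)]) (by decide +kernel) s1 s3.2
  have e3 := co_br (γ := 72) (ps := [(148, 50), (143, 60), (147, 53), (142, 63)]) (by decide +kernel) s1 s3.2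
  have e4 := co_br (γ := 172) (ps := [(109, 176), (103, 186), (108, 179), (102, 189)]) (by decide +kernel) s2 s4.2
  have e5 := co_br (γ := 166) (ps := [(97, 175), (92, 185), (96, 178), (91, 188)]) (by decide +kernel) s2 s4.2
  have e6 := co_br (γ := 171) (ps := [(109, 175), (103, 185), (108, 178), (102, 188)]) (by decide +kernel) s2 s4.2
  have e7 := co_br (γ := 205) (ps := [(148, 176), (143, 186), (147, 179), (142, 189)]) (by decide +kernel) s1 s4.2
  have e8 := co_br (γ := 204) (ps := [(148, 175), (143, 185), (147, 178), (142, 188)]) (by decide +kernel) s1 s4.2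
  have e9 := co_br (γ := 195) (ps := [(137, 176), (131, 186), (136, 179), (130, 189)]) (by decide +kernel) s1 s4.2
  have e10 := co_br (γ := 194) (ps := [(137, 175), (131, 185), (136, 178), (130, 188)]) (by decide +kernel) s1 s4.2
  rw [k.b1, co_zero] at e1 e2 e3
  rw [k.b2, co_zero] at e4 e5 e6
  rw [k.b3, co_zero] at e7 e8 e9 e10
  simp only [List.map_cons, List.map_nil, List.sum_cons, List.sum_nil, add_zero, p11, p12, p13, p14, p15, p16, p17, p18, p21, p22,
    p23, p24, p25, p26, p27, p28] at e1 e2 e3 e4 e5 e6 e7 e8 e9 e10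
  have k1 := chi_ne h.mW.2.1 148
  have k2 := chi_ne h.mW.2.1 109
  have t2 := two_zero
  generalize chi s 148 = x at *
  generalize chi s 109 = y at *
  have q1 : co 147 p = co 143 p := sq0 (mul_left_cancel₀ k1 (by linear_combination -e1 - x * co 148 p * co 142 p * t2))
  have q2 : co 136 p = co 131 p := sq0 (mul_left_cancel₀ k1 (by linear_combination -e2 - x * co 137 p * co 130 p * t2))
  have q3 : co 108 m = co 103 m := sq0 (mul_left_cancel₀ k2 (by linear_combination -e4 - y * co 109 m * co 102 m * t2))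
  have q4 : co 96 m = co 92 m := sq0 (mul_left_cancel₀ k2 (by linear_combination -e5 - y * co 97 m * co 91 m * t2))
  rw [q1, q2] at e3
  rw [q3, q4] at e6
  rw [q1, q3] at e7
  rw [q1, q4] at e8
  rw [q2, q3] at e9
  rw [q2, q4] at e10
  have r1 : co 148 p * co 130 p + co 142 p * co 137 p = 0 :=
    mul_left_cancel₀ k1 (by linear_combination -e3 - x * co 143 p * co 131 p * t2)
  have r2 : co 109 m * co 91 m + co 102 m * co 97 m = 0 :=
    mul_left_cancel₀ k2 (by linear_combination -e6 - y * co 103 m * co 92 m * t2)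
  have r3 : co 148 p * co 102 m + co 142 p * co 109 m = 0 :=
    mul_left_cancel₀ k2 (by linear_combination -e7 - y * co 143 p * co 103 m * t2)
  have r4 : co 148 p * co 91 m + co 142 p * co 97 m = 0 :=
    mul_left_cancel₀ k2 (by linear_combination -e8 - y * co 143 p * co 92 m * t2)
  have r5 : co 137 p * co 102 m + co 130 p * co 109 m = 0 :=
    mul_left_cancel₀ k2 (by linear_combination -e9 - y * co 131 p * co 103 m * t2)
  have r6 : co 137 p * co 91 m + co 130 p * co 97 m = 0 :=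
    mul_left_cancel₀ k2 (by linear_combination -e10 - y * co 131 p * co 92 m * t2)
  refine ⟨⟨q1, q2, q3, q4⟩, fun i j => ?_⟩
  fin_cases i <;> fin_cases j <;> simp only [Fin.zero_eta, Fin.mk_one, Fin.reduceFinMk, Matrix.cons_val] <;>
    first
      | assumption
      | exact (congrArg₂ _ rfl (mul_comm _ _)).trans (two_mul_K _)
      | linear_combination r1 | linear_combination r2 | linear_combination r3 | linear_combination r4
      | linear_combination r5 | linear_combination r6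

theorem B5.st3 (h : B5 ζ e s F) {p m : LK} (k : H4 ζ e p m) (d : co 142 p = 0 ∧ co 130 p = 0 ∧ co 102 m = 0 ∧ co 91 m = 0)
    (b : co 131 p = 0 ∧ co 92 m = 0) : C4 e p m := by
  obtain ⟨s1, s2⟩ := h.sp4 k
  obtain ⟨⟨-, q2, -, q4⟩, -⟩ := h.rel4 k
  have s3 : p ∈ Sp (· ∈ [148, 143, 147, 137]) := Sp_drop s1 (by simp [d.1, d.2.1, b.1, q2])
  have s4 : m ∈ Sp (· ∈ [109, 103, 108, 97]) := Sp_drop s2 (by simp [d.2.2.1, d.2.2.2, b.2, q4])
  have w := mn_gw (l := [120, 122, 126, 140, 147, 166, 174, 217]) rfl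
  exact ⟨_, inN_of (w.sp (by decide +kernel) s3), inN_of (w.sp (by decide +kernel) s4),
    inN_of (w.sp (A := (· ∈ [64, 61, 54, 63])) (by decide +kernel) (h.mW.sp (by decide +kernel) s3)),
    inN_of (w.sp (A := (· ∈ [189, 186, 179, 188])) (by decide +kernel) (h.mW.sp (by decide +kernel) s4))⟩

theorem B5.st2 (h : B5 ζ e s F) {p m : LK} (k : H4 ζ e p m) (d : co 142 p = 0 ∧ co 130 p = 0 ∧ co 102 m = 0 ∧ co 91 m = 0) :
    C4 e p m := by
  obtain ⟨s1, s2⟩ := h.sp4 k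
  obtain ⟨⟨-, -, q3, q4⟩, -⟩ := h.rel4 k
  have e1 := bf_hr_br (a := 3) (ps := [148, 143, 137, 131]) (by decide +kernel) s1 s2.2
  rw [k.b4, bf_zero_r] at e1
  simp only [List.map_cons, List.map_nil, List.sum_cons, List.sum_nil, add_zero, Nat.reduceSub, d.2.2.1, d.2.2.2, q3, q4, mul_zero,
    zero_add] at e1
  by_cases e2 : co 143 p = 0 ∧ co 103 m = 0
  · have c1 := co_gw (l := [121, 141]) (L := [(130, 142), (142, 130), (143, 131)]) (by decide +kernel) p
    have c2 := co_gw (l := [121, 141]) (L := [(91, 102), (102, 91), (103, 92)]) (by decide +kernel) m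
    simp only [List.forall_mem_cons, List.not_mem_nil, false_imp_iff, implies_true, and_true] at c1 c2
    have hc := h.cm_gw (l := [121, 141]) (by decide)
    exact C4.conj hc (h.st3 (k.conj hc) ⟨c1.1.trans d.2.1, c1.2.1.trans d.1, c2.1.trans d.2.2.2, c2.2.1.trans d.2.2.1⟩
      ⟨c1.2.2.trans e2.1, c2.2.2.trans e2.2⟩)
  · obtain ⟨t, t1, t2⟩ : ∃ t, co 131 p + t * co 143 p = 0 ∧ co 92 m + t * co 103 m = 0 := by
      by_cases e3 : co 143 p = 0
      · have e4 : co 103 m ≠ 0 := fun e4 => e2 ⟨e3, e4⟩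
        rw [e3, zero_mul, zero_add] at e1
        refine ⟨co 92 m / co 103 m, by rw [e3, mul_zero, add_zero, (mul_eq_zero.1 e1.symm).resolve_right e4], ?_⟩
        rw [div_mul_cancel₀ _ e4, two_mul_K]
      · refine ⟨co 131 p / co 143 p, by rw [div_mul_cancel₀ _ e3, two_mul_K], mul_left_cancel₀ e3 ?_⟩
        field_simp
        linear_combination -e1
    have hc := h.cm_xl (p := 118) (q := 98) (by decide) t
    have d1 := co_xl (l := [118, 98]) (γ := 142) (ps := [(0, 142)]) (by decide +kernel) t s1.2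
    have d2 := co_xl (l := [118, 98]) (γ := 130) (ps := [(0, 130), (1, 142)]) (by decide +kernel) t s1.2
    have d3 := co_xl (l := [118, 98]) (γ := 102) (ps := [(0, 102)]) (by decide +kernel) t s2.2
    have d4 := co_xl (l := [118, 98]) (γ := 91) (ps := [(0, 91), (1, 102)]) (by decide +kernel) t s2.2
    have d5 := co_xl (l := [118, 98]) (γ := 131) (ps := [(0, 131), (1, 143)]) (by decide +kernel) t s1.2
    have d6 := co_xl (l := [118, 98]) (γ := 92) (ps := [(0, 92), (1, 103)]) (by decide +kernel) t s2.2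
    simp only [List.map_cons, List.map_nil, List.sum_cons, List.sum_nil, add_zero, d.1, d.2.1, d.2.2.1, d.2.2.2, mul_zero, pow_zero,
      pow_one, one_mul, t1, t2] at d1 d2 d3 d4 d5 d6
    exact C4.conj hc (h.st3 (k.conj hc) ⟨d1, d2, d3, d4⟩ ⟨d5, d6⟩)

/-- **an abelian module of dimension four** -/
theorem B5.par4 (h : B5 ζ e s F) {p m : LK} (k : H4 ζ e p m) : C4 e p m := by
  obtain ⟨s1, s2⟩ := h.sp4 k
  obtain ⟨⟨q1, q2, q3, q4⟩, q5⟩ := h.rel4 k
  rcases exists_t q5 with e1 | ⟨t, e1⟩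
  · have c1 := co_gw (l := [126, 135]) (L := [(148, 142), (137, 130)]) (by decide +kernel) p
    have c2 := co_gw (l := [126, 135]) (L := [(109, 102), (97, 91)]) (by decide +kernel) m
    simp only [List.forall_mem_cons, List.not_mem_nil, false_imp_iff, implies_true, and_true] at c1 c2
    have hc := h.cm_gw (l := [126, 135]) (by decide)
    exact C4.conj hc (h.st2 (k.conj hc) ⟨c1.1.trans (e1 0), c1.2.trans (e1 1), c2.1.trans (e1 2), c2.2.trans (e1 3)⟩)
  · have a0 : co 142 p = t ^ 2 * co 148 p := e1 0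
    have a1 : co 130 p = t ^ 2 * co 137 p := e1 1
    have a2 : co 102 m = t ^ 2 * co 109 m := e1 2
    have a3 : co 91 m = t ^ 2 * co 97 m := e1 3
    have hc := h.cm_xl (p := 113) (q := 104) (by decide) t
    have d1 := co_xl (l := [113, 104]) (γ := 142) (ps := [(0, 142), (1, 147), (1, 143), (2, 148)]) (by decide +kernel) t s1.2
    have d2 := co_xl (l := [113, 104]) (γ := 130) (ps := [(0, 130), (1, 136), (1, 131), (2, 137)]) (by decide +kernel) t s1.2
    have d3 := co_xl (l := [113, 104]) (γ := 102) (ps := [(0, 102), (1, 108), (1, 103), (2, 109)]) (by decide +kernel) t s2.2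
    have d4 := co_xl (l := [113, 104]) (γ := 91) (ps := [(0, 91), (1, 96), (1, 92), (2, 97)]) (by decide +kernel) t s2.2
    simp only [List.map_cons, List.map_nil, List.sum_cons, List.sum_nil, add_zero, a0, a1, a2, a3, q1, q2, q3, q4] at d1 d2 d3 d4
    have t2 := two_zero
    refine C4.conj hc (h.st2 (k.conj hc) ⟨?_, ?_, ?_, ?_⟩)
    · linear_combination d1 + (t ^ 2 * co 148 p + t * co 143 p) * t2
    · linear_combination d2 + (t ^ 2 * co 137 p + t * co 131 p) * t2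
    · linear_combination d3 + (t ^ 2 * co 109 m + t * co 103 m) * t2
    · linear_combination d4 + (t ^ 2 * co 97 m + t * co 92 m) * t2

/-! ### dimension 16 -/

/-- the check for a contraction over the first natural module -/
def ckR (a b c d a' b' c' d' g1 g2 g3 g4 : ℕ) : Bool :=
  (cb [a, b, c, d] [a', b', c', d'] g1 [(a, c'), (c, a')] && cb [a, b, c, d] [a', b', c', d'] g2 [(a, d'), (c, b')]) &&
  (cb [a, b, c, d] [a', b', c', d'] g3 [(b, c'), (d, a')] && cb [a, b, c, d] [a', b', c', d'] g4 [(b, d'), (d, b')])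

theorem relR {a b c d a' b' c' d' g1 g2 g3 g4 : ℕ} (h : ckR a b c d a' b' c' d' g1 g2 g3 g4 = true) {x y : LK}
    (hx : x ∈ Sp (· ∈ [a, b, c, d])) (hy : y ∈ Sp (· ∈ [a', b', c', d'])) (hb : brK x y = 0) :
    (co a x * co c' y + co c x * co a' y = 0 ∧ co a x * co d' y + co c x * co b' y = 0) ∧
      co b x * co c' y + co d x * co a' y = 0 ∧ co b x * co d' y + co d x * co b' y = 0 := by
  rw [ckR, Bool.and_eq_true, Bool.and_eq_true, Bool.and_eq_true] at h
  have e1 := co_br h.1.1 hx hy.2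
  have e2 := co_br h.1.2 hx hy.2
  have e3 := co_br h.2.1 hx hy.2
  have e4 := co_br h.2.2 hx hy.2
  rw [hb, co_zero] at e1 e2 e3 e4
  simp only [List.map_cons, List.map_nil, List.sum_cons, List.sum_nil, add_zero] at e1 e2 e3 e4
  exact ⟨⟨e1.symm, e2.symm⟩, e3.symm, e4.symm⟩

theorem relR' {a b c d a' b' c' d' g1 g2 g3 g4 : ℕ} (h : ckR a b c d a' b' c' d' g1 g2 g3 g4 = true) {x y : LK}
    (hx : x ∈ Sp (· ∈ [a, b, c, d])) (hy : y ∈ Sp (· ∈ [a', b', c', d'])) (hb : brK x y = 0) (h0 : y ≠ 0)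
    (h1 : co c' y = 0 ∧ co d' y = 0) : x ∈ Sp (· ∈ [a, b]) := by
  obtain ⟨⟨e1, e2⟩, e3, e4⟩ := relR h hx hy hb
  rw [h1.1, mul_zero, zero_add] at e1 e3
  rw [h1.2, mul_zero, zero_add] at e2 e4
  have h2 : co c x = 0 ∧ co d x = 0 := by
    by_cases k : co a' y = 0
    · have k2 : co b' y ≠ 0 := fun k2 => h0 (zero_list hy (by simp [k, k2, h1.1, h1.2]))
      exact ⟨(mul_eq_zero.1 e2).resolve_right k2, (mul_eq_zero.1 e4).resolve_right k2⟩
    · exact ⟨(mul_eq_zero.1 e1).resolve_right k, (mul_eq_zero.1 e3).resolve_right k⟩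
  exact Sp_drop hx (by simp [h2.1, h2.2])

theorem B5.sp11 (h : B5 ζ e s F) {a b : ℕ} {l : List ℕ} (hl : (decide (0 < a ∧ a < 5 ∧ b < 5) &&
    (List.range 240).all fun r => decide (v5 0 r = a → v5 1 r = b → g13 r = true → g24 r = true → r ∈ l)) = true) {n : LK}
    (hn : Wt ζ e a b n ∧ n ∈ Eg z13 1 ∧ n ∈ Eg z24 1) : n ∈ Sp (· ∈ l) := by
  rw [Bool.and_eq_true, decide_eq_true_eq] at hl
  refine Sp_mono (fun r hr' k => of_decide_eq_true (all_lt hl.2 hr') k.1.1.1 k.1.1.2 k.1.2 k.2)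
    (Eg_sp (T0_h2 _ _) (fun r h1 v => co_z24 h1 v) (Eg_sp (A := fun r => v5 0 r = a ∧ v5 1 r = b) (T0_h2 _ _)
      (fun r h1 v => co_z13 h1 v) (fun r hr' e1 => ?_) hn.2.1).2 hn.2.2)
  by_cases e2 : v5 0 r = a
  · exact h.d2.eig h.prim hl.1.2.2 hn.1.2 hr' (v5_lt 1 hr') fun e3 => e1 ⟨e2, e3⟩
  · exact h.d1.eig h.prim hl.1.2.1 hn.1.1 hr' (v5_lt 0 hr') e2

/-- weight vectors in the part of degree `(1, 1)` -/
def W11 (ζ : KK) (e : ℕ → GK) (a b : ℕ) (n : LK) : Prop := Wt ζ e a b n ∧ n ∈ Eg z13 1 ∧ n ∈ Eg z24 1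

theorem Cm.w11 {c : GK} (hc : Cm e c) {a b : ℕ} {n : LK} (h : W11 ζ e a b n) : W11 ζ e a b (aK c n) :=
  ⟨hc.wt h.1, Eg_aK hc.f1 h.2.1, Eg_aK hc.f2 h.2.2⟩

theorem B5.w11F (h : B5 ζ e s F) {a b a' b' : ℕ} (h1 : a * 2 % 5 = a' % 5) (h2 : b * 2 % 5 = b' % 5) {n : LK} (hn : W11 ζ e a b n) :
    W11 ζ e a' b' (F n) := ⟨h.wtF h1 h2 hn.1, h.EgF h.F2 hn.2.2, h.EgF h.F1 hn.2.1⟩

theorem ker_of {a b : ℕ} (h : (ck0 [121] [a, b] && ck0 [141] [a, b]) = true) {x : LK} (hx : x ∈ Sp (· ∈ [a, b])) :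
    brK (er 121 + er 141) x = 0 := by
  rw [Bool.and_eq_true] at h
  rw [br_add_l, br_zero_of h.1 (er_mem_Sp fun _ => List.mem_singleton_self _) hx,
    br_zero_of h.2 (er_mem_Sp fun _ => List.mem_singleton_self _) hx, add_zero]

theorem B5.st16 (h : B5 ζ e s F) {A1 A2 A3 A4 B C : LK} (w1 : W11 ζ e 1 0 A1) (w2 : W11 ζ e 2 0 A2) (w3 : W11 ζ e 3 0 A3)
    (w4 : W11 ζ e 4 0 A4) (wB : W11 ζ e 1 2 B) (wC : W11 ζ e 4 3 C) (hB : B ≠ 0) (hC : C ≠ 0) (b1 : brK A1 B = 0) (b2 : brK A2 B = 0)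
    (b3 : brK A3 C = 0) (b4 : brK A4 C = 0) (b5 : brK B C = 0) (h0 : co 220 B = 0 ∧ co 215 B = 0) :
    ∀ x ∈ [A1, A2, A3, A4], brK (er 121 + er 141) x = 0 := by
  have sB := h.sp11 (l := [221, 216, 220, 215]) (by decide +kernel) wB
  have sC := h.sp11 (l := [24, 19, 23, 18]) (by decide +kernel) wC
  have h1 : co 23 C = 0 ∧ co 18 C = 0 := by
    have e1 := co_br (γ := 104) (ps := [(216, 18), (215, 19)]) (by decide +kernel) sB sC.2
    have e2 := co_br (γ := 135) (ps := [(221, 23), (220, 24)]) (by decide +kernel) sB sC.2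
    have e3 := bf_hr_br (a := 19) (ps := [221, 215]) (by decide +kernel) sB sC.2
    have e4 := bf_hr_br (a := 18) (ps := [216, 220]) (by decide +kernel) sB sC.2
    rw [b5, co_zero] at e1 e2
    rw [b5, bf_zero_r] at e3 e4
    simp only [List.map_cons, List.map_nil, List.sum_cons, List.sum_nil, add_zero, h0.1, h0.2, zero_mul, Nat.reduceSub] at e1 e2 e3 e4
    by_cases k : co 221 B = 0
    · have k2 : co 216 B ≠ 0 := fun k2 => hB (zero_list sB (by simp [k, k2, h0.1, h0.2]))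
      exact ⟨(mul_eq_zero.1 e4.symm).resolve_left k2, (mul_eq_zero.1 e1.symm).resolve_left k2⟩
    · exact ⟨(mul_eq_zero.1 e2.symm).resolve_left k, (mul_eq_zero.1 e3.symm).resolve_left k⟩
  simp only [List.forall_mem_cons, List.not_mem_nil, false_imp_iff, implies_true, and_true]
  exact ⟨ker_of (by decide +kernel) (relR' (g1 := 223) (g2 := 218) (g3 := 222) (g4 := 217) (by decide +kernel)
      (h.sp11 (l := [128, 124, 127, 123]) (by decide +kernel) w1) sB b1 hB h0),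
    ker_of (by decide +kernel) (relR' (g1 := 190) (g2 := 180) (g3 := 187) (g4 := 177) (by decide +kernel)
      (h.sp11 (l := [86, 83, 85, 82]) (by decide +kernel) w2) sB b2 hB h0),
    ker_of (by decide +kernel) (relR' (g1 := 62) (g2 := 52) (g3 := 59) (g4 := 49) (by decide +kernel)
      (h.sp11 (l := [157, 154, 156, 153]) (by decide +kernel) w3) sC b3 hC h1),
    ker_of (by decide +kernel) (relR' (g1 := 22) (g2 := 17) (g3 := 21) (g4 := 16) (by decide +kernel)
      (h.sp11 (l := [116, 112, 115, 111]) (by decide +kernel) w4) sC b4 hC h1)⟩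

theorem aK_ne {g : GK} {v : LK} (h : v ≠ 0) : aK g v ≠ 0 := fun e => h (by rw [← aK_inv' g v, e, aK_zero])

/-- **an abelian module of dimension 16** -/
theorem B5.par16 (h : B5 ζ e s F) {A B : LK} (wA : W11 ζ e 1 0 A) (wB : W11 ζ e 1 2 B) (hA : A ≠ 0) (hB : B ≠ 0)
    (b1 : brK A B = 0) (b2 : brK (F A) B = 0) (b3 : brK (F (F (F A))) (F (F B)) = 0) (b5 : brK B (F (F B)) = 0) :
    ∃ c, Cm e c ∧ ∀ x ∈ [A, F A, F (F (F A)), F (F A)], brK (er 121 + er 141) (aK c x) = 0 := by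
  have w2 := h.w11F (a' := 2) (b' := 0) rfl rfl wA
  have w4 := h.w11F (a' := 4) (b' := 0) rfl rfl w2
  have w3 := h.w11F (a' := 3) (b' := 0) rfl rfl w4
  have wC := h.w11F (a' := 4) (b' := 3) rfl rfl (h.w11F (a' := 2) (b' := 4) rfl rfl wB)
  have b4 : brK (F (F A)) (F (F B)) = 0 := by rw [← h.Fb, ← h.Fb, b1, map_zero, map_zero]
  have sA := h.sp11 (l := [128, 124, 127, 123]) (by decide +kernel) wA
  have sB := h.sp11 (l := [221, 216, 220, 215]) (by decide +kernel) wB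
  obtain ⟨c, hc, h0⟩ : ∃ c, Cm e c ∧ co 220 (aK c B) = 0 ∧ co 215 (aK c B) = 0 := by
    obtain ⟨⟨e1, e2⟩, e3, e4⟩ := relR (g1 := 223) (g2 := 218) (g3 := 222) (g4 := 217) (by decide +kernel) sA sB b1
    have key : ∀ a c : KK, a ≠ 0 → a * co 220 B + c * co 221 B = 0 → a * co 215 B + c * co 216 B = 0 →
        ∃ c, Cm e c ∧ co 220 (aK c B) = 0 ∧ co 215 (aK c B) = 0 := fun a c k1 k2 k3 => by
      have d1 := co_xl (l := [118, 98]) (γ := 220) (ps := [(0, 220), (1, 221)]) (by decide +kernel) (c / a) sB.2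
      have d2 := co_xl (l := [118, 98]) (γ := 215) (ps := [(0, 215), (1, 216)]) (by decide +kernel) (c / a) sB.2
      simp only [List.map_cons, List.map_nil, List.sum_cons, List.sum_nil, add_zero, pow_zero, pow_one, one_mul] at d1 d2
      refine ⟨_, h.cm_xl (p := 118) (q := 98) (by decide) (c / a), d1.trans (mul_left_cancel₀ k1 ?_), d2.trans (mul_left_cancel₀ k1 ?_)⟩
      · field_simp
        linear_combination k2
      · field_simp
        linear_combination k3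
    by_cases k1 : co 128 A = 0
    · by_cases k2 : co 124 A = 0
      · rw [k1, zero_mul, zero_add] at e1 e2
        rw [k2, zero_mul, zero_add] at e3 e4
        have c1 := co_gw (l := [121, 141]) (L := [(221, 220), (216, 215)]) (by decide +kernel) B
        simp only [List.forall_mem_cons, List.not_mem_nil, false_imp_iff, implies_true, and_true] at c1
        refine ⟨_, h.cm_gw (l := [121, 141]) (by decide), ?_⟩
        rw [c1.1, c1.2]
        by_cases k3 : co 127 A = 0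
        · have k4 : co 123 A ≠ 0 := fun k4 => hA (zero_list sA (by simp [k1, k2, k3, k4]))
          exact ⟨(mul_eq_zero.1 e3).resolve_left k4, (mul_eq_zero.1 e4).resolve_left k4⟩
        · exact ⟨(mul_eq_zero.1 e1).resolve_left k3, (mul_eq_zero.1 e2).resolve_left k3⟩
      · exact key _ _ k2 e3 e4
    · exact key _ _ k1 e1 e2
  have z : ∀ {x y : LK}, brK x y = 0 → brK (aK c x) (aK c y) = 0 := fun e => by rw [← aK_brK, e, aK_zero]
  have h1 := h.st16 (hc.w11 wA) (hc.w11 w2) (hc.w11 w3) (hc.w11 w4) (hc.w11 wB) (hc.w11 wC) (aK_ne hB)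
    (aK_ne fun e => hB (h.FF e)) (z b1) (z b2) (z b3) (z b4) (z b5) h0
  refine ⟨c, hc, ?_⟩
  simp only [List.forall_mem_cons, List.not_mem_nil, false_imp_iff, implies_true, and_true] at h1 ⊢
  exact h1

theorem pos16 {v : LK} (h1 : v ∈ Eg z13 1) (h2 : brK (er 121 + er 141) v = 0) :
    InN (aK (gw [120, 123, 130, 136, 153, 169, 197, 201]) v) := by
  have s1 := Eg_sp (A := fun _ => True) (T0_h2 _ _) (fun r h1 v => co_z13 h1 v) (fun _ _ e => absurd trivial e) h1
  have tab : ((List.range 240).all fun r => !g13 r || decide (120 ≤ pw [120, 123, 130, 136, 153, 169, 197, 201] r) ||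
      [tf 121 r, tf 141 r].any fun u => decide (u < 240 ∧ u ≠ 121 ∧ u ≠ 141 ∧
        (pr 121 u = r ∧ pr 141 u = 240 ∨ pr 121 u = 240 ∧ pr 141 u = r))) = true := by decide +kernel
  refine inN_of ((mn_gw rfl).sp (A := fun r => 120 ≤ pw [120, 123, 130, 136, 153, 169, 197, 201] r) (fun _ _ e => e)
    ⟨s1.1, fun r k1 k2 => ?_⟩)
  by_cases k3 : g13 r = true
  · have k4 := all_lt tab k1
    rw [k3, decide_eq_false k2, Bool.not_true, Bool.false_or, Bool.false_or, List.any_eq_true] at k4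
    obtain ⟨u, -, k4⟩ := k4
    obtain ⟨k5, k6, k7, k8⟩ := of_decide_eq_true k4
    have k9 := congrArg (co u) h2
    rw [br_add_l, co_add, co_br_er (by norm_num) k5 k6, co_br_er (by norm_num) k5 k7, co_zero] at k9
    rcases k8 with k8 | k8
    · rwa [k8.1, k8.2, co_ge le_rfl, add_zero] at k9
    · rwa [k8.1, k8.2, co_ge le_rfl, zero_add] at k9
  · exact s1.2 r k1 fun e => k3 e.2

end

end Cfsg.Agent.E82.Soc
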