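import Cfsg.Agent.E82.Soc.B2
import Cfsg.Agent.E82.M44.Tab

/-!
# S3369, `Sp₄(4)`: the four modules in the frame of `5²` (helper92)

* `Mc` : a module given by a table inside the Lie algebra; `pv` : the eigenvector of `x₁` of an orbit;
* `B5.t8a`, `B5.t8b`, `B5.t32`, `B5.t16` : the position of the module, the abelian case;
* `B5.main` : a stable subalgebra with these socles gives a stable subspace of a nilradical.
-/

set_option autoImplicit false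
set_option maxRecDepth 100000
set_option maxHeartbeats 400000

namespace Cfsg.Agent.E82.Soc

open Cfsg Cfsg.Lie Module
open Cfsg.Agent.H939.L64 (KK LK aK brK)
open Cfsg.Agent.H876.L64 (aK_mul aK_one aK_add aK_smul aK_zero aK_brK aK_inv aK_inv' two_zero)
open Cfsg.Agent.H413.L16 (er hr add_self')
open Cfsg.Agent.H201.L34 (gw br_add_l br_add_r br_smul_l br_smul_r br_zero_l br_zero_r)
open Cfsg.Agent.E8A (InN)
open Cfsg.Agent.E82.Mach (F2 X wd ops bv wfG inR rkF)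
open Cfsg.Agent.E82.M44 (G1 G2 G3 G6)

/-- the words of the letters -/
def mw (j : ℕ) : List ℕ := [[0, 8, 11, 10, 8, 7, 6, 0], [11, 10, 3, 2], [0, 2, 11, 9, 11, 2, 0], [3, 10, 8, 11, 6, 9, 12, 11],
  [0, 8, 0], [11, 8, 3, 10, 0, 9, 5], [0, 8, 11, 10, 8, 0], [0, 8, 11, 8, 7, 6, 0]].getD j []

/-- the substitution of the words -/
noncomputable def Ex.sub (E : Ex) : Ex :=
  Ex.rec (motive := fun _ => Ex) (fun l => .w (l.flatMap mw)) (fun _ _ x y => .add x y) (fun _ _ x y => .mul x y) E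

/-- the value on the Lie algebra -/
noncomputable def Ex.evK (e : ℕ → GK) (E : Ex) : End KK LK :=
  Ex.rec (motive := fun _ => End KK LK) (fun l => H413.L16.lin (Mach.pw e l)) (fun _ _ x y => x + y) (fun _ _ x y => x * y) E

/-- the letters are below a bound -/
noncomputable def Ex.inX (m : ℕ) (E : Ex) : Bool :=
  Ex.rec (motive := fun _ => Bool) (inR m) (fun _ _ x y => x && y) (fun _ _ x y => x && y) E

/-- the image of a number -/
noncomputable def acx (G : List (List (ℕ × ℕ))) (E : Ex) (v : ℕ) : ℕ := E.sub.ac G v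

/-- the orbit under `x₁` -/
noncomputable def o5 (G : List (List (ℕ × ℕ))) (x : ℕ) (i : Fin 5) : ℕ := acx G (.w (List.replicate i 0)) x

/-- a polynomial in `x₁` -/
def pl (c : List ℕ) : Ex := c.foldr (fun i E => .add (.w (List.replicate i 0)) E) (.add (.w []) (.w []))

/-- its value -/
noncomputable def sc (ζ : KK) (c : List ℕ) : KK := (c.map (ζ ^ ·)).sum

/-- the projection -/
noncomputable def P5 (ζ : KK) (f : Fin 5 → LK) : LK := ∑ i : Fin 5, ζ ^ (4 * (i : ℕ)) • f i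

/-- the eight letters -/
def e8 (e : ℕ → GK) : Fin 8 → GK := fun j => e j

/-- a module inside the Lie algebra -/
structure Mc (e : ℕ → GK) (F : LK →+ LK) (n : ℕ) (G : List (List (ℕ × ℕ))) (κ : X n →+ LK) : Prop where
  wf : wfG n G = true
  inj : Function.Injective κ
  wd : ∀ j x, κ (wd (ops n G) (mw j) x) = aK (e j) (κ x)
  fx : ∀ x, F (κ x) = κ x

/-- the eigenvector -/
noncomputable def pv (ζ : KK) {n : ℕ} (κ : X n →+ LK) (o : Fin 5 → ℕ) : LK := P5 ζ fun i => κ (bv n (o i))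

/-- orbits of weight `(1, b)` -/
def Orb (n : ℕ) (G : List (List (ℕ × ℕ))) (b : Fin 5) (o : Fin 5 → ℕ) : Prop :=
  (∀ i, o i < 2 ^ n ∧ acx G (.w [0]) (o i) = o (i + 1) ∧ acx G (.w [1]) (o i) = o (i + b)) ∧
    o 0 = o 1 ^^^ o 2 ^^^ o 3 ^^^ o 4 ∧ bv n (o 0) ≠ 0

/-- a vector generates the module -/
noncomputable def genOk (n : ℕ) (G : List (List (ℕ × ℕ))) (m x : ℕ) (ws : List (List ℕ)) : Bool :=
  (Nat.blt x (2 ^ n) && ws.all (inR m)) && Nat.beq (rkF ws.length fun i => acx G (.w (ws.getD i [])) x) n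

/-- the adjoint map -/
noncomputable def adL (u : LK) : LK →ₗ[KK] LK := ⟨⟨brK u, br_add_r u⟩, fun c v => br_smul_r c u v⟩

section

variable {ζ : KK} {e : ℕ → GK} {s : GK} {F : LK →+ LK} {n : ℕ} {G : List (List (ℕ × ℕ))} {κ : X n →+ LK}

theorem evK_w (e : ℕ → GK) (l : List ℕ) (v : LK) : (Ex.w l).evK e v = aK (Mach.pw e l) v := rfl

theorem evK_add (e : ℕ → GK) (a b : Ex) (v : LK) : (Ex.add a b).evK e v = a.evK e v + b.evK e v := rfl

theorem evK_mul (e : ℕ → GK) (a b : Ex) (v : LK) : (Ex.mul a b).evK e v = a.evK e (b.evK e v) := rfl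

theorem evK_mem {m : ℕ} {W : Submodule KK LK} (hW : ∀ j < m, ∀ v ∈ W, aK (e j) v ∈ W) {E : Ex} (hE : E.inX m = true) :
    ∀ v ∈ W, E.evK e v ∈ W := by
  induction E with
  | w l =>
    have h1 := Mach.inR_lt (show inR m l = true from hE)
    clear hE
    intro v hv
    rw [evK_w]
    induction l with
    | nil => rwa [Mach.pw_nil, aK_one]
    | cons j l ih =>
      rw [Mach.pw_cons, aK_mul]
      exact hW j (h1 j List.mem_cons_self) _ (ih fun i hi => h1 i (List.mem_cons_of_mem _ hi))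
  | add a b ha hb =>
    have h1 := Bool.and_eq_true_iff.1 (show (a.inX m && b.inX m) = true from hE)
    exact fun v hv => add_mem (ha h1.1 v hv) (hb h1.2 v hv)
  | mul a b ha hb =>
    have h1 := Bool.and_eq_true_iff.1 (show (a.inX m && b.inX m) = true from hE)
    exact fun v hv => ha h1.1 _ (hb h1.2 v hv)

theorem evK_pl {v : LK} (hv : aK (e 0) v = ζ ^ 1 • v) (c : List ℕ) : (pl c).evK e v = sc ζ c • v := by
  have h1 : ∀ i, aK (Mach.pw e (List.replicate i 0)) v = ζ ^ i • v := fun i => by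
    induction i with
    | zero => rw [List.replicate_zero, Mach.pw_nil, aK_one, pow_zero, one_smul]
    | succ i ih => rw [List.replicate_succ, Mach.pw_cons, aK_mul, ih, aK_smul, hv, smul_smul, ← pow_add]
  induction c with
  | nil => exact (add_self' _).trans (zero_smul _ _).symm
  | cons i c ih =>
    show aK (Mach.pw e (List.replicate i 0)) v + (pl c).evK e v = (ζ ^ i + sc ζ c) • v
    rw [h1, ih, add_smul]

theorem Mc.ev (k : Mc e F n G κ) (E : Ex) (x : X n) : κ (E.sub.ev (ops n G) x) = E.evK e (κ x) := by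
  induction E generalizing x with
  | w l =>
    show κ (Mach.wd (ops n G) (l.flatMap mw) x) = aK (Mach.pw e l) (κ x)
    induction l with
    | nil => exact (aK_one _).symm
    | cons j l ih => rw [List.flatMap_cons, Mach.wd_append_apply, k.wd, ih, Mach.pw_cons, aK_mul]
  | add a b ha hb =>
    show κ (a.sub.ev (ops n G) x + b.sub.ev (ops n G) x) = a.evK e (κ x) + b.evK e (κ x)
    rw [map_add, ha, hb]
  | mul a b ha hb =>
    show κ (a.sub.ev (ops n G) (b.sub.ev (ops n G) x)) = a.evK e (b.evK e (κ x))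
    rw [ha, hb]

theorem Mc.ac (k : Mc e F n G κ) (E : Ex) {v : ℕ} (hv : v < 2 ^ n) : E.evK e (κ (bv n v)) = κ (bv n (acx G E v)) := by
  rw [← k.ev, acx, (E.sub.ac_spec k.wf (sm_lt hv)).2]

theorem Mc.stb (k : Mc e F n G κ) : Stb (e8 e) κ.range := by
  rintro j _ ⟨x, rfl⟩
  exact ⟨_, k.wd j x⟩

theorem Mc.gen (k : Mc e F n G κ) {m x : ℕ} {ws : List (List ℕ)} (h : genOk n G m x ws = true) {W : Submodule KK LK}
    (hW : ∀ j < m, ∀ v ∈ W, aK (e j) v ∈ W) (hx : κ (bv n x) ∈ W) (y : X n) : κ y ∈ W := by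
  rw [genOk, Bool.and_eq_true, Bool.and_eq_true, Nat.blt_eq, List.all_eq_true] at h
  let W' : Submodule F2 (X n) := AddSubgroup.toZModSubmodule 2 (W.toAddSubgroup.comap κ)
  have h3 := Mach.rkF_le (Mach.ext0 n ∘ₗ W'.subtype) (m := ws.length) (f := fun i => acx G (.w (ws.getD i [])) x) fun a ha => by
    refine ⟨⟨bv n (acx G (.w (ws.getD a [])) x), ?_⟩, ?_⟩
    · show κ _ ∈ W
      rw [← k.ac _ h.1.1]
      exact evK_mem hW (E := .w (ws.getD a [])) (h.1.2 (ws.getD a []) (by rw [List.getD_eq_getElem _ _ ha]; exact List.getElem_mem ha)) _ hx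
    · exact Mach.ext0_bv (Ex.ac_spec k.wf _ (sm_lt h.1.1)).1
  have h4 := Submodule.finrank_le W'
  have h5 : W' = ⊤ := Submodule.eq_top_of_finrank_eq (by
    rw [Nat.eq_of_beq_eq_true h.2] at h3
    rw [Module.finrank_fin_fun] at h4 ⊢
    omega)
  exact (h5 ▸ Submodule.mem_top : y ∈ W')

theorem P5_mem {W : Submodule KK LK} {f : Fin 5 → LK} (h : ∀ i, f i ∈ W) : P5 ζ f ∈ W := sum_mem fun i _ => W.smul_mem _ (h i)

theorem P5_map (A : End KK LK) (f : Fin 5 → LK) : A (P5 ζ f) = P5 ζ fun i => A (f i) := by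
  simp only [P5, map_sum, map_smul]

theorem B5.re (h : B5 ζ e s F) {π : Fin 5 → Fin 5} {c : Fin 5 → ℕ} {k : ℕ}
    (hc : Function.Bijective π ∧ ∀ i, c (π i) % 5 = (k + 4 * (i : ℕ)) % 5) (f : Fin 5 → LK) :
    ∑ i, ζ ^ c i • f i = ζ ^ k • P5 ζ fun i => f (π i) := by
  rw [← hc.1.sum_comp fun i => ζ ^ c i • f i, P5, Finset.smul_sum]
  exact Finset.sum_congr rfl fun i _ => by rw [smul_smul, ← pow_add, h.pw5 (hc.2 i)]

theorem B5.sh (h : B5 ζ e s F) (b : Fin 5) (f : Fin 5 → LK) : (P5 ζ fun i => f (i + b)) = ζ ^ (b : ℕ) • P5 ζ f := by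
  have e1 := h.re (π := fun i => i - b) (c := fun i => 4 * (i : ℕ)) (k := b) (by revert b; decide) fun i => f (i + b)
  simp only [sub_add_cancel] at e1
  exact e1

theorem B5.FP (h : B5 ζ e s F) {f : Fin 5 → LK} (hf : ∀ i, F (f i) = f i) : F (P5 ζ f) = P5 ζ fun i => f (3 * i) := by
  have e1 := h.re (π := fun i => 3 * i) (c := fun i => 4 * (i : ℕ) * 2) (k := 0) (by decide) f
  rw [pow_zero, one_smul] at e1
  rw [← e1, P5, map_sum]
  exact Finset.sum_congr rfl fun i _ => by rw [h.Fs, hf, ← pow_mul]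

theorem B5.sum4 (h : B5 ζ e s F) {f : Fin 5 → LK} (hf : ∀ i, F (f i) = f i) :
    f 1 + f 2 + f 3 + f 4 = P5 ζ f + F (P5 ζ f) + F (F (F (P5 ζ f))) + F (F (P5 ζ f)) := by
  have e1 := h.prim.geom_sum_eq_zero (by norm_num)
  simp only [Finset.sum_range_succ, Finset.sum_range_zero, zero_add, pow_zero, pow_one] at e1
  have e2 : ζ ^ 8 = ζ ^ 3 := h.pw5 rfl
  have e3 : ζ ^ 12 = ζ ^ 2 := h.pw5 rfl
  have e4 : ζ ^ 16 = ζ ^ 1 := h.pw5 rfl
  have t2 := two_zero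
  rw [h.FP hf, h.FP fun i => hf _, h.FP fun i => hf _]
  simp only [P5, Fin.sum_univ_five]
  show _ = ζ ^ 0 • f 0 + ζ ^ 4 • f 1 + ζ ^ 8 • f 2 + ζ ^ 12 • f 3 + ζ ^ 16 • f 4 +
    (ζ ^ 0 • f 0 + ζ ^ 4 • f 3 + ζ ^ 8 • f 1 + ζ ^ 12 • f 4 + ζ ^ 16 • f 2) +
    (ζ ^ 0 • f 0 + ζ ^ 4 • f 2 + ζ ^ 8 • f 4 + ζ ^ 12 • f 1 + ζ ^ 16 • f 3) +
    (ζ ^ 0 • f 0 + ζ ^ 4 • f 4 + ζ ^ 8 • f 3 + ζ ^ 12 • f 2 + ζ ^ 16 • f 1)
  rw [e2, e3, e4]
  match_scalars
  exacts [by linear_combination t2 - e1, by linear_combination t2 - e1, by linear_combination t2 - e1,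
    by linear_combination t2 - e1, by linear_combination (-2) * t2]

theorem Mc.rel (k : Mc e F n G κ) {E E' : Ex} {o o' : Fin 5 → ℕ} (h : ∀ i, (o i < 2 ^ n ∧ o' i < 2 ^ n) ∧ acx G E (o i) = acx G E' (o' i)) :
    E.evK e (pv ζ κ o) = E'.evK e (pv ζ κ o') := by
  rw [pv, pv, P5_map, P5_map]
  exact congrArg _ (funext fun i => by rw [k.ac _ (h i).1.1, k.ac _ (h i).1.2, (h i).2])

theorem B5.wt (h : B5 ζ e s F) (k : Mc e F n G κ) {b : Fin 5} {o : Fin 5 → ℕ} (ho : Orb n G b o) : Wt ζ e 1 b (pv ζ κ o) := by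
  constructor
  · rw [← Mach.pw_single e 0, ← evK_w, pv, P5_map]
    exact (congrArg _ (funext fun i => by rw [k.ac _ (ho.1 i).1, (ho.1 i).2.1])).trans (h.sh 1 fun i => κ (bv n (o i)))
  · rw [← Mach.pw_single e 1, ← evK_w, pv, P5_map]
    exact (congrArg _ (funext fun i => by rw [k.ac _ (ho.1 i).1, (ho.1 i).2.2])).trans (h.sh b fun i => κ (bv n (o i)))

theorem B5.dec (h : B5 ζ e s F) (k : Mc e F n G κ) {b : Fin 5} {o : Fin 5 → ℕ} (ho : Orb n G b o) :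
    κ (bv n (o 0)) = pv ζ κ o + F (pv ζ κ o) + F (F (F (pv ζ κ o))) + F (F (pv ζ κ o)) := by
  rw [ho.2.1, Mach.bv_xor, Mach.bv_xor, Mach.bv_xor, map_add, map_add, map_add]
  exact h.sum4 (f := fun i => κ (bv n (o i))) fun i => k.fx _

theorem B5.Fpv (h : B5 ζ e s F) (k : Mc e F n G κ) (o : Fin 5 → ℕ) : F (pv ζ κ o) = pv ζ κ fun i => o (3 * i) :=
  h.FP (f := fun i => κ (bv n (o i))) fun _ => k.fx _

theorem B5.pv_ne (h : B5 ζ e s F) (k : Mc e F n G κ) {b : Fin 5} {o : Fin 5 → ℕ} (ho : Orb n G b o) : pv ζ κ o ≠ 0 := fun e1 => by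
  have e2 := h.dec k ho
  simp only [e1, map_zero, add_zero] at e2
  exact ho.2.2 (k.inj (e2.trans (map_zero κ).symm))

theorem B5.d1v (h : B5 ζ e s F) (k : Mc e F n G κ) {b : Fin 5} {o : Fin 5 → ℕ} (ho : Orb n G b o) {g I J : List ℕ}
    (e1 : ∀ i, acx G (.w g) (o i) = acx G (.add (pl I) (.mul (.w [2]) (pl J))) (o i)) :
    pv ζ κ o ∈ D1 (Mach.pw e g) (e 2) (sc ζ I) (sc ζ J) := by
  have e2 := k.rel (ζ := ζ) fun i => ⟨⟨(ho.1 i).1, (ho.1 i).1⟩, e1 i⟩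
  rwa [evK_add, evK_mul, evK_pl (h.wt k ho).1, evK_pl (h.wt k ho).1, evK_w, evK_w, Mach.pw_single, aK_smul] at e2

/-- the span of the module -/
noncomputable def VV (κ : X n →+ LK) : Submodule KK LK := Submodule.span KK (κ.range : Set LK)

theorem pv_VV (o : Fin 5 → ℕ) : pv ζ κ o ∈ VV κ := P5_mem fun _ => Submodule.subset_span ⟨_, rfl⟩

theorem VV_le {W : Submodule KK LK} (h : ∀ x, κ x ∈ W) : VV κ ≤ W := Submodule.span_le.2 (by
  rintro _ ⟨x, rfl⟩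
  exact h x)

theorem B5.FVV (h : B5 ζ e s F) (k : Mc e F n G κ) {v : LK} (hv : v ∈ VV κ) : F v ∈ VV κ := by
  induction hv using Submodule.span_induction with
  | mem x hx =>
    obtain ⟨x, rfl⟩ := hx
    rw [k.fx]
    exact Submodule.subset_span ⟨_, rfl⟩
  | zero => rw [map_zero]; exact zero_mem _
  | add x y _ _ hx hy => rw [map_add]; exact add_mem hx hy
  | smul c x _ hx => rw [h.Fs]; exact Submodule.smul_mem _ _ hx

theorem B5.fzz (h : B5 ζ e s F) {j : ℕ} (hj : j < 7) : aK (e j) zz = zz := by rw [zz_eq, aK_add, (h.fz j hj).1, (h.fz j hj).2]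

theorem B5.odd (h : B5 ζ e s F) (k : Mc e F n G κ) {b : Fin 5} {o : Fin 5 → ℕ} (ho : Orb n G b o) (h1 : pv ζ κ o ∈ Eg zz 1)
    {ws : List (List ℕ)} (hg : genOk n G 7 (o 0) ws = true) (y : X n) : κ y ∈ Eg zz 1 := by
  refine k.gen hg (fun j hj v => Eg_aK (h.fzz hj)) ?_ y
  have h2 := h.EgF h.Fzz h1
  have h3 := h.EgF h.Fzz h2
  rw [h.dec k ho]
  exact add_mem (add_mem (add_mem h1 h2) (h.EgF h.Fzz h3)) h3

theorem B5.sc_ne (h : B5 ζ e s F) {i j : ℕ} (e1 : i < 5 ∧ j < 5 ∧ i ≠ j) : sc ζ [i, j] ≠ 0 := fun e2 => by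
  have e3 : ζ ^ i + (ζ ^ j + 0) = 0 := e2
  exact e1.2.2 (h.prim.pow_inj e1.1 e1.2.1 (by linear_combination e3 - ζ ^ j * two_zero))

theorem B5.odd11 (h : B5 ζ e s F) (k : Mc e F n G κ) {o : Fin 5 → ℕ} (ho : Orb n G 1 o)
    (e1 : ∀ i, acx G (.w [3]) (o i) = acx G (.add (pl [1, 3]) (.mul (.w [2]) (pl [0, 4]))) (o i))
    {ws : List (List ℕ)} (hg : genOk n G 7 (o 0) ws = true) (y : X n) : κ y ∈ Eg zz 1 :=
  h.odd k ho (h.loc11 (h.sc_ne (by decide)) (h.sc_ne (by decide)) (h.wt k ho) (Mach.pw_single e 3 ▸ h.d1v k ho e1)) hg y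

/-- abelian modules -/
def Ab (W : AddSubgroup LK) : Prop := ∀ x ∈ W, ∀ y ∈ W, brK x y = 0

/-- **the second module of dimension four** -/
theorem B5.t8b (h : B5 ζ e s F) {κ : X 8 →+ LK} (k : Mc e F 8 G2 κ) : (∀ x, κ x ∈ Eg zz 1) ∧ ¬ Ab κ.range := by
  have h1 := h.odd11 k (o := o5 G2 23) (by unfold Orb; decide +kernel) (by decide +kernel)
    (ws := [[], [0], [3], [6], [0, 0], [6, 0], [6, 3], [0, 6]]) (by decide +kernel)
  have ho : Orb 8 G2 4 (o5 G2 20) := by unfold Orb; decide +kernel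
  have h2 := k.rel (ζ := ζ) (E := .w [2]) (E' := .w []) (o := o5 G2 20) (o' := o5 G2 20) (by decide +kernel)
  rw [evK_w, evK_w, Mach.pw_single, Mach.pw_nil, aK_one] at h2
  exact ⟨h1, fun ha => h.pv_ne k ho (h.no8 (h.wt k ho) (VV_le h1 (pv_VV _)) h2
    (span_ab ha _ (pv_VV _) _ (h.FVV k (h.FVV k (pv_VV _)))))⟩

/-- **the module of dimension 32** -/
theorem B5.t32 (h : B5 ζ e s F) {κ : X 32 →+ LK} (k : Mc e F 32 G6 κ) : (∀ x, κ x ∈ Eg zz 1) ∧ ¬ Ab κ.range := by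
  have h1 := h.odd11 k (o := o5 G6 1310967) (by unfold Orb; decide +kernel) (by decide +kernel)
    (ws := [[], [0], [2], [3], [5], [6], [0, 0], [2, 0], [3, 0], [5, 0], [6, 0], [3, 2], [6, 2], [5, 3], [6, 3], [0, 5], [1, 5],
      [5, 5], [6, 5], [0, 6], [5, 6], [6, 0, 0], [0, 5, 0], [5, 5, 0], [6, 5, 0], [5, 6, 0], [6, 5, 3], [6, 0, 5], [6, 1, 5],
      [6, 5, 5], [0, 6, 5], [6, 0, 5, 0]]) (by decide +kernel)
  have ho : Orb 32 G6 2 (o5 G6 1507581) := by unfold Orb; decide +kernel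
  exact ⟨h1, fun ha => h.pv_ne k ho (h.no32 (h.wt k ho) (VV_le h1 (pv_VV _))
    (span_ab ha _ (pv_VV _) _ (h.FVV k (h.FVV k (pv_VV _)))))⟩

/-- the words of a basis -/
def us : Fin 4 → List ℕ := ![[], [6], [2], [2, 6]]

/-- the matrices of the letters -/
def dg8 (j k l : ℕ) : List ℕ := (List.range 4).filter fun i => Nat.testBit
  0x10000100006900571000010000010010600907500960500700010010010010007050060990600507001000011000010020000f00001000011000010000f00002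
  (4 * (16 * j + 4 * k + l) + i)

/-- a combination -/
def cmb (c : ℕ → List ℕ) : Ex := .add (.add (.mul (.w (us 0)) (pl (c 0))) (.mul (.w (us 1)) (pl (c 1))))
  (.add (.mul (.w (us 2)) (pl (c 2))) (.mul (.w (us 3)) (pl (c 3))))

/-- **the first module of dimension four** -/
theorem B5.t8a (h : B5 ζ e s F) {κ : X 8 →+ LK} (k : Mc e F 8 G1 κ) : (∀ x, κ x ∈ Eg zz 1) ∧ (Ab κ.range → PAR (e8 e)) := by
  have ho : Orb 8 G1 0 (o5 G1 1) := by unfold Orb; decide +kernel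
  have hw := h.wt k ho
  have d1 := h.d1v k ho (g := [3]) (I := [0, 1, 2]) (J := [0, 2]) (by decide +kernel)
  have d2 := h.d1v k ho (g := [3, 2]) (I := [0, 3]) (J := [1, 2]) (by decide +kernel)
  rw [Mach.pw_single] at d1
  rw [Mach.pw_cons, Mach.pw_single] at d2
  have h0 := h.loc10 hw ⟨d1, d2⟩
  refine ⟨h.odd k ho h0 (ws := [[], [0], [2], [3], [5], [0, 0], [2, 0], [3, 0]]) (by decide +kernel), fun ha => ?_⟩
  have r1 := k.rel (ζ := ζ) (E := .w [0, 6]) (E' := .mul (.w [6]) (pl [4])) (o := o5 G1 1) (o' := o5 G1 1) (by decide +kernel)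
  have r2 := k.rel (ζ := ζ) (E := .w [1, 6]) (E' := .w [6]) (o := o5 G1 1) (o' := o5 G1 1) (by decide +kernel)
  have r3 : ∀ (j : Fin 8) (l : Fin 4), (Ex.w ((j : ℕ) :: us l)).evK e (pv ζ κ (o5 G1 1)) = (cmb (dg8 j l)).evK e (pv ζ κ (o5 G1 1)) :=
    fun j l => k.rel (by revert j l; decide +kernel)
  have h1 := h.pv_ne k ho
  have m0 : pv ζ κ (o5 G1 1) ∈ VV κ := pv_VV _
  generalize pv ζ κ (o5 G1 1) = p at *
  have st : ∀ j < 8, ∀ v ∈ VV κ, aK (e j) v ∈ VV κ := fun j hj => k.stb.span ⟨j, hj⟩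
  have m1 := st 6 (by norm_num) _ m0
  rw [evK_mul, evK_pl hw.1, evK_w, evK_w, Mach.pw_cons, Mach.pw_single, aK_mul, aK_smul] at r1
  rw [evK_w, evK_w, Mach.pw_cons, Mach.pw_single, aK_mul] at r2
  obtain ⟨g, g1, g2, g3, g4⟩ := h.par4 (p := p) (m := aK (e 6) p) ⟨hw, ⟨r1.trans (congrArg (· • _) (add_zero _)),
    by rw [r2, pow_zero, one_smul]⟩, h0, Eg_aK (h.fzz (by norm_num)) h0, span_ab ha _ m0 _ (st 2 (by norm_num) _ m0),
    span_ab ha _ m1 _ (st 2 (by norm_num) _ m1), span_ab ha _ m0 _ (st 2 (by norm_num) _ m1), span_ab ha _ m0 _ m1⟩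
  have m2 : ∀ l, aK (Mach.pw e (us l)) p ∈ Submodule.span KK (Set.range fun l => aK (Mach.pw e (us l)) p) :=
    fun l => Submodule.subset_span ⟨l, rfl⟩
  refine ⟨Submodule.span KK (Set.range fun l => aK (Mach.pw e (us l)) p), fun e1 => h1 ?_, fun j w hw' => span_ind ?_ hw', g,
    fun w hw' => inN_of (span_ind (B := NN) ?_ hw')⟩
  · have e2 := m2 0
    rw [e1, Submodule.mem_bot] at e2
    exact (aK_one p).symm.trans e2
  · rintro _ ⟨l, rfl⟩
    have e2 := r3 j l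
    rw [evK_w, Mach.pw_cons, aK_mul, cmb] at e2
    simp only [evK_add, evK_mul, evK_pl hw.1, evK_w, aK_smul] at e2
    exact e2 ▸ add_mem (add_mem (Submodule.smul_mem _ _ (m2 0)) (Submodule.smul_mem _ _ (m2 1)))
      (add_mem (Submodule.smul_mem _ _ (m2 2)) (Submodule.smul_mem _ _ (m2 3)))
  · rintro _ ⟨l, rfl⟩
    apply mem_NN
    fin_cases l
    · exact (congrArg (fun x => InN (aK g x)) (aK_one p)).mpr g1
    · exact (congrArg (fun x => InN (aK g (aK x p))) (Mach.pw_single e 6)).mpr g2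
    · exact (congrArg (fun x => InN (aK g (aK x p))) (Mach.pw_single e 2)).mpr g3
    · show InN (aK g (aK (Mach.pw e [2, 6]) p))
      rwa [Mach.pw_cons, Mach.pw_single, aK_mul]

/-- the operators between the weight spaces -/
def Ek (k : ℕ) : Ex := .mul (.add (.add (.add (.add (.w []) (.w [1])) (.w [1, 1])) (.w [1, 1, 1])) (.w [1, 1, 1, 1]))
  ((List.range 5).foldr (fun j E => .add (.w (List.replicate j 0 ++ [3, 5] ++ List.replicate (k * j % 5) 0)) E) (pl []))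

/-- the part of degree zero for `z24` has degree `c` for `z13` -/
noncomputable def Wc (c : KK) : Submodule KK LK := (Eg z13 c).comap (LinearMap.id + adL z24)

theorem mem_Wc {c : KK} {v : LK} : v ∈ Wc c ↔ v + brK z24 v ∈ Eg z13 c := Iff.rfl

theorem B5.stW (h : B5 ζ e s F) (c : KK) : ∀ j < 7, ∀ v ∈ Wc c, aK (e j) v ∈ Wc c := fun j hj v hv => by
  have e1 := Eg_aK (h.fz j hj).1 (mem_Wc.1 hv)
  rwa [aK_add, aK_brK, (h.fz j hj).2, ← mem_Wc] at e1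

theorem B5.loc16 (h : B5 ζ e s F) {A B : LK} (wA : Wt ζ e 1 0 A) (wB : Wt ζ e 1 2 B) {E E' : Ex} (hE : E.inX 7 = true)
    (hE' : E'.inX 7 = true) (r1 : E.evK e B = A) (r2 : E'.evK e (F A) = A) : A ∈ Eg z13 1 ⊓ Eg z24 1 := by
  have c1 := fun r h1 v => co_z13 (r := r) h1 v
  have c2 := fun r h1 v => co_z24 (r := r) h1 v
  have a1 := evK_mem (h.stW 1) hE B (mem_Wc.2 (Eg_of (T0_h2 _ _) c1 (Sp_mono (by decide +kernel)
    (Sp_zero (T0_h2 _ _) c2 (h.sp (l := [213, 203, 10, 9, 221, 216, 220, 215]) (by decide +kernel) wB)))))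
  have e1 : F A + brK z24 (F A) ∈ Sp (· ∈ [152]) := Sp_mono (by decide +kernel) (Sp_zero (T0_h2 _ _) c2
    (h.sp (l := [82, 83, 85, 86, 132, 133, 138, 139, 144, 145, 149, 150, 152]) (by decide +kernel)
      (h.wtF (a' := 2) (b' := 0) rfl rfl wA)))
  have e2 : brK z13 (F A + brK z24 (F A)) ∈ Sp (· ∈ []) := Sp_mono (by decide +kernel) (Sp_one (T0_h2 _ _) c1 e1.2)
  have a2 := evK_mem (h.stW 0) hE' (F A) (mem_Wc.2 ((zero_list e2 fun _ e3 => absurd e3 List.not_mem_nil).trans (zero_smul _ _).symm))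
  rw [r1] at a1
  rw [r2] at a2
  have a3 : A ∈ Eg z24 1 := by
    show brK z24 A = (1 : KK) • A
    rw [one_smul]
    exact (eq_neg_of_add_eq_zero_right (Eg_zero (mem_Wc.1 a1) (mem_Wc.1 a2))).trans (neg_LK A)
  exact ⟨Eg_of (T0_h2 _ _) c1 (Sp_mono (by decide +kernel) (Eg_sp (T0_h2 _ _) c2
    (h.sp (l := [128, 124, 127, 123, 80, 148, 143, 137, 131, 147, 142, 136, 130]) (by decide +kernel) wA).2 a3)), a3⟩

theorem B5.ker16 (h : B5 ζ e s F) {c : GK} (hc : Cm e c) : ∃ W : Submodule KK LK, (∀ j < 4, ∀ v ∈ W, aK (e j) v ∈ W) ∧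
    ∀ v, v ∈ W ↔ brK (er 121 + er 141) (aK c v) = 0 := by
  have d0 := h.del (p := 121) (q := 141) (by decide)
  generalize er 121 + er 141 = δ at d0
  have d1 : ∀ g : GK, g * c = c * g → aK g δ = δ → aK g (aK c⁻¹ δ) = aK c⁻¹ δ := fun g e1 e2 => by
    rw [← aK_mul, (show Commute g c from e1).inv_right.eq, aK_mul, e2]
  have e0 := d1 _ hc.c0 d0.1
  have e1 := d1 _ hc.c1 d0.2.1
  have e2 := d1 _ hc.c2 d0.2.2
  have e3 := h.fixY _ e0 e1 e2
  have e4 := aK_inv c δ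
  generalize aK c⁻¹ δ = δ' at e0 e1 e2 e3 e4
  have d2 : ∀ j < 4, aK (e j) δ' = δ' := fun j hj => by
    interval_cases j
    exacts [e0, e1, e2, e3]
  refine ⟨LinearMap.ker (adL δ'), fun j hj v hv => ?_, fun v => ?_⟩
  · have e5 := aK_brK (e j) δ' v
    rw [d2 j hj, show brK δ' v = 0 from hv, aK_zero] at e5
    exact e5.symm
  · rw [← e4, ← aK_brK]
    exact ⟨fun e5 => by rw [show brK δ' v = 0 from e5, aK_zero], fun e5 => by_contra fun e6 => aK_ne e6 e5⟩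

/-- **the module of dimension 16** -/
theorem B5.t16 (h : B5 ζ e s F) {κ : X 16 →+ LK} (k : Mc e F 16 G3 κ) :
    (∀ x, κ x ∈ Eg z13 1 ⊓ Eg z24 1) ∧ (Ab κ.range → PAR (e8 e)) := by
  have oA : Orb 16 G3 0 (o5 G3 4097) := by unfold Orb; decide +kernel
  have oB : Orb 16 G3 2 (o5 G3 8260) := by unfold Orb; decide +kernel
  have hg : genOk 16 G3 4 (o5 G3 4097 0) [[], [0], [2], [3], [0, 0], [2, 0], [3, 0], [1, 2], [3, 2], [0, 3], [1, 3], [2, 3], [3, 3],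
    [0, 0, 0], [2, 0, 0], [3, 0, 0]] = true := by decide +kernel
  have r1 := k.rel (ζ := ζ) (E := Ek 4) (E' := .w []) (o := o5 G3 8260) (o' := o5 G3 4097) (by decide +kernel)
  have r2 := k.rel (ζ := ζ) (E := Ek 2) (E' := .w []) (o := fun i => o5 G3 4097 (3 * i)) (o' := o5 G3 4097) (by decide +kernel)
  rw [← h.Fpv k (o5 G3 4097)] at r2
  have wA := h.wt k oA
  have wB := h.wt k oB
  have nA := h.pv_ne k oA
  have nB := h.pv_ne k oB
  have dA := h.dec k oA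
  have n0 := oA.2.2
  have mA : pv ζ κ (o5 G3 4097) ∈ VV κ := pv_VV _
  have mB : pv ζ κ (o5 G3 8260) ∈ VV κ := pv_VV _
  generalize pv ζ κ (o5 G3 4097) = A at r1 r2 wA nA dA mA
  generalize pv ζ κ (o5 G3 8260) = B at r1 wB nB mB
  generalize o5 G3 4097 0 = x at hg dA n0
  have a5 := h.loc16 wA wB (by decide +kernel) (by decide +kernel) (r1.trans (aK_one A)) (r2.trans (aK_one A))
  have f1 : ∀ {v}, v ∈ Eg z13 1 ⊓ Eg z24 1 → F v ∈ Eg z13 1 ⊓ Eg z24 1 := fun hv => ⟨h.EgF h.F2 hv.2, h.EgF h.F1 hv.1⟩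
  have h1 := k.gen hg (W := Eg z13 1 ⊓ Eg z24 1) (fun j hj v hv => ⟨Eg_aK (h.fz j (by omega)).1 hv.1, Eg_aK (h.fz j (by omega)).2 hv.2⟩)
    (by rw [dA]; exact add_mem (add_mem (add_mem a5 (f1 a5)) (f1 (f1 (f1 a5)))) (f1 (f1 a5)))
  refine ⟨h1, fun ha => ?_⟩
  have b := span_ab ha
  have fV : ∀ {v}, v ∈ VV κ → F v ∈ VV κ := h.FVV k
  obtain ⟨c, hc, h2⟩ := h.par16 ⟨wA, a5⟩ ⟨wB, VV_le h1 mB⟩ nA nB (b _ mA _ mB) (b _ (fV mA) _ mB)
    (b _ (fV (fV (fV mA))) _ (fV (fV mB))) (b _ mB _ (fV (fV mB)))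
  simp only [List.forall_mem_cons, List.not_mem_nil, false_imp_iff, implies_true, and_true] at h2
  obtain ⟨W, d2, d3⟩ := h.ker16 hc
  have h3 := k.gen hg d2 (by
    rw [dA]
    exact add_mem (add_mem (add_mem ((d3 _).2 h2.1) ((d3 _).2 h2.2.1)) ((d3 _).2 h2.2.2.1)) ((d3 _).2 h2.2.2.2))
  refine par_of k.stb (v := κ (bv 16 x)) ⟨_, rfl⟩ (fun e1 => n0 (k.inj (e1.trans (map_zero κ).symm)))
    (A := κ.range) AddSubgroup.subset_closure (g := gw [120, 123, 130, 136, 153, 169, 197, 201] * c) ?_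
  rintro _ ⟨y, rfl⟩
  rw [aK_mul]
  exact pos16 (Eg_aK hc.f1 (h1 y).1) ((d3 _).1 (h3 y))

end

/-- **the socle argument** -/
theorem par44 {Γ : Type} {φ : Γ → GK} {A : AddSubgroup LK} (h0 : A ≠ ⊥) (h1 : Stb φ A) (h2 : ∀ x ∈ A, ∀ y ∈ A, brK x y ∈ A)
    (soc : ∀ U ≤ A, Stb φ U → U ≠ ⊥ → ∃ W ≤ U, Stb φ W ∧ (Ab W → PAR φ) ∧
      ((∀ x ∈ W, x ∈ Eg zz 1) ∨ ∀ x ∈ W, x ∈ Eg z13 1 ⊓ Eg z24 1)) : PAR φ := by
  by_contra hn
  have z0 : ∀ {W : AddSubgroup LK} {z : LK}, (∀ x ∈ W, x ∈ Eg z 1) → (∀ x ∈ W, x ∈ Eg z 0) → Ab W := fun e1 e2 x hx y _ => by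
    rw [Eg_zero (e1 x hx) (e2 x hx), br_zero_l]
  have z1 : ∀ {W : AddSubgroup LK} {z : LK}, (∀ x ∈ W, x ∈ Eg z 1) → ∀ x ∈ brS W, x ∈ Eg z 0 := fun e1 =>
    brS_le (U := (Eg _ 0).toAddSubgroup) fun x hx y hy => Eg_br11 (e1 x hx) (e1 y hy)
  have z2 : ∀ W ≤ A, Stb φ W → (Ab W → PAR φ) → ∃ W' ≤ brS W, W' ≤ A ∧ Stb φ W' ∧ (Ab W' → PAR φ) ∧
      ((∀ x ∈ W', x ∈ Eg zz 1) ∨ ∀ x ∈ W', x ∈ Eg z13 1 ⊓ Eg z24 1) := fun W e1 e2 e3 => by
    have e4 : brS W ≤ A := brS_le fun x hx y hy => h2 x (e1 hx) y (e1 hy)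
    obtain ⟨W', k1, k2⟩ := soc _ e4 e2.brS fun e5 => hn (e3 (br_of_bot e5))
    exact ⟨W', k1, k1.trans e4, k2⟩
  have z3 : ∀ W ≤ A, Stb φ W → (Ab W → PAR φ) → ¬ ∀ x ∈ W, x ∈ Eg z13 1 ⊓ Eg z24 1 := fun W e1 e2 e3 e4 => by
    obtain ⟨W', k1, -, -, k2, k3 | k3⟩ := z2 W e1 e2 e3
    · refine hn (k2 (z0 k3 fun x hx => ?_))
      show brK zz x = (0 : KK) • x
      rw [zz_eq, br_add_l, show brK z13 x = _ from z1 (fun x hx => (e4 x hx).1) x (k1 hx),
        show brK z24 x = _ from z1 (fun x hx => (e4 x hx).2) x (k1 hx), zero_smul, add_zero]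
    · exact hn (k2 (z0 (fun x hx => (k3 x hx).1) fun x hx => z1 (fun x hx => (e4 x hx).1) x (k1 hx)))
  obtain ⟨W, k1, k2, k3, k4 | k4⟩ := soc A le_rfl h1 h0
  · obtain ⟨W', l1, l2, l3, l4, l5 | l5⟩ := z2 W k1 k2 k3
    · exact hn (l4 (z0 l5 fun x hx => z1 k4 x (l1 hx)))
    · exact z3 W' l2 l3 l4 l5
  · exact z3 W k1 k2 k3 k4

end Cfsg.Agent.E82.Soc
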