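import Cfsg.Agent.E82.Soc.Nf
import Cfsg.Agent.E82.Par
import Cfsg.Agent.E82.Fr.Cen
import Cfsg.Agent.E82.Mach.Main

/-!
# S3369: stable subgroups of the Lie algebra (helper92)

* `Stb φ U` : stable additive subgroups; `brS W` : the span of the brackets; `PAR φ` : a stable subspace in a nilradical;
* `Rat z` : the rational vectors in the frame `z`; `Emb` : a module given by a table inside the Lie algebra;
* `Ex` : expressions in the words, evaluated on tables.
-/

set_option autoImplicit false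
set_option maxRecDepth 100000
set_option maxHeartbeats 400000

namespace Cfsg.Agent.E82.Soc

open Cfsg Cfsg.Lie Module
open Cfsg.Agent.H939.L64 (KK LK L2 E2 aK brK up rE)
open Cfsg.Agent.H876.L64 (aK_mul aK_one aK_add aK_smul aK_zero aK_brK aK_inv aK_inv' two_zero)
open Cfsg.Agent.H201.L34 (br_add_l br_add_r br_smul_l br_smul_r br_zero_l br_zero_r)
open Cfsg.Agent.H413.L16 (add_self')
open Cfsg.Agent.E8A (InN act)
open Cfsg.Agent.E82.Fr (cj cj_apply rE_cj)
open Cfsg.Agent.E82.Mach (F2 X wd ops lin mulW bv wfG inR opR Hom Inv)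

theorem neg_LK (v : LK) : -v = v := neg_eq_of_add_eq_zero_left (add_self' v)

section

variable {Γ : Type} {φ : Γ → GK} {U W : AddSubgroup LK}

/-- stable subgroups -/
def Stb (φ : Γ → GK) (U : AddSubgroup LK) : Prop := ∀ s, ∀ x ∈ U, aK (φ s) x ∈ U

/-- induction on a closure -/
theorem cl_ind {A : Set LK} {p : LK → Prop} (h0 : p 0) (h1 : ∀ x ∈ A, p x) (h2 : ∀ x y, p x → p y → p (x + y)) {x : LK}
    (hx : x ∈ AddSubgroup.closure A) : p x := by
  induction hx using AddSubgroup.closure_induction with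
  | mem x hx => exact h1 x hx
  | zero => exact h0
  | add x y _ _ hx hy => exact h2 x y hx hy
  | neg x _ hx => rw [neg_LK]; exact hx

/-- the brackets -/
noncomputable def brS (W : AddSubgroup LK) : AddSubgroup LK := AddSubgroup.closure {u | ∃ x ∈ W, ∃ y ∈ W, u = brK x y}

theorem Stb.brS (h : Stb φ W) : Stb φ (brS W) := fun s _ hx =>
  cl_ind (p := fun x => aK (φ s) x ∈ Soc.brS W) (by rw [aK_zero]; exact zero_mem _)
    (by
      rintro _ ⟨x, hx, y, hy, rfl⟩
      rw [aK_brK]
      exact AddSubgroup.subset_closure ⟨_, h s x hx, _, h s y hy, rfl⟩)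
    (fun x y hx hy => by rw [aK_add]; exact add_mem hx hy) hx

theorem brS_le (h : ∀ x ∈ W, ∀ y ∈ W, brK x y ∈ U) : brS W ≤ U :=
  (AddSubgroup.closure_le _).2 (by rintro _ ⟨x, hx, y, hy, rfl⟩; exact h x hx y hy)

theorem br_of_bot (h : brS W = ⊥) : ∀ x ∈ W, ∀ y ∈ W, brK x y = 0 := fun x hx y hy => by
  have h1 : brK x y ∈ brS W := AddSubgroup.subset_closure ⟨x, hx, y, hy, rfl⟩
  rwa [h, AddSubgroup.mem_bot] at h1

theorem span_ind {A : Set LK} {B : Submodule KK LK} {g : GK} (h : ∀ x ∈ A, aK g x ∈ B) {x : LK} (hx : x ∈ Submodule.span KK A) :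
    aK g x ∈ B := by
  induction hx using Submodule.span_induction with
  | mem x hx => exact h x hx
  | zero => rw [aK_zero]; exact zero_mem _
  | add x y _ _ hx hy => rw [aK_add]; exact add_mem hx hy
  | smul c x _ hx => rw [aK_smul]; exact B.smul_mem c hx

theorem Stb.span (h : Stb φ W) (s : Γ) : ∀ x ∈ Submodule.span KK (W : Set LK), aK (φ s) x ∈ Submodule.span KK (W : Set LK) :=
  fun _ hx => span_ind (fun x hx => Submodule.subset_span (h s x hx)) hx

theorem span_br {A B : Set LK} {C : Submodule KK LK} (h : ∀ x ∈ A, ∀ y ∈ B, brK x y ∈ C) :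
    ∀ x ∈ Submodule.span KK A, ∀ y ∈ Submodule.span KK B, brK x y ∈ C := by
  intro x hx y hy
  induction hx using Submodule.span_induction with
  | mem x hx =>
    induction hy using Submodule.span_induction with
    | mem y hy => exact h x hx y hy
    | zero => rw [br_zero_r]; exact zero_mem _
    | add y z _ _ hy hz => rw [br_add_r]; exact add_mem hy hz
    | smul c y _ hy => rw [br_smul_r]; exact C.smul_mem c hy
  | zero => rw [br_zero_l]; exact zero_mem _
  | add x z _ _ hx hz => rw [br_add_l]; exact add_mem hx hz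
  | smul c x _ hx => rw [br_smul_l]; exact C.smul_mem c hx

theorem span_ab (h : ∀ x ∈ W, ∀ y ∈ W, brK x y = 0) :
    ∀ x ∈ Submodule.span KK (W : Set LK), ∀ y ∈ Submodule.span KK (W : Set LK), brK x y = 0 := fun x hx y hy =>
  (Submodule.mem_bot KK).1 (span_br (C := ⊥) (fun x hx y hy => (Submodule.mem_bot KK).2 (h x hx y hy)) x hx y hy)

theorem cl_br {A B : Set LK} {C : AddSubgroup LK} (h : ∀ x ∈ A, ∀ y ∈ B, brK x y ∈ C) :
    ∀ x ∈ AddSubgroup.closure A, ∀ y ∈ AddSubgroup.closure B, brK x y ∈ C := fun _ hx y hy =>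
  cl_ind (p := fun x => brK x y ∈ C) (by rw [br_zero_l]; exact zero_mem _)
    (fun x hx => cl_ind (p := fun y => brK x y ∈ C) (by rw [br_zero_r]; exact zero_mem _) (h x hx)
      (fun y z hy hz => by rw [br_add_r]; exact add_mem hy hz) hy)
    (fun x z hx hz => by rw [br_add_l]; exact add_mem hx hz) hx

/-- the nilradical -/
def NN : Submodule KK LK := Sp (120 ≤ ·)

theorem mem_NN {v : LK} (h : InN v) : v ∈ NN := ⟨h.2, fun r hr e => by
  rw [co_of_lt (lt_nr hr)]
  exact h.1 _ (not_le.1 e)⟩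

/-- a stable subspace of a nilradical -/
def PAR (φ : Γ → GK) : Prop := ∃ W : Submodule KK LK, W ≠ ⊥ ∧ (∀ s, ∀ w ∈ W, aK (φ s) w ∈ W) ∧ ∃ g, ∀ w ∈ W, InN (aK g w)

theorem par_of (h : Stb φ W) {v : LK} (hv : v ∈ W) (h0 : v ≠ 0) {A : Set LK} (hA : W ≤ AddSubgroup.closure A) {g : GK}
    (hg : ∀ w ∈ A, InN (aK g w)) : PAR φ := by
  refine ⟨Submodule.span KK (W : Set LK), fun e => h0 ?_, h.span, g, fun w hw => inN_of (span_ind (B := NN) (fun x hx => ?_) hw)⟩
  · have h1 : v ∈ Submodule.span KK (W : Set LK) := Submodule.subset_span hv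
    rwa [e, Submodule.mem_bot] at h1
  · exact cl_ind (p := fun x => aK g x ∈ NN) (by rw [aK_zero]; exact zero_mem _) (fun x hx => mem_NN (hg x hx))
      (fun x y hx hy => by rw [aK_add]; exact add_mem hx hy) (hA hx)

end

/-! ### the rational vectors -/

theorem up_add (x y : L2) : up (x + y) = up x + up y := funext fun i => map_add (algebraMap (ZMod 2) KK) (x i) (y i)

/-- the rational vectors in a frame -/
noncomputable def io (z : GK) : L2 →+ LK := AddMonoidHom.mk' (fun x => aK z⁻¹ (up x)) fun x y => by rw [up_add, aK_add]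

theorem io_apply (z : GK) (x : L2) : io z x = aK z⁻¹ (up x) := rfl

theorem io_inj (z : GK) : Function.Injective (io z) := (injective_iff_map_eq_zero _).2 fun x hx => by
  by_contra h
  apply up_ne_zero h
  rw [← aK_inv z (up x), ← io_apply, hx, aK_zero]

theorem io_act (z : GK) (g : E2) (x : L2) : io z (act g x) = aK (cj z g) (io z x) := by
  rw [io_apply, io_apply, up_act]
  conv_lhs => rw [← aK_inv z (up x), rE_cj, aK_inv']

theorem io_br (z : GK) (x y : L2) : brK (io z x) (io z y) = io z (Cfsg.Agent.E8A.br x y) := by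
  rw [io_apply, io_apply, io_apply, ← aK_brK]
  exact congrArg (aK z⁻¹) (Cfsg.Agent.E8A.br_mp (algebraMap (ZMod 2) KK) x y)

/-- the rational vectors -/
noncomputable def Rat (z : GK) : AddSubgroup LK := (io z).range

theorem Rat_br (z : GK) : ∀ x ∈ Rat z, ∀ y ∈ Rat z, brK x y ∈ Rat z := by
  rintro _ ⟨x, rfl⟩ _ ⟨y, rfl⟩
  exact ⟨_, (io_br z x y).symm⟩

theorem Rat_ne (z : GK) : Rat z ≠ ⊥ := fun h => by
  have h1 : io z (fun _ => 1) ∈ Rat z := ⟨_, rfl⟩
  rw [h, AddSubgroup.mem_bot, ← map_zero (io z)] at h1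
  exact one_ne_zero (congrFun (io_inj z h1) (Sum.inl ⟨0, by decide⟩))

section

variable {S : Type} [Group S] {f : S →* E2} {H : Subgroup E2}

theorem Rat_stb (z : GK) (f : S →* E2) : Stb (fun s => cj z (f s)) (Rat z) := by
  rintro s _ ⟨x, rfl⟩
  exact ⟨_, io_act z (f s) x⟩

theorem _root_.Cfsg.Agent.E82.Sit.not_par (hS : Sit f H) (hs : Small S) (hfx : ¬ Fixd f) (z : GK) :
    ¬ PAR fun s => cj z (f s) := by
  rintro ⟨W, h0, h1, g, h2⟩
  refine hS.end_par hs hfx (W := Submodule.span KK (aK z '' W)) (fun e => h0 ?_) (fun s w hw => ?_) ⟨g * z⁻¹, fun w hw => ?_⟩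
  · rw [eq_bot_iff]
    intro v hv
    have h3 : aK z v ∈ Submodule.span KK (aK z '' W) := Submodule.subset_span ⟨v, hv, rfl⟩
    rw [e, Submodule.mem_bot] at h3
    rw [Submodule.mem_bot, ← aK_inv' z v, h3, aK_zero]
  · refine span_ind (g := Cfsg.Agent.H939.L64.em (f s)) ?_ hw
    rintro _ ⟨v, hv, rfl⟩
    exact Submodule.subset_span ⟨_, h1 s v hv, (rE_cj z (f s) v).symm⟩
  · refine inN_of (span_ind (B := NN) ?_ hw)
    rintro _ ⟨v, hv, rfl⟩
    rw [aK_mul, aK_inv']
    exact mem_NN (h2 v hv)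

theorem fixd_of {z : GK} {v : LK} (h0 : v ≠ 0) (h : ∀ s, aK (cj z (f s)) v = v) : Fixd f :=
  ⟨aK z v, fun e => h0 (by rw [← aK_inv' z v, e, aK_zero]), fun s => by rw [rE_cj, h]⟩

end

/-! ### expressions -/

/-- expressions in the words -/
inductive Ex where
  /-- a word -/
  | w : List ℕ → Ex
  /-- a sum -/
  | add : Ex → Ex → Ex
  /-- a product -/
  | mul : Ex → Ex → Ex

/-- the value of an expression -/
noncomputable def Ex.ev {V : Type} [AddCommGroup V] [Module F2 V] (a : ℕ → End F2 V) (e : Ex) : End F2 V :=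
  Ex.rec (motive := fun _ => End F2 V) (wd a) (fun _ _ x y => x + y) (fun _ _ x y => x * y) e

/-- the table of the product with an expression -/
noncomputable def Ex.tb (n : ℕ) (G : List (List (ℕ × ℕ))) (e : Ex) : ℕ → ℕ :=
  Ex.rec (motive := fun _ => ℕ → ℕ) (mulW n G) (fun _ _ x y T => Mach.force (x T) fun u => Mach.force (y T) (Nat.xor u))
    (fun _ _ x y T => Mach.force (x T) y) e

theorem Ex.lin_tb {n : ℕ} {G : List (List (ℕ × ℕ))} (h : wfG n G = true) (e : Ex) (T : ℕ) :
    lin n (e.tb n G T) = lin n T * e.ev (ops n G) := by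
  induction e generalizing T with
  | w l => exact Mach.lin_mulW h l T
  | add a b ha hb =>
    show lin n (Mach.force (a.tb n G T) fun u => Mach.force (b.tb n G T) (Nat.xor u)) = lin n T * (a.ev _ + b.ev _)
    rw [Mach.force_eq, Mach.force_eq, mul_add, ← ha, ← hb]
    exact Mach.lin_xor n _ _
  | mul a b ha hb =>
    show lin n (Mach.force (a.tb n G T) (b.tb n G)) = lin n T * (a.ev _ * b.ev _)
    rw [Mach.force_eq, hb, ha, mul_assoc]

/-- two expressions have the same table -/
noncomputable def eqX (n : ℕ) (G : List (List (ℕ × ℕ))) (a b : Ex) : Bool :=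
  Mach.force (Mach.idK n n) fun I => Nat.beq (a.tb n G I) (b.tb n G I)

/-- an expression has the table zero -/
noncomputable def zX (n : ℕ) (G : List (List (ℕ × ℕ))) (a : Ex) : Bool := Mach.force (Mach.idK n n) fun I => Nat.beq (a.tb n G I) 0

theorem eqX_sound {n : ℕ} {G : List (List (ℕ × ℕ))} (h : wfG n G = true) {a b : Ex} (e : eqX n G a b = true) :
    a.ev (ops n G) = b.ev (ops n G) := by
  rw [eqX, Mach.force_eq] at e
  have h1 := congrArg (lin n) (Nat.eq_of_beq_eq_true e)
  rwa [Ex.lin_tb h, Ex.lin_tb h, Mach.lin_idK, one_mul, one_mul] at h1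

theorem zX_sound {n : ℕ} {G : List (List (ℕ × ℕ))} (h : wfG n G = true) {a : Ex} (e : zX n G a = true) : a.ev (ops n G) = 0 := by
  rw [zX, Mach.force_eq] at e
  have h1 := congrArg (lin n) (Nat.eq_of_beq_eq_true e)
  rwa [Ex.lin_tb h, Mach.lin_idK, one_mul, Mach.lin_zero] at h1

/-- the image of a vector -/
noncomputable def Ex.ac (G : List (List (ℕ × ℕ))) (e : Ex) : ℕ → ℕ :=
  Ex.rec (motive := fun _ => ℕ → ℕ)
    (fun l v => List.rec (motive := fun _ => ℕ) v (fun j _ u => Mach.force u (Mach.actJ G j)) l)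
    (fun _ _ x y v => Nat.xor (x v) (y v)) (fun _ _ x y v => Mach.force (y v) x) e

theorem Ex.ac_spec {n : ℕ} {G : List (List (ℕ × ℕ))} (h : wfG n G = true) (e : Ex) {v : ℕ} (hv : Mach.Sm n v) :
    Mach.Sm n (e.ac G v) ∧ bv n (e.ac G v) = e.ev (ops n G) (bv n v) := by
  induction e generalizing v with
  | w l =>
    induction l with
    | nil => exact ⟨hv, rfl⟩
    | cons j l ih =>
      have h1 := Mach.actJ_spec h j ih.1
      rw [ih.2] at h1
      show Mach.Sm n (Mach.force ((Ex.w l).ac G v) (Mach.actJ G j)) ∧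
        bv n (Mach.force ((Ex.w l).ac G v) (Mach.actJ G j)) = wd (ops n G) (j :: l) (bv n v)
      rw [Mach.force_eq, Mach.wd_cons_apply]
      exact h1
  | add a b ha hb =>
    refine ⟨(ha hv).1.xor (hb hv).1, ?_⟩
    show bv n (a.ac G v ^^^ b.ac G v) = a.ev _ _ + b.ev _ _
    rw [Mach.bv_xor, (ha hv).2, (hb hv).2]
  | mul a b ha hb =>
    show Mach.Sm n (Mach.force (b.ac G v) (a.ac G)) ∧ bv n (Mach.force (b.ac G v) (a.ac G)) = a.ev _ (b.ev _ _)
    rw [Mach.force_eq, ← (hb hv).2]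
    exact ha (hb hv).1

theorem sm_lt {n v : ℕ} (h : v < 2 ^ n) : Mach.Sm n v := fun t ht =>
  Mach.bt_false (Nat.testBit_lt_two_pow (h.trans_le (Nat.pow_le_pow_right (by norm_num) ht)))

theorem ac_eq {n : ℕ} {G : List (List (ℕ × ℕ))} (h : wfG n G = true) {e : Ex} {v u : ℕ}
    (hv : (Nat.blt v (2 ^ n) && Nat.beq (e.ac G v) u) = true) : e.ev (ops n G) (bv n v) = bv n u := by
  rw [Bool.and_eq_true, Nat.blt_eq] at hv
  rw [← (e.ac_spec h (sm_lt hv.1)).2, Nat.eq_of_beq_eq_true hv.2]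

/-! ### modules inside the Lie algebra -/

/-- a module given by a table inside the Lie algebra -/
structure Emb (ψ : List ℕ → GK) (k n : ℕ) (G : List (List (ℕ × ℕ))) (κ : X n →+ LK) : Prop where
  wf : wfG n G = true
  inj : Function.Injective κ
  wd : ∀ w, inR k w = true → ∀ x, κ (wd (ops n G) w x) = aK (ψ w) (κ x)

section

variable {S : Type} [Group S] {f : S →* E2} {σ : ℕ → S} {k : ℕ}

/-- the action on the rational module -/
noncomputable def rho2 : E2 →* End F2 L2 where
  toFun g := Matrix.mulVecLin ((g : GL chevE8.Idx (ZMod 2)) : Matrix chevE8.Idx chevE8.Idx (ZMod 2))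
  map_one' := LinearMap.ext fun v => Cfsg.Agent.E8A.act_one v
  map_mul' := fun a b => LinearMap.ext fun v => Cfsg.Agent.E8A.act_mul a b v

theorem rho2_apply (g : E2) (v : L2) : rho2 g v = act g v := rfl

/-- **from the machine to the Lie algebra** -/
theorem exists_emb {ρ : S →* End F2 L2} (hρ : ∀ s v, ρ s v = act (f s) v) (hσ : Subgroup.closure (σ '' {j | j < k}) = ⊤)
    (z : GK) {U : AddSubgroup LK} (hR : U ≤ Rat z) (hU : Stb (fun s => cj z (f s)) U) (h0 : U ≠ ⊥) :
    ∃ U' : Submodule F2 L2, Inv (opR ρ σ k) U' ∧ U' ≠ ⊥ ∧ ∀ (n : ℕ) (G : List (List (ℕ × ℕ))) (e : X n →ₗ[F2] L2),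
      wfG n G = true → Function.Injective e → Hom (ops n G) (opR ρ σ k) e → (∀ x, e x ∈ U') →
      ∃ κ : X n →+ LK, Emb (fun w => cj z (f (Mach.pw σ w))) k n G κ ∧ κ.range ≤ U ∧ Stb (fun s => cj z (f s)) κ.range := by
  refine ⟨AddSubgroup.toZModSubmodule 2 (U.comap (io z)), fun j v hv => ?_, fun e => h0 ?_, fun n G e h1 h2 h3 h4 => ?_⟩
  · show io z (opR ρ σ k j v) ∈ U
    unfold opR
    split_ifs
    · rw [hρ, io_act]
      exact hU _ _ hv
    · rw [LinearMap.zero_apply, map_zero]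
      exact zero_mem _
  · rw [eq_bot_iff]
    intro v hv
    obtain ⟨x, rfl⟩ := hR hv
    have h1 : x ∈ AddSubgroup.toZModSubmodule 2 (U.comap (io z)) := hv
    rw [e, Submodule.mem_bot] at h1
    rw [h1, map_zero]
    exact zero_mem _
  · have key : ∀ w, inR k w = true → ∀ x, io z (e (wd (ops n G) w x)) = aK (cj z (f (Mach.pw σ w))) (io z (e x)) :=
      fun w hw x => by rw [h3.wd, Mach.wd_opR ρ σ (Mach.inR_lt hw), hρ, io_act]
    refine ⟨(io z).comp e.toAddMonoidHom, ⟨h1, (io_inj z).comp h2, key⟩, ?_, fun s => ?_⟩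
    · rintro _ ⟨x, rfl⟩
      exact h4 x
    · have hs : s ∈ Subgroup.closure (σ '' {j | j < k}) := hσ ▸ Subgroup.mem_top s
      have fin : Finite E2 := finite_E2
      have st : ∀ g : E2, (∀ x, ∃ y, act g (e x) = e y) → ∀ m : ℕ, ∀ x, ∃ y, act (g ^ m) (e x) = e y := fun g hg m => by
        induction m with
        | zero => exact fun x => ⟨x, by rw [pow_zero, Cfsg.Agent.E8A.act_one]⟩
        | succ m ih =>
          intro x
          obtain ⟨y, hy⟩ := hg x
          obtain ⟨y', hy'⟩ := ih y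
          exact ⟨y', by rw [pow_succ, Cfsg.Agent.E8A.act_mul, hy, hy']⟩
      have k2 : ∀ x, ∃ y, act (f s) (e x) = e y := by
        induction hs using Subgroup.closure_induction with
        | mem s hs =>
          obtain ⟨j, hj, rfl⟩ := hs
          intro x
          refine ⟨ops n G j x, ?_⟩
          rw [h3 j x, opR, if_pos (show j < k from hj), hρ]
        | one => exact fun x => ⟨x, by rw [map_one, Cfsg.Agent.E8A.act_one]⟩
        | mul a b _ _ ha hb =>
          intro x
          obtain ⟨y, hy⟩ := hb x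
          obtain ⟨y', hy'⟩ := ha y
          exact ⟨y', by rw [map_mul, Cfsg.Agent.E8A.act_mul, hy, hy']⟩
        | inv a _ ha =>
          have e1 : f a⁻¹ = f a ^ (orderOf (f a) - 1) := by
            rw [map_inv, inv_eq_iff_mul_eq_one, ← pow_succ', Nat.sub_add_cancel (orderOf_pos _), pow_orderOf_eq_one]
          rw [e1]
          exact st _ ha _
      rintro _ ⟨x, rfl⟩
      obtain ⟨y, hy⟩ := k2 x
      refine ⟨y, ?_⟩
      show io z (e y) = aK (cj z (f s)) (io z (e x))
      rw [← hy, io_act]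

end

end Cfsg.Agent.E82.Soc
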