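import Cfsg.Agent.E82.Soc.Co
import Cfsg.Agent.H413.L16.Slt

/-!
# S3369: torus elements, the four commuting `SL₂`, monomial elements (helper92)

* `Dg t ζ w` : a torus element which acts on `er r` by `ζ ^ w r`;
* `Mn g l` : `g = gw l * s` with `s` trivial on the roots `b j`; `CEN Y` : the centraliser of the family is `Psi · Zt`;
* `mn_of` : an element of the normaliser which permutes the root vectors of the `± b j` is monomial.
-/

set_option autoImplicit false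
set_option maxRecDepth 100000

namespace Cfsg.Agent.E82.Soc

open Cfsg Cfsg.Lie
open Cfsg.Agent.ChevalleyStructure.SL2Hom (up lo mem_closure_SL2)
open Cfsg.Agent.Tits.Roots Cfsg.Agent.ChevalleyStructure.CoxeterGeomTypes Cfsg.Agent.Nodes.RGDChev
open Cfsg.Agent.KFacts.RgdChevCoord (TT)
open Cfsg.Agent.H129.TorusChar (cX cX_mul cX_one isMC_cX)
open Cfsg.Agent.BpExc.RowsUntw (e8T)
open Cfsg.Agent.H897.T5Frame (rc)
open Cfsg.Agent.H897.T5UntwRow (A8)
open Cfsg.Agent.H939.L64 (KK LK aK brK)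
open Cfsg.Agent.H876.L64 (aK_mul aK_one aK_add aK_smul aK_zero aK_brK aK_inv aK_inv' two_zero aK_tor)
open Cfsg.Agent.H413.L16 (er hv hr tg nr rk8 xr aK_xr_er er_ge er_of eq_of_er S2 pj ipj Ph Psi Zt Ph_up Ph_lo vec_ipj ipj_lt vec_neg8
  Ph_ker S2_center Psi_apply Zt_Psi Good okN rf br_neg aK_t_hv)
open Cfsg.Agent.H201.L34 (gw aK_gw good_gw ok_of br_smul_l br_smul_r)

theorem aK_ext {g h : GK} (e : ∀ v, aK g v = aK h v) : g = h := eq_of_er fun s _ => e (er s)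

theorem two_mul_K (a : KK) : a + a = 0 := by rw [← two_mul, two_zero, zero_mul]

/-! ### torus elements -/

theorem co_tor {t : GK} (ht : t ∈ TT chevE8 KK) (r : ℕ) (v : LK) : co r (aK t v) = cX e8T t (vec chevE8 8 r) * co r v := by
  unfold co
  split_ifs with h
  · rw [aK_tor ht]
    rfl
  · rw [mul_zero]

theorem tp_tor {t : GK} (ht : t ∈ TT chevE8 KK) (v : LK) (i : Fin chevE8.rank) : aK t v (Sum.inl i) = v (Sum.inl i) := by
  rw [aK_tor ht]
  exact one_mul _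

theorem ext_co {u v : LK} (h0 : ∀ i, u (Sum.inl i) = v (Sum.inl i)) (h : ∀ r < 240, co r u = co r v) : u = v := by
  funext a
  rcases a with a | a
  · exact h0 a
  · exact (co_of_lt a.2 u).symm.trans ((h a (lt_of_lt_of_eq a.2 nr)).trans (co_of_lt a.2 v))

theorem aK_tor_er {t : GK} (ht : t ∈ TT chevE8 KK) (r : ℕ) : aK t (er r) = cX e8T t (vec chevE8 8 r) • er r := by
  refine ext_co (fun i => by rw [tp_tor ht, Pi.smul_apply, er_T0, smul_zero]) fun s _ => ?_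
  rw [co_tor ht, co_smul]
  by_cases e : r = s
  · rw [e]
  · rw [co_er_ne e, mul_zero, mul_zero]

theorem St_tor {t : GK} (ht : t ∈ TT chevE8 KK) {A : ℕ → Prop} {v : LK} (hv : v ∈ St A) : aK t v ∈ St A :=
  fun r h1 h2 => by rw [co_tor ht, hv r h1 h2, mul_zero]

theorem Sp_tor {t : GK} (ht : t ∈ TT chevE8 KK) {A : ℕ → Prop} {v : LK} (hv : v ∈ Sp A) : aK t v ∈ Sp A :=
  ⟨fun i => by rw [tp_tor ht, hv.1 i], St_tor ht hv.2⟩

/-- a torus element with given weights -/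
structure Dg (t : GK) (ζ : KK) (w : ℕ → ℕ) : Prop where
  mem : t ∈ TT chevE8 KK
  val : ∀ r < 240, cX e8T t (vec chevE8 8 r) = ζ ^ w r

section Dg

variable {t : GK} {ζ : KK} {w : ℕ → ℕ} {N : ℕ}

theorem Dg.co (h : Dg t ζ w) {r : ℕ} (hr : r < 240) (v : LK) : co r (aK t v) = ζ ^ w r * co r v := by
  rw [co_tor h.mem, h.val r hr]

theorem Dg.er (h : Dg t ζ w) {r : ℕ} (hr : r < 240) : aK t (er r) = ζ ^ w r • er r := by
  rw [aK_tor_er h.mem, h.val r hr]

/-- the weights of an eigenvector -/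
theorem Dg.eig (h : Dg t ζ w) (hζ : IsPrimitiveRoot ζ N) {m : ℕ} (hm : m < N) {v : LK} (hv : aK t v = ζ ^ m • v) {r : ℕ}
    (hr : r < 240) (hw : w r < N) (e : w r ≠ m) : Soc.co r v = 0 := by
  by_contra h1
  have h2 := h.co hr v
  rw [hv, co_smul] at h2
  exact e (hζ.pow_inj hw hm (mul_right_cancel₀ h1 h2).symm)

theorem Dg.eig_T0 (h : Dg t ζ w) (hζ : IsPrimitiveRoot ζ N) {m : ℕ} (hm : m < N) (h0 : m ≠ 0) {v : LK}
    (hv : aK t v = ζ ^ m • v) : T0 v := by
  intro i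
  by_contra h1
  have h2 := tp_tor h.mem v i
  rw [hv, Pi.smul_apply, smul_eq_mul] at h2
  have h3 : ζ ^ m = ζ ^ 0 := by
    rw [pow_zero]
    exact mul_right_cancel₀ h1 (h2.trans (one_mul _).symm)
  exact h0 (hζ.pow_inj hm (by omega) h3)

theorem Dg.fix (h : Dg t ζ w) (hζ : IsPrimitiveRoot ζ N) {v : LK} (hv : aK t v = v) {r : ℕ}
    (hr : r < 240) (hw : w r < N) (e : w r ≠ 0) : Soc.co r v = 0 :=
  h.eig hζ (m := 0) (by omega) (by rw [hv, pow_zero, one_smul]) hr hw e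

theorem Dg.of_St (h : Dg t ζ w) {v : LK} (hv : v ∈ St (w · = 0)) : aK t v = v :=
  ext_co (tp_tor h.mem v) fun r hr => by
    rw [h.co hr]
    by_cases e : w r = 0
    · rw [e, pow_zero, one_mul]
    · rw [hv r hr e, mul_zero]

theorem Dg.of_Sp (h : Dg t ζ w) {m : ℕ} {v : LK} (hv : v ∈ Sp (w · = m)) : aK t v = ζ ^ m • v :=
  ext_co (fun i => by rw [tp_tor h.mem, Pi.smul_apply, hv.1 i, smul_zero]) fun r hr => by
    rw [h.co hr, co_smul]
    by_cases e : w r = m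
    · rw [e]
    · rw [hv.2 r hr e, mul_zero, mul_zero]

theorem three_K (a : KK) : a + a + a = a := by rw [two_mul_K, zero_add]

/-- no component in the fixed space (order three) -/
theorem Dg.neg (h : Dg t ζ w) {v : LK} (hv : v + aK t v + aK t (aK t v) = 0) : v ∈ Sp (w · ≠ 0) := by
  refine ⟨fun i => ?_, fun r hr e => ?_⟩
  · have h1 := congrFun hv (Sum.inl i)
    rwa [Pi.add_apply, Pi.add_apply, tp_tor h.mem (aK t v), tp_tor h.mem v, three_K] at h1
  · have h1 := congrArg (Soc.co r) hv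
    rwa [co_add, co_add, h.co hr (aK t v), h.co hr v, not_not.1 e, pow_zero, one_mul, one_mul, three_K, co_zero] at h1

end Dg

/-! ### the groups `SL₂` -/

theorem Ph_up' (j : Fin 4) (c : KK) : Ph j (up c) = xr (ipj j) c := by rw [Ph_up, xr, vec_ipj]

theorem Ph_lo' (j : Fin 4) (c : KK) : Ph j (lo c) = xr (239 - ipj j) c := by rw [Ph_lo, xr, vec_neg8 (ipj_lt j), vec_ipj]

theorem Ph_mem {P : Subgroup GK} {j : Fin 4} (h1 : ∀ c, xr (ipj j) c ∈ P) (h2 : ∀ c, xr (239 - ipj j) c ∈ P) (A : S2) :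
    Ph j A ∈ P := by
  have h : Subgroup.closure (Set.range (up (F := KK)) ∪ Set.range (lo (F := KK))) ≤ P.comap (Ph j) := by
    rw [Subgroup.closure_le]
    rintro _ (⟨c, rfl⟩ | ⟨c, rfl⟩)
    · show Ph j (up c) ∈ P
      rw [Ph_up']; exact h1 c
    · show Ph j (lo c) ∈ P
      rw [Ph_lo']; exact h2 c
  exact h (mem_closure_SL2 A)

/-- the stabiliser of a vector -/
def fxV (v : LK) : Subgroup GK where
  carrier := {g | aK g v = v}
  one_mem' := aK_one v
  mul_mem' := fun {a b} ha hb => by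
    show aK (a * b) v = v
    rw [aK_mul, show aK b v = v from hb, show aK a v = v from ha]
  inv_mem' := fun {a} ha => by
    show aK a⁻¹ v = v
    conv_lhs => rw [← show aK a v = v from ha]
    exact aK_inv' a v

theorem xr_fix {r a : ℕ} (hr : r < 240) (ha : a < 240) (hn : a ≠ 239 - r) (h : tf r a = 240) (c : KK) :
    aK (xr r c) (er a) = er a := by
  rw [aK_xr_er hr ha hn, tg_eq, h, er_ge le_rfl, smul_zero, add_zero]

/-- the root is orthogonal to `b j` -/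
def ob (j : Fin 4) (a : ℕ) : Prop := a < 240 ∧ a ≠ 239 - ipj j ∧ a ≠ ipj j ∧ tf (ipj j) a = 240 ∧ tf (239 - ipj j) a = 240

theorem Ph_fix {j : Fin 4} {a : ℕ} (h : ob j a) (A : S2) : aK (Ph j A) (er a) = er a := by
  have hj := ipj_lt j
  exact Ph_mem (P := fxV (er a)) (fun c => xr_fix hj h.1 h.2.1 h.2.2.2.1 c)
    (fun c => xr_fix (by omega) h.1 (by have := h.2.2.1; omega) h.2.2.2.2 c) A

theorem Psi_fix {a : ℕ} (h : ∀ j, ob j a) (B : Fin 4 → S2) : aK (Psi B) (er a) = er a := by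
  rw [Psi_apply, aK_mul, aK_mul, aK_mul, Ph_fix (h 3), Ph_fix (h 2), Ph_fix (h 1), Ph_fix (h 0)]

theorem ob_b : ∀ j k : Fin 4, j ≠ k → ob j (ipj k) ∧ ob j (239 - ipj k) := by
  unfold ob
  decide +kernel

theorem Psi_split (B : Fin 4 → S2) (k : Fin 4) : Psi B = Ph k (B k) * Psi (Function.update B k 1) := by
  rw [← Cfsg.Agent.H413.L16.Psi_single, ← map_mul]
  congr 1
  funext i
  by_cases h : i = k
  · subst h
    simp
  · simp [h]

theorem Psi_b (B : Fin 4 → S2) (k : Fin 4) {a : ℕ} (h : a = ipj k ∨ a = 239 - ipj k) :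
    aK (Psi B) (er a) = aK (Ph k (B k)) (er a) := by
  have h1 : ∀ j, aK (Ph j (Function.update B k 1 j)) (er a) = er a := by
    intro j
    by_cases e : j = k
    · rw [e, Function.update_self, map_one, aK_one]
    · rcases h with rfl | rfl
      · exact Ph_fix (ob_b j k e).1 _
      · exact Ph_fix (ob_b j k e).2 _
  rw [Psi_split B k, aK_mul, Psi_apply, aK_mul, aK_mul, aK_mul, h1, h1, h1, h1]

theorem comm_xr {g : GK} {r : ℕ} (hr : r < 240) (h : aK g (er r) = er r) (c : KK) : g * xr r c = xr r c * g :=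
  aK_ext fun v => by rw [aK_mul, aK_mul, aK_conj_xr hr hr h]

theorem Ph_eq_one {j : Fin 4} {A : S2} (h1 : aK (Ph j A) (er (ipj j)) = er (ipj j))
    (h2 : aK (Ph j A) (er (239 - ipj j)) = er (239 - ipj j)) : A = 1 := by
  have hj := ipj_lt j
  refine S2_center fun C => ?_
  have h3 : Ph j C ∈ Subgroup.centralizer {Ph j A} := Ph_mem
    (fun c => Subgroup.mem_centralizer_singleton_iff.2 (comm_xr hj h1 c).symm)
    (fun c => Subgroup.mem_centralizer_singleton_iff.2 (comm_xr (by omega) h2 c).symm) C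
  rw [Subgroup.mem_centralizer_singleton_iff, ← map_mul, ← map_mul] at h3
  have h4 : Ph j (A * C * (C * A)⁻¹) = 1 := by rw [map_mul, map_inv, h3, mul_inv_cancel]
  exact mul_inv_eq_one.1 (Ph_ker j h4)

/-! ### the central torus -/

theorem chi_eq {s : GK} (hs : s ∈ Zt) {x y : Fin 8 → ℤ} (h : x 0 = y 0 ∧ x 3 = y 3 ∧ x 5 = y 5 ∧ x 7 = y 7) :
    cX e8T s x = cX e8T s y := by
  have h1 : cX e8T s (sr 6) = 1 := hs.2 0
  have h2 : cX e8T s (sr 4) = 1 := hs.2 1
  have h3 : cX e8T s (sr 1) = 1 := hs.2 2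
  have h4 : cX e8T s (sr 2) = 1 := hs.2 3
  rw [(isMC_cX e8T hs.1).eq_prod x, (isMC_cX e8T hs.1).eq_prod y, Fin.prod_univ_eight, Fin.prod_univ_eight, h1, h2, h3, h4,
    h.1, h.2.1, h.2.2.1, h.2.2.2]
  simp only [one_zpow]

theorem Zt_b {s : GK} (hs : s ∈ Zt) (k : Fin 4) {a : ℕ} (h : a = ipj k ∨ a = 239 - ipj k) : aK s (er a) = er a := by
  rw [aK_tor_er hs.1]
  rcases h with rfl | rfl
  · rw [vec_ipj, hs.2 k, one_smul]
  · rw [vec_neg8 (ipj_lt k), (isMC_cX e8T hs.1).neg, vec_ipj, hs.2 k, inv_one, one_smul]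

theorem Dg.zt {t : GK} {ζ : KK} {w : ℕ → ℕ} (h : Dg t ζ w) (h0 : ∀ j, w (ipj j) = 0) : t ∈ Zt :=
  ⟨h.mem, fun j => by rw [← vec_ipj, h.val _ (ipj_lt j), h0, pow_zero]⟩

/-! ### monomial elements -/

/-- the permutation of a word -/
def pw (l : List ℕ) (r : ℕ) : ℕ := l.foldr rF r

/-- the check of a word -/
def okW (l : List ℕ) : Bool := l.all fun r => Nat.blt r 240

theorem gw_er {l : List ℕ} (h : okW l = true) {r : ℕ} (hr : r < 240) : aK (gw l) (er r) = er (pw l r) ∧ pw l r < 240 := by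
  rw [pw, ← rf_eq]
  exact aK_gw l (fun a ha => have h1 := Nat.blt_eq.mp (List.all_eq_true.1 h a ha); ⟨h1, okN_all h1⟩) hr

theorem pw_neg {l : List ℕ} (h : okW l = true) {r : ℕ} (hr : r < 240) : pw l (239 - r) = 239 - pw l r := by
  have h1 := bf_aK (gw l) (er r) (er (239 - r))
  rw [(gw_er h hr).1, (gw_er h (by omega)).1, bf_co (gw_er h hr).2, bf_co hr, co_er_self (by omega)] at h1
  by_contra h2
  rw [co_er_ne h2] at h1
  exact zero_ne_one h1

/-- monomial elements -/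
def Mn (g : GK) (l : List ℕ) (s : GK) : Prop := okW l = true ∧ s ∈ Zt ∧ g = gw l * s

/-- the scalar -/
noncomputable def chi (s : GK) (r : ℕ) : KK := cX e8T s (vec chevE8 8 r)

theorem chi_neg {s : GK} (hs : s ∈ Zt) {r : ℕ} (hr : r < 240) : chi s r * chi s (239 - r) = 1 := by
  rw [chi, chi, vec_neg8 hr]
  exact (isMC_cX e8T hs.1).neg_mul _

theorem chi_ne {s : GK} (hs : s ∈ Zt) (r : ℕ) : chi s r ≠ 0 := (isMC_cX e8T hs.1).ne_zero _

/-- the roots differ by a combination of the `b j` -/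
def ky (a b : ℕ) : Prop := vec chevE8 8 a 0 = vec chevE8 8 b 0 ∧ vec chevE8 8 a 3 = vec chevE8 8 b 3 ∧
  vec chevE8 8 a 5 = vec chevE8 8 b 5 ∧ vec chevE8 8 a 7 = vec chevE8 8 b 7

/-- the same for a sum -/
def ky2 (a b c : ℕ) : Prop := vec chevE8 8 a 0 + vec chevE8 8 b 0 = vec chevE8 8 c 0 ∧
  vec chevE8 8 a 3 + vec chevE8 8 b 3 = vec chevE8 8 c 3 ∧ vec chevE8 8 a 5 + vec chevE8 8 b 5 = vec chevE8 8 c 5 ∧
    vec chevE8 8 a 7 + vec chevE8 8 b 7 = vec chevE8 8 c 7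

theorem chi_ky {s : GK} (hs : s ∈ Zt) {a b : ℕ} (h : ky a b) : chi s a = chi s b := chi_eq hs h

theorem chi_ky2 {s : GK} (hs : s ∈ Zt) {a b c : ℕ} (h : ky2 a b c) : chi s a * chi s b = chi s c := by
  rw [chi, chi, ← (isMC_cX e8T hs.1).add]
  exact chi_eq hs h

section Mn

variable {g s : GK} {l : List ℕ}

theorem Mn.er (h : Mn g l s) {r : ℕ} (hr : r < 240) : aK g (er r) = chi s r • er (pw l r) := by
  rw [h.2.2, aK_mul, aK_tor_er h.2.1.1, aK_smul, (gw_er h.1 hr).1, chi]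

theorem Mn.lt (h : Mn g l s) {r : ℕ} (hr : r < 240) : pw l r < 240 := (gw_er h.1 hr).2

theorem Mn.co (h : Mn g l s) {r : ℕ} (hr : r < 240) (v : LK) : Soc.co (pw l r) (aK g v) = chi s r * Soc.co r v := by
  have h1 := h.er (r := 239 - r) (by omega)
  rw [pw_neg h.1 hr] at h1
  rw [co_of hr (h.lt hr) h1 v, ← mul_assoc, chi_neg h.2.1 hr, one_mul]

theorem Mn.hr (h : Mn g l s) {r : ℕ} (h1 : r < 240) : aK g (hr r) = hr (pw l r) := by
  rw [← br_neg h1, aK_brK, h.er h1, h.er (by omega), pw_neg h.1 h1, br_smul_l, br_smul_r, smul_smul, chi_neg h.2.1 h1, one_smul,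
    br_neg (h.lt h1)]

theorem Mn.sp (h : Mn g l s) {A B : ℕ → Prop} (hA : ∀ r < 240, A r → B (pw l r)) {v : LK} (hv : v ∈ Sp A) : aK g v ∈ Sp B :=
  Sp_map (fun r hr h1 => by rw [h.er hr]; exact Submodule.smul_mem _ _ (er_mem_Sp fun _ => hA r hr h1)) hv

theorem Mn.b (h : Mn g l s) (k : Fin 4) {a : ℕ} (ha : a = ipj k ∨ a = 239 - ipj k) : aK g (Cfsg.Agent.H413.L16.er a) =
    Cfsg.Agent.H413.L16.er (pw l a) := by
  have hk := ipj_lt k
  rw [h.2.2, aK_mul, Zt_b h.2.1 k ha, (gw_er h.1 (by rcases ha with rfl | rfl <;> omega)).1]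

theorem mn_gw (h : okW l = true) : Mn (gw l) l 1 := ⟨h, one_mem _, (mul_one _).symm⟩

end Mn

/-- the centraliser of the family -/
def CEN {ι : Type} (Y : ι → GK) : Prop := ∀ u : GK, (∀ i, u * Y i = Y i * u) → ∃ B : Fin 4 → S2, ∃ s ∈ Zt, u = Psi B * s

/-- the word permutes torus elements -/
theorem gw_conj {l : List ℕ} (h : okW l = true) {t t' : GK} {ζ : KK} {w w' : ℕ → ℕ} (ht : Dg t ζ w) (ht' : Dg t' ζ w')
    (e : ∀ r < 240, w' (pw l r) = w r) : gw l * t = t' * gw l :=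
  eq_of_er fun r hr => by
    rw [aK_mul, aK_mul, ht.er hr, aK_smul, (gw_er h hr).1, ht'.er (gw_er h hr).2, e r hr]

/-- the normal form of an element of the normaliser -/
theorem CEN.nf {ι : Type} {Y Y' : ι → GK} (hc : CEN Y) {g n : GK} (hg : ∀ i, g * Y i = Y' i * g) (hn : ∀ i, n * Y i = Y' i * n) :
    ∃ B : Fin 4 → S2, ∃ s ∈ Zt, g = n * Psi B * s := by
  obtain ⟨B, s, hs, e⟩ := hc (n⁻¹ * g) fun i => by
    rw [mul_assoc, hg, ← mul_assoc, ← mul_assoc, inv_mul_eq_iff_eq_mul.2 (show Y' i = n * (Y i * n⁻¹) by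
      rw [← mul_assoc, hn, mul_inv_cancel_right])]
  exact ⟨B, s, hs, by rw [mul_assoc, ← e, mul_inv_cancel_left]⟩

/-- **an element of the normaliser which permutes the root vectors of the `± b j` is monomial** -/
theorem mn_of {g s : GK} {l : List ℕ} {B : Fin 4 → S2} (hl : okW l = true) (hs : s ∈ Zt) (e : g = gw l * Psi B * s)
    (h : ∀ k, aK g (er (ipj k)) = er (pw l (ipj k)) ∧ aK g (er (239 - ipj k)) = er (pw l (239 - ipj k))) : Mn g l s := by
  have h1 : ∀ k a, (a = ipj k ∨ a = 239 - ipj k) → aK g (er a) = er (pw l a) → aK (Ph k (B k)) (er a) = er a := by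
    intro k a ha h2
    have hk := ipj_lt k
    rw [e, aK_mul, aK_mul, Zt_b hs k ha, Psi_b B k ha, ← (gw_er hl (by rcases ha with rfl | rfl <;> omega)).1] at h2
    have h3 := congrArg (aK (gw l)⁻¹) h2
    rwa [aK_inv', aK_inv'] at h3
  have h2 : B = 1 := funext fun k => Ph_eq_one (h1 k _ (Or.inl rfl) (h k).1) (h1 k _ (Or.inr rfl) (h k).2)
  exact ⟨hl, hs, by rw [e, h2, map_one, mul_one]⟩

/-- the action on the root vectors of `± b k` -/
theorem nf_b {g s : GK} {l : List ℕ} {B : Fin 4 → S2} (hl : okW l = true) (hs : s ∈ Zt) (e : g = gw l * Psi B * s) {k m : Fin 4}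
    (h1 : pw l (ipj k) = ipj m) {a : ℕ} (ha : a = ipj k ∨ a = 239 - ipj k) :
    aK g (er a) = aK (Ph m (B k)) (er (pw l a)) := by
  have hk := ipj_lt k
  have hm := ipj_lt m
  have h2 : pw l (239 - ipj k) = 239 - ipj m := by rw [pw_neg hl hk, h1]
  have h3 : (MulAut.conj (gw l)).toMonoidHom.comp (Ph k) = Ph m := by
    refine MonoidHom.eq_of_eqOn_dense (s := Set.range (up (F := KK)) ∪ Set.range (lo (F := KK)))
      (eq_top_iff.2 fun A _ => mem_closure_SL2 A) ?_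
    rintro _ (⟨c, rfl⟩ | ⟨c, rfl⟩)
    · show gw l * Ph k (up c) * (gw l)⁻¹ = Ph m (up c)
      rw [mul_inv_eq_iff_eq_mul, Ph_up', Ph_up']
      exact aK_ext fun v => by rw [aK_mul, aK_mul, aK_conj_xr hk hm (by rw [(gw_er hl hk).1, h1])]
    · show gw l * Ph k (lo c) * (gw l)⁻¹ = Ph m (lo c)
      rw [mul_inv_eq_iff_eq_mul, Ph_lo', Ph_lo']
      exact aK_ext fun v => by
        rw [aK_mul, aK_mul, aK_conj_xr (s := 239 - ipj m) (by omega) (by omega) (by rw [(gw_er hl (by omega)).1, h2])]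
  have h4 : gw l * Ph k (B k) * (gw l)⁻¹ = Ph m (B k) := DFunLike.congr_fun h3 (B k)
  rw [e, aK_mul, aK_mul, Zt_b hs k ha, Psi_b B k ha, ← h4, aK_mul, aK_mul,
    ← (gw_er hl (by rcases ha with rfl | rfl <;> omega)).1, aK_inv']

/-- the action on a root vector orthogonal to the `b j` -/
theorem nf_a {g s : GK} {l : List ℕ} {B : Fin 4 → S2} (hl : okW l = true) (hs : s ∈ Zt) (e : g = gw l * Psi B * s) {a : ℕ}
    (ha : ∀ j, ob j a) : aK g (er a) = chi s a • er (pw l a) := by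
  rw [e, aK_mul, aK_mul, aK_tor_er hs.1, aK_smul, Psi_fix ha, aK_smul, (gw_er hl (ha 0).1).1, chi]

/-! ### products of root elements -/

theorem xl_cons (r : ℕ) (l : List ℕ) (c : KK) : xl (r :: l) c = xr r c * xl l c := by
  rw [xl, List.map_cons, List.prod_cons]; rfl

theorem conj_xl {g : GK} {σ : ℕ → ℕ} (c : KK) (l : List ℕ) (h : ∀ r ∈ l, r < 240 ∧ σ r < 240 ∧ aK g (er r) = er (σ r)) :
    g * xl l c = xl (l.map σ) c * g := by
  induction l with
  | nil => exact (mul_one g).trans (one_mul g).symm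
  | cons r l ih =>
    obtain ⟨h1, h2, h3⟩ := h r List.mem_cons_self
    have h4 : g * xr r c = xr (σ r) c * g := aK_ext fun v => by rw [aK_mul, aK_mul, aK_conj_xr h1 h2 h3]
    rw [List.map_cons, xl_cons, xl_cons, ← mul_assoc, h4, mul_assoc, ih fun a ha => h a (List.mem_cons_of_mem _ ha), mul_assoc]

theorem xl_perm {l l' : List ℕ} (hp : l.Perm l') (h : l.Pairwise fun a b => a < 240 ∧ b < 240 ∧ b ≠ 239 - a ∧ tf a b = 240)
    (c : KK) : xl l c = xl l' c := by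
  refine List.Perm.prod_eq' (hp.map _) (List.pairwise_map.2 (h.imp fun {a b} hab => ?_))
  exact comm_xr hab.2.1 (xr_fix hab.1 hab.2.1 hab.2.2.1 hab.2.2.2 c) c

/-- an element which permutes commuting root vectors -/
theorem comm_xl {g : GK} {σ : ℕ → ℕ} (c : KK) {l : List ℕ} (h : ∀ r ∈ l, r < 240 ∧ σ r < 240 ∧ aK g (er r) = er (σ r))
    (hp : l.Perm (l.map σ)) (h' : l.Pairwise fun a b => a < 240 ∧ b < 240 ∧ b ≠ 239 - a ∧ tf a b = 240) :
    g * xl l c = xl l c * g := by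
  rw [conj_xl c l h, ← xl_perm hp h']

end Cfsg.Agent.E82.Soc
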