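import Cfsg.Agent.E82.Soc.Nf

/-!
# S3369, `Sp₈(2)`: the frame of `3⁴ : A₄` (helper92)

* `Raw` : the relations of `y₀ … y₃`, of the four-group `P`, of the three-cycle `R` and of two more elements;
* `Nice` : `P j` and `R` are monomial; `Raw.nice` : after a conjugation by an element of `SL₂⁴`.
-/

set_option autoImplicit false
set_option maxRecDepth 100000
set_option maxHeartbeats 400000

namespace Cfsg.Agent.E82.Soc

open Cfsg Cfsg.Lie
open Cfsg.Agent.KFacts.RgdChevCoord (TT)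
open Cfsg.Agent.H939.L64 (KK LK aK brK)
open Cfsg.Agent.H876.L64 (aK_mul aK_one aK_add aK_smul aK_zero aK_brK aK_inv aK_inv' two_zero)
open Cfsg.Agent.H413.L16 (er hv hr tg br_rr er_ge S2 ipj Ph Psi Zt ipj_lt Zt_Psi lin brM)
open Cfsg.Agent.H201.L34 (gw)

/-- the weights of the `y i` -/
def W3 : Fin 4 → ℕ := ![0x1402805054158001580015a8001a8001a82a0a0155601405005005a8a8001515a00a00a02806aa805054158001580015a8001a8001a82a0a0140280,
  0x14000285505414106041060060820608282a0aa585141405005005014162468280a00a00a02828a1a5505414106041060060820608282a0aa1400028,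
  0x155555600040101045010450451504515154555a20808020020020080822441010040040040101045aaa2a8a8a20a8a20a2080a20808020006aaaaa8,
  0x95555545551545451054510510405104040100051040401001001004041188202008008008020208a0008020208a0208a08a2a08a2a2a8aaa2aaaaa9]

/-- the weight of a root -/
def w3 (i : Fin 4) (r : ℕ) : ℕ := Nat.shiftRight (W3 i) (2 * r) % 4

/-- the words of the four-group -/
def lP : Fin 4 → List ℕ := ![[47, 183, 70, 165], [52, 180, 68, 167], [99, 146, 112, 124], []]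

/-- the word of the three-cycle -/
def lR : List ℕ := [112, 124, 70, 165]

/-- the word of the transposition -/
def lS : List ℕ := [112, 124]

/-- the permutations of the four-group -/
def pp : Fin 4 → Fin 4 → Fin 4 := ![![3, 2, 1, 0], ![2, 3, 0, 1], ![1, 0, 3, 2], ![0, 1, 2, 3]]

/-- the three-cycle -/
def rr : Fin 4 → Fin 4 := ![1, 2, 0, 3]

/-- the transposition -/
def ss : Fin 4 → Fin 4 := ![1, 0, 2, 3]

theorem all_lt {p : ℕ → Bool} (h : (List.range 240).all p = true) {r : ℕ} (hr : r < 240) : p r = true :=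
  List.all_eq_true.1 h r (List.mem_range.2 hr)

theorem w3_lt (i : Fin 4) {r : ℕ} (hr : r < 240) : w3 i r < 3 := by
  have h : ∀ i, ((List.range 240).all fun r => decide (w3 i r < 3)) = true := by decide +kernel
  exact of_decide_eq_true (all_lt (h i) hr)

theorem ok_lP : ∀ j, okW (lP j) = true := by decide +kernel

theorem ok_lR : okW lR = true := by decide +kernel

theorem ok_lS : okW lS = true := by decide +kernel

theorem w_lP (j i : Fin 4) : ∀ r < 240, w3 (pp j i) (pw (lP j) r) = w3 i r := fun r hr => by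
  have h : ∀ j i, ((List.range 240).all fun r => decide (w3 (pp j i) (pw (lP j) r) = w3 i r)) = true := by decide +kernel
  exact of_decide_eq_true (all_lt (h j i) hr)

theorem w_lR (i : Fin 4) : ∀ r < 240, w3 (rr i) (pw lR r) = w3 i r := fun r hr => by
  have h : ∀ i, ((List.range 240).all fun r => decide (w3 (rr i) (pw lR r) = w3 i r)) = true := by decide +kernel
  exact of_decide_eq_true (all_lt (h i) hr)

theorem w_lS (i : Fin 4) : ∀ r < 240, w3 (ss i) (pw lS r) = w3 i r := fun r hr => by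
  have h : ∀ i, ((List.range 240).all fun r => decide (w3 (ss i) (pw lS r) = w3 i r)) = true := by decide +kernel
  exact of_decide_eq_true (all_lt (h i) hr)

theorem b_lP : ∀ j k, pw (lP j) (ipj k) = ipj (pp j k) := by decide +kernel

theorem b_lR : ∀ k, pw lR (ipj k) = ipj (rr k) := by decide +kernel

theorem pp_three : ∀ k, pp k 3 = k := by decide

/-- the relations -/
structure Raw (ζ : KK) (Y P : Fin 4 → GK) (R S G : GK) : Prop where
  prim : IsPrimitiveRoot ζ 3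
  dg : ∀ i, Dg (Y i) ζ (w3 i)
  cen : CEN Y
  pY : ∀ j i, P j * Y i = Y (pp j i) * P j
  rY : ∀ i, R * Y i = Y (rr i) * R
  sY : ∀ i, S * Y i = Y (ss i) * S
  p3 : P 3 = 1
  pP : ∀ j k, P j * P k = P (pp j k)
  rP : ∀ j, R * P j = P (rr j) * R
  srs : R * S * R = S
  g1 : G * (Y 0 * Y 1 * Y 2) = Y 0 * Y 1 * Y 2 * G
  g2 : G * Y 3 = Y 3 * G
  g3 : R * G = G * (Y 1 * (Y 2 * Y 2))

/-- the monomial form -/
structure Nice (ζ : KK) (Y P : Fin 4 → GK) (R : GK) (sP : Fin 4 → GK) (sR : GK) : Prop where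
  prim : IsPrimitiveRoot ζ 3
  dg : ∀ i, Dg (Y i) ζ (w3 i)
  mP : ∀ j, Mn (P j) (lP j) (sP j)
  mR : Mn R lR sR
  c1 : chi sR 239 = 1
  c2 : chi sR 212 = 1

theorem Dg.mul {t t' : GK} {ζ : KK} {w w' : ℕ → ℕ} (hζ : IsPrimitiveRoot ζ 3) (h : Dg t ζ w) (h' : Dg t' ζ w') :
    Dg (t * t') ζ fun r => (w r + w' r) % 3 :=
  ⟨mul_mem h.mem h'.mem, fun r hr => by
    rw [Cfsg.Agent.H129.TorusChar.cX_mul _ h.mem h'.mem, h.val r hr, h'.val r hr, ← pow_add]
    conv_lhs => rw [← Nat.mod_add_div (w r + w' r) 3, pow_add, pow_mul, hζ.pow_eq_one, one_pow, mul_one]⟩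

section

variable {ζ : KK} {Y P : Fin 4 → GK} {R S G : GK}

/-- the weights of `y₀ y₁ y₂` -/
def wz (r : ℕ) : ℕ := ((w3 0 r + w3 1 r) % 3 + w3 2 r) % 3

/-- the weights of `y₁ y₂²` -/
def wt (r : ℕ) : ℕ := (w3 1 r + (w3 2 r + w3 2 r) % 3) % 3

theorem tabM1 : ((List.range 240).all fun s => decide (wz s = 0 → w3 3 s ≠ 0 →
    s ≠ 104 ∧ s ≠ 135 ∧ tf 135 s = 240 ∧ tf 104 s = 240)) = true := by decide +kernel

theorem tabM2 : ((List.range 240).all fun r => decide (wz r ≠ 0) || decide (w3 3 r ≠ 0) || decide (wt r = 0) ||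
    [9, 10, 11, 12, 26, 27, 28, 36, 37, 38].any fun s =>
      decide (s < 240 ∧ wz s = 0 ∧ w3 3 s ≠ 0 ∧ tf s r < 240 ∧ tf s r ≠ s ∧ pr s (tf s r) = r)) = true := by
  decide +kernel

/-- **the three-cycle centralises the fourth `SL₂`** -/
theorem Raw.fix_b (h : Raw ζ Y P R S G) {x : ℕ} (hx : x = 135 ∨ x = 104) : aK R (er x) = er x := by
  have dz : Dg (Y 0 * Y 1 * Y 2) ζ wz := ((h.dg 0).mul h.prim (h.dg 1)).mul h.prim (h.dg 2)
  have dt : Dg (Y 1 * (Y 2 * Y 2)) ζ wt := (h.dg 1).mul h.prim ((h.dg 2).mul h.prim (h.dg 2))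
  have hz : ∀ r, wz r < 3 := fun r => Nat.mod_lt _ (by norm_num)
  have hx' : x < 240 := by omega
  have k1 : ∀ s < 240, wz s = 0 → w3 3 s ≠ 0 → brK (er x) (aK G (er s)) = 0 := by
    intro s hs h1 h2
    have e1 : aK (Y 0 * Y 1 * Y 2) (aK G (er s)) = aK G (er s) := by
      rw [← aK_mul, ← h.g1, aK_mul, dz.er hs, h1, pow_zero, one_smul]
    have e2 : aK (Y 3) (aK G (er s)) = ζ ^ w3 3 s • aK G (er s) := by
      rw [← aK_mul, ← h.g2, aK_mul, (h.dg 3).er hs, aK_smul]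
    have e3 : aK G (er s) ∈ Sp fun r => wz r = 0 ∧ w3 3 r ≠ 0 := by
      refine ⟨(h.dg 3).eig_T0 h.prim (w3_lt 3 hs) h2 e2, fun r hr h3 => ?_⟩
      by_cases e : wz r = 0
      · exact (h.dg 3).eig h.prim (w3_lt 3 hs) e2 hr (w3_lt 3 hr) fun e' => h3 ⟨e, by rw [e']; exact h2⟩
      · exact dz.fix h.prim e1 hr (hz r) e
    refine Sp_le (W := LinearMap.ker (brM (er x))) (fun r hr h3 => ?_) e3
    obtain ⟨a1, a2, a3, a4⟩ := of_decide_eq_true (all_lt tabM1 hr) h3.1 h3.2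
    show brK (er x) (er r) = 0
    rcases hx with rfl | rfl
    · exact br_tf0 hx' hr a1 a3
    · exact br_tf0 hx' hr a2 a4
  obtain ⟨u, hu⟩ : ∃ u, u = aK G⁻¹ (er x) := ⟨_, rfl⟩
  have hu' : aK G u = er x := by rw [hu, aK_inv]
  have inj : ∀ a b : LK, aK G a = aK G b → a = b := fun a b e => by rw [← aK_inv' G a, e, aK_inv']
  have w0 : wz x = 0 ∧ w3 3 x = 0 := by rcases hx with rfl | rfl <;> decide +kernel
  have u1 : aK (Y 0 * Y 1 * Y 2) u = u := inj _ _ (by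
    rw [← aK_mul, h.g1, aK_mul, hu', dz.er hx', w0.1, pow_zero, one_smul])
  have u2 : aK (Y 3) u = u := inj _ _ (by rw [← aK_mul, h.g2, aK_mul, hu', (h.dg 3).er hx', w0.2, pow_zero, one_smul])
  have u3 : aK (Y 1 * (Y 2 * Y 2)) u = u := by
    refine dt.of_St fun r hr e => ?_
    by_cases e1 : wz r = 0
    · by_cases e2 : w3 3 r = 0
      · have h0 := all_lt tabM2 hr
        rw [decide_eq_false (not_not.2 e1), decide_eq_false (not_not.2 e2), decide_eq_false e, Bool.false_or, Bool.false_or,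
          Bool.false_or, List.any_eq_true] at h0
        obtain ⟨s, -, h0⟩ := h0
        obtain ⟨hs', a1, a2, a3, a4, a5⟩ := of_decide_eq_true h0
        have h1 : brK (er s) u = 0 := inj _ _ (by
          rw [aK_brK, hu', Cfsg.Agent.H413.L16.br_comm, k1 s hs' a1 a2, aK_zero])
        rw [← a5, ← co_br_er hs' a3 a4, h1, co_zero]
      · exact (h.dg 3).fix h.prim u2 hr (w3_lt 3 hr) e2
    · exact dz.fix h.prim u1 hr (hz r) e1
  rw [← hu', ← aK_mul, h.g3, aK_mul, u3]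

theorem Raw.zt (h : Raw ζ Y P R S G) (i : Fin 4) : Y i ∈ Zt :=
  (h.dg i).zt (by revert i; decide +kernel)

theorem cj1 {c a y y' : GK} (hy : c * y = y * c) (hy' : c * y' = y' * c) (h : a * y = y' * a) :
    c⁻¹ * a * c * y = y' * (c⁻¹ * a * c) := by
  have h1 : c⁻¹ * y' = y' * c⁻¹ := by rw [inv_mul_eq_iff_eq_mul, ← mul_assoc, hy', mul_inv_cancel_right]
  rw [mul_assoc, hy, ← mul_assoc, mul_assoc c⁻¹, h, ← mul_assoc, h1]
  simp only [mul_assoc]

theorem cj2 (c a b : GK) : c⁻¹ * a * c * (c⁻¹ * b * c) = c⁻¹ * (a * b) * c := by group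

theorem Raw.conj (h : Raw ζ Y P R S G) {c : GK} (hc : ∀ i, c * Y i = Y i * c) :
    Raw ζ Y (fun j => c⁻¹ * P j * c) (c⁻¹ * R * c) (c⁻¹ * S * c) (c⁻¹ * G * c) := by
  have h1 : c * (Y 0 * Y 1 * Y 2) = Y 0 * Y 1 * Y 2 * c :=
    ((show Commute c (Y 0) from hc 0).mul_right (hc 1)).mul_right (hc 2)
  have h2 : c * (Y 1 * (Y 2 * Y 2)) = Y 1 * (Y 2 * Y 2) * c :=
    (show Commute c (Y 1) from hc 1).mul_right ((show Commute c (Y 2) from hc 2).mul_right (hc 2))
  refine ⟨h.prim, h.dg, h.cen, fun j i => cj1 (hc _) (hc _) (h.pY j i), fun i => cj1 (hc _) (hc _) (h.rY i),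
    fun i => cj1 (hc _) (hc _) (h.sY i), ?_, fun j k => ?_, fun j => ?_, ?_, cj1 h1 h1 h.g1, cj1 (hc _) (hc _) h.g2, ?_⟩
  · show c⁻¹ * P 3 * c = 1
    rw [h.p3, mul_one, inv_mul_cancel]
  · show c⁻¹ * P j * c * (c⁻¹ * P k * c) = c⁻¹ * P (pp j k) * c
    rw [cj2, h.pP]
  · show c⁻¹ * R * c * (c⁻¹ * P j * c) = c⁻¹ * P (rr j) * c * (c⁻¹ * R * c)
    rw [cj2, cj2, h.rP]
  · rw [cj2, cj2, h.srs]
  · rw [cj2, h.g3, mul_assoc (c⁻¹ * G), h2]
    simp only [mul_assoc]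

theorem Raw.nfP (h : Raw ζ Y P R S G) (j : Fin 4) : ∃ B : Fin 4 → S2, ∃ s ∈ Zt, P j = gw (lP j) * Psi B * s :=
  h.cen.nf (Y' := fun i => Y (pp j i)) (h.pY j) fun i => gw_conj (ok_lP j) (h.dg i) (h.dg _) (w_lP j i)

theorem pw_b {l : List ℕ} (hl : okW l = true) {k m : Fin 4} (h : pw l (ipj k) = ipj m) : pw l (239 - ipj k) = 239 - ipj m := by
  rw [pw_neg hl (ipj_lt k), h]

theorem Raw.nice' (h : Raw ζ Y P R S G) (hb : ∀ k, aK (P k) (er 135) = er (ipj k) ∧ aK (P k) (er 104) = er (239 - ipj k)) :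
    ∃ sP sR, Nice ζ Y P R sP sR := by
  have h1 : ∀ j, ∃ s, Mn (P j) (lP j) s := fun j => by
    obtain ⟨B, s, hs, e⟩ := h.nfP j
    refine ⟨s, mn_of (ok_lP j) hs e fun k => ⟨?_, ?_⟩⟩
    · rw [← (hb k).1, ← aK_mul, h.pP, (hb _).1, b_lP]
    · rw [← (hb k).2, ← aK_mul, h.pP, (hb _).2, pw_b (ok_lP j) (b_lP j k)]
  choose sP hP using h1
  obtain ⟨B, s, hs, e⟩ := h.cen.nf (Y' := fun i => Y (rr i)) h.rY fun i => gw_conj ok_lR (h.dg i) (h.dg _) (w_lR i)
  have h2 : Mn R lR s := mn_of ok_lR hs e fun k => ⟨by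
    rw [← (hb k).1, ← aK_mul, h.rP, aK_mul, h.fix_b (Or.inl rfl), (hb _).1, b_lR], by
    rw [← (hb k).2, ← aK_mul, h.rP, aK_mul, h.fix_b (Or.inr rfl), (hb _).2, pw_b ok_lR (b_lR k)]⟩
  obtain ⟨B', s', hs', e'⟩ := h.cen.nf (Y' := fun i => Y (ss i)) h.sY fun i => gw_conj ok_lS (h.dg i) (h.dg _) (w_lS i)
  have h3 := nf_a ok_lS hs' e' (a := 239) (by unfold ob; decide +kernel)
  have h4 := h2.er (r := 239) (by norm_num)
  rw [show pw lS 239 = 239 by decide +kernel] at h3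
  rw [show pw lR 239 = 239 by decide +kernel] at h4
  have h5 := congrArg (fun g => co 239 (aK g (er 239))) h.srs
  simp only [aK_mul, h3, h4, aK_smul, co_smul, co_er_self (show 239 < 240 by norm_num), mul_one] at h5
  have sq : ∀ a : KK, a * a = 1 → a = 1 := fun a ha => by
    have h6 : (a - 1) ^ 2 = 0 := by linear_combination ha + (1 - a) * two_zero
    exact sub_eq_zero.1 ((pow_eq_zero_iff two_ne_zero).1 h6)
  have h6 : chi s 239 = 1 := sq _ (mul_left_cancel₀ (chi_ne hs' 239) (by linear_combination h5))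
  refine ⟨sP, s, h.prim, h.dg, hP, h2, h6, sq _ ?_⟩
  rw [chi_ky2 hs (c := 239) (by unfold ky2; decide +kernel), h6]

/-- **the monomial form** -/
theorem Raw.nice (h : Raw ζ Y P R S G) : ∃ c : GK, (∀ i, c * Y i = Y i * c) ∧
    ∃ sP sR, Nice ζ Y (fun j => c⁻¹ * P j * c) (c⁻¹ * R * c) sP sR := by
  choose B s hs e using h.nfP
  obtain ⟨C, hC⟩ : ∃ C : Fin 4 → S2, C = fun k => if k = 3 then 1 else B k 3 := ⟨_, rfl⟩
  have hc : ∀ i, Psi C * Y i = Y i * Psi C := fun i => (Zt_Psi (h.zt i) C).symm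
  refine ⟨Psi C, hc, (h.conj hc).nice' fun k => ?_⟩
  have h3 : C 3 = 1 := by rw [hC]; exact if_pos rfl
  have h5 : pp k 3 = k := pp_three k
  have key : ∀ a b, (a = ipj 3 ∨ a = 239 - ipj 3) → (b = ipj k ∨ b = 239 - ipj k) → pw (lP k) a = b →
      aK ((Psi C)⁻¹ * P k * Psi C) (er a) = er b := by
    intro a b ha hb hab
    have h6 : aK (Psi C) (er a) = er a := by rw [Psi_b C 3 ha, h3, map_one, aK_one]
    rw [aK_mul, aK_mul, h6]
    by_cases hk : k = 3
    · have e1 : a = b := by rw [← hab, hk]; rfl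
      have h7 := aK_inv' (Psi C) (er a)
      rw [h6] at h7
      rw [hk, h.p3, aK_one, h7, e1]
    · have h4 : C k = B k 3 := by rw [hC]; exact if_neg hk
      rw [nf_b (ok_lP k) (hs k) (e k) (m := k) (by rw [b_lP, h5]) ha, hab, ← h4, ← Psi_b C k hb, aK_inv']
  have k1 := key (ipj 3) (ipj k) (Or.inl rfl) (Or.inl rfl) (by rw [b_lP, h5])
  have k2 := key (239 - ipj 3) (239 - ipj k) (Or.inr rfl) (Or.inr rfl) (by rw [pw_b (ok_lP k) (b_lP k 3), h5])
  rw [show 239 - ipj 3 = 104 from rfl] at k2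
  rw [show ipj 3 = 135 from rfl] at k1
  exact ⟨k1, k2⟩

end

end Cfsg.Agent.E82.Soc
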