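import Cfsg.Agent.E82.Soc.S8a

/-!
# S3369, `Sp₈(2)`: the simple submodules in the frame of `3⁴ : A₄` (helper92)

* `Nice.n26` : no submodule of dimension 26; `Nice.n8` : an abelian submodule of dimension 8 is in a nilradical;
* `L1`, `L0` : the eigenspaces of `z = ∑ h_{b j}`; `Nice.t1`, `Nice.t2`, `Nice.n48` : submodules of dimension 48.
-/

set_option autoImplicit false
set_option maxRecDepth 100000
set_option maxHeartbeats 400000

namespace Cfsg.Agent.E82.Soc

open Cfsg Cfsg.Lie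
open Cfsg.Agent.ChevalleyStructure.Columns (cor)
open Cfsg.Agent.KFacts.RgdChevCoord (TT)
open Cfsg.Agent.H939.L64 (KK LK aK brK)
open Cfsg.Agent.H876.L64 (aK_mul aK_one aK_add aK_smul aK_zero aK_brK aK_inv aK_inv' two_zero)
open Cfsg.Agent.H413.L16 (er hv hr ipj Zt ipj_lt six jac br_comm cast_odd cast_even add_self')
open Cfsg.Agent.H201.L34 (gw bf bf_add_r bf_zero_r br_add_l br_add_r br_smul_l br_smul_r br_zero_l br_zero_r)
open Cfsg.Agent.E8A (InN)

/-- no fixed component -/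
def Ng (t : GK) (v : LK) : Prop := v + aK t v + aK t (aK t v) = 0

/-- the check of a list of coefficients -/
def cob (l : List ℕ) (a : ℕ) (p : ℕ × ℕ) : Bool := Nat.blt p.1 240 && Nat.beq (pw l p.1) p.2 &&
  decide (Cfsg.Agent.Nodes.RGDChev.vec chevE8 8 p.1 0 = Cfsg.Agent.Nodes.RGDChev.vec chevE8 8 a 0 ∧
    Cfsg.Agent.Nodes.RGDChev.vec chevE8 8 p.1 3 = Cfsg.Agent.Nodes.RGDChev.vec chevE8 8 a 3 ∧
    Cfsg.Agent.Nodes.RGDChev.vec chevE8 8 p.1 5 = Cfsg.Agent.Nodes.RGDChev.vec chevE8 8 a 5 ∧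
    Cfsg.Agent.Nodes.RGDChev.vec chevE8 8 p.1 7 = Cfsg.Agent.Nodes.RGDChev.vec chevE8 8 a 7)

theorem Mn.cos {g s : GK} {l : List ℕ} (h : Mn g l s) {a : ℕ} {L : List (ℕ × ℕ)} (e : L.all (cob l a) = true) (v : LK) :
    ∀ p ∈ L, Soc.co p.2 (aK g v) = chi s a * Soc.co p.1 v := by
  intro p hp
  have h1 := List.all_eq_true.1 e p hp
  rw [cob, Bool.and_eq_true, Bool.and_eq_true, Nat.blt_eq, Nat.beq_eq, decide_eq_true_eq] at h1
  rw [← h1.1.2, h.co h1.1.1, chi_ky h.2.1 h1.2]

theorem chi_b {s : GK} (hs : s ∈ Zt) (k : Fin 4) : chi s (ipj k) = 1 := by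
  rw [chi, Cfsg.Agent.H413.L16.vec_ipj]
  exact hs.2 k

theorem chi_nb {s : GK} (hs : s ∈ Zt) (k : Fin 4) : chi s (239 - ipj k) = 1 := by
  have h := chi_neg hs (ipj_lt k)
  rwa [chi_b hs, one_mul] at h

theorem Ng.co {g : GK} {v : LK} (h : Ng g v) {r : ℕ} (e : ∀ u, Soc.co r (aK g u) = Soc.co r u) : Soc.co r v = 0 := by
  have h1 := congrArg (Soc.co r) h
  rwa [co_add, co_add, e (aK g v), e v, three_K, co_zero] at h1

theorem Ng.conj {g t t' : GK} {v : LK} (h : Ng t v) (e : g * t = t' * g) : Ng t' (aK g v) := by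
  have h1 : ∀ u, aK t' (aK g u) = aK g (aK t u) := fun u => by rw [← aK_mul, ← e, aK_mul]
  unfold Ng
  rw [h1, h1, ← aK_add, ← aK_add, h, aK_zero]

theorem fix_conj {g t t' : GK} {v : LK} (h : aK t v = v) (e : g * t = t' * g) : aK t' (aK g v) = aK g v := by
  rw [← aK_mul, ← e, aK_mul, h]

/-- the root vectors fixed by the `y i` -/
def LB : List ℕ := [121, 118, 126, 113, 141, 98, 135, 104]

/-- the weights `(0, 0, 0, ± 1)` -/
def L3 : List ℕ := [212, 202, 209, 199, 211, 201, 208, 198, 41, 31, 38, 28, 40, 30, 37, 27, 239, 0]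

/-- an even number of non-zero weights -/
def evb (f : Fin 4 → Bool) : Bool := !(f 0 ^^ f 1 ^^ f 2 ^^ f 3)

/-- the same for a root -/
def ev (r : ℕ) : Prop := evb (fun i => decide (w3 i r ≠ 0)) = true

/-- the element `z` -/
noncomputable def zz : LK := hr 121 + hr 126 + hr 141 + hr 135

/-- the parity -/
def od (r : ℕ) : Bool := Nat.testBit 0x787b087b4ed0b72de10f487bcf3e25a47cf3de12f087b4ed0b72de10de1e r

theorem co_zz {r : ℕ} (h : r < 240) (v : LK) : co r (brK zz v) = if od r = true then co r v else 0 := by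
  have h1 : ((List.range 240).all fun r => decide ((pa 121 r + pa 126 r + pa 141 r + pa 135 r) % 2 =
    if od r = true then 1 else 0)) = true := by decide +kernel
  have h2 := of_decide_eq_true (all_lt h1 h)
  rw [zz, br_add_l, br_add_l, br_add_l, co_add, co_add, co_add, co_br_hr, co_br_hr, co_br_hr, co_br_hr, ← add_mul, ← add_mul,
    ← add_mul, ← Int.cast_add, ← Int.cast_add, ← Int.cast_add]
  split_ifs at h2 ⊢
  · rw [cast_odd (by omega), one_mul]
  · rw [cast_even h2, zero_mul]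

theorem T0_zz (v : LK) : T0 (brK zz v) := fun i => by
  rw [zz, br_add_l, br_add_l, br_add_l, Pi.add_apply, Pi.add_apply, Pi.add_apply, T0_br_hr, T0_br_hr, T0_br_hr, T0_br_hr,
    add_zero, add_zero, add_zero]

/-- an eigenspace of a toral element -/
def Eg (z : LK) (c : KK) : Submodule KK LK where
  carrier := {v | brK z v = c • v}
  add_mem' := fun {a b} ha hb => by
    show brK z (a + b) = c • (a + b)
    rw [br_add_r, show brK z a = c • a from ha, show brK z b = c • b from hb, smul_add]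
  zero_mem' := by
    show brK z 0 = c • 0
    rw [br_zero_r, smul_zero]
  smul_mem' := fun d a ha => by
    show brK z (d • a) = c • d • a
    rw [br_smul_r, show brK z a = c • a from ha, smul_comm]

theorem Eg_br {z : LK} {c d : KK} {x y : LK} (hx : x ∈ Eg z c) (hy : y ∈ Eg z d) : brK x y ∈ Eg z (c + d) := by
  show brK z (brK x y) = (c + d) • brK x y
  rw [jac, show brK z x = c • x from hx, show brK z y = d • y from hy, br_smul_l, br_smul_r, add_smul]

theorem Eg_br11 {z : LK} {x y : LK} (hx : x ∈ Eg z 1) (hy : y ∈ Eg z 1) : brK x y ∈ Eg z 0 := by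
  have h := Eg_br hx hy
  rwa [two_mul_K] at h

theorem Eg_zero {z x : LK} (h1 : x ∈ Eg z 1) (h0 : x ∈ Eg z 0) : x = 0 := by
  have e1 : brK z x = (1 : KK) • x := h1
  have e0 : brK z x = (0 : KK) • x := h0
  rw [e0, zero_smul, one_smul] at e1
  exact e1.symm

theorem Eg_aK {z : LK} {c : KK} {g : GK} (hg : aK g z = z) {x : LK} (hx : x ∈ Eg z c) : aK g x ∈ Eg z c := by
  show brK z (aK g x) = c • aK g x
  conv_lhs => rw [← hg]
  rw [← aK_brK, show brK z x = c • x from hx, aK_smul]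

theorem L1_of {v : LK} (hv : v ∈ Sp (od · = true)) : v ∈ Eg zz 1 := by
  show brK zz v = (1 : KK) • v
  rw [one_smul]
  refine ext_co (fun i => by rw [T0_zz, hv.1 i]) fun r h => ?_
  rw [co_zz h]
  split_ifs with e
  · rfl
  · exact (hv.2 r h e).symm

/-- common parameter -/
theorem exists_t {X Z : Fin 4 → KK} (h : ∀ i j, X i * Z j + Z i * X j = 0) : (∀ i, X i = 0) ∨ ∃ t, ∀ i, Z i = t ^ 2 * X i := by
  by_cases e : ∀ i, X i = 0
  · exact Or.inl e
  · push Not at e
    obtain ⟨j, hj⟩ := e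
    obtain ⟨t, ht⟩ := IsAlgClosed.exists_pow_nat_eq (Z j / X j) (n := 2) (by norm_num)
    refine Or.inr ⟨t, fun i => ?_⟩
    rw [ht]
    field_simp
    linear_combination h i j - X i * Z j * two_zero

section

variable {ζ : KK} {Y P sP : Fin 4 → GK} {R sR : GK}

theorem Nice.supB (h : Nice ζ Y P R sP sR) {w : LK} (hz : ∀ i, aK (Y i) w = w) : w ∈ St (· ∈ LB) := by
  have h1 : ((List.range 240).all fun r => decide (r ∉ LB → ∃ i, w3 i r ≠ 0)) = true := by decide +kernel
  intro r hr e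
  obtain ⟨i, hi⟩ := of_decide_eq_true (all_lt h1 hr) e
  exact (h.dg i).fix h.prim (hz i) hr (w3_lt i hr) hi

/-- **no submodule of dimension 26** -/
theorem Nice.n26 (h : Nice ζ Y P R sP sR) {w : LK} (hz : ∀ i, aK (Y i) w = w) (hp : ∀ j, aK (P j) w = w) (hn : Ng R w) :
    w = 0 := by
  have h1 : co 135 w = 0 := hn.co fun u => by
    have h2 := h.mR.co (r := 135) (by norm_num) u
    rwa [show pw lR 135 = 135 by decide +kernel, show chi sR 135 = 1 from chi_b h.mR.2.1 3, one_mul] at h2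
  have h2 : co 104 w = 0 := hn.co fun u => by
    have h2 := h.mR.co (r := 104) (by norm_num) u
    rwa [show pw lR 104 = 104 by decide +kernel, show chi sR 104 = 1 from chi_nb h.mR.2.1 3, one_mul] at h2
  have h3 : ∀ a ∈ [239, 135, 212], bf (hr a) w = 0 := by
    intro a ha
    have e : ∀ a ∈ [239, 135, 212], a < 240 ∧ pw lR a = a := by decide +kernel
    have h4 : ∀ u, bf (hr a) (aK R u) = bf (hr a) u := fun u => by
      conv_lhs => rw [← (e a ha).2, ← h.mR.hr (e a ha).1, bf_aK]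
    have h5 := congrArg (bf (hr a)) hn
    rwa [bf_add_r, bf_add_r, h4 (aK R w), h4 w, three_K, bf_zero_r] at h5
  have h4 : ∀ x ∈ [152, 159, 226, 239, 121, 126, 141, 135, 148, 150, 189, 212], bf (hr x) w = 0 := by
    intro x hx
    have e : ∀ x ∈ [152, 159, 226, 239, 121, 126, 141, 135, 148, 150, 189, 212], ∃ j, ∃ a ∈ [239, 135, 212],
      a < 240 ∧ x = pw (lP j) a := by decide +kernel
    obtain ⟨j, a, ha, h5, rfl⟩ := e x hx
    rw [← (h.mP j).hr h5, ← hp j, bf_aK, h3 a ha]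
  refine eq_zero_of_hr (fun k => ?_) fun r hr => ?_
  · have e : ∀ k : Fin 8, ∃ l ∈ [[152, 159, 239, 148, 150, 189], [152, 159, 239], [152, 159, 226], [152, 148], [152, 226, 239],
        [159, 226, 239, 148, 150], [159, 226, 239], [152, 159, 226, 150, 189, 212]],
        (∀ x ∈ l, x ∈ [152, 159, 226, 239, 121, 126, 141, 135, 148, 150, 189, 212]) ∧
          ∀ i : Fin 8, (cor chevE8 (six k) i - (l.map fun x => cor chevE8 x i).sum) % 2 = 0 := by decide +kernel
    obtain ⟨l, -, h5, h6⟩ := e k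
    rw [hr_sum _ l h6, bf_list, List.map_map]
    exact List.sum_eq_zero fun x hx => by
      obtain ⟨a, ha, rfl⟩ := List.mem_map.1 hx
      exact h4 a (h5 a ha)
  · by_cases e : r ∈ LB
    · have e1 : ∀ r ∈ LB, ∃ j, r = pw (lP j) 135 ∨ r = pw (lP j) 104 := by decide +kernel
      obtain ⟨j, rfl | rfl⟩ := e1 r e
      · rw [← hp j, (h.mP j).co (by norm_num), h1, mul_zero]
      · rw [← hp j, (h.mP j).co (by norm_num), h2, mul_zero]
    · exact h.supB hz r hr e

/-- the pattern of the weights -/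
theorem Nice.pat (h : Nice ζ Y P R sP sR) {v : LK} {f : Fin 4 → Bool} (h0 : ∀ i, f i = false → aK (Y i) v = v)
    (h1 : ∀ i, f i = true → Ng (Y i) v) : v ∈ St fun r => (fun i => decide (w3 i r ≠ 0)) = f := by
  intro r hr e
  obtain ⟨i, hi⟩ := Function.ne_iff.1 e
  cases e1 : f i with
  | false =>
    rw [e1] at hi
    exact (h.dg i).fix h.prim (h0 i e1) hr (w3_lt i hr) (of_decide_eq_true (by simpa using hi))
  | true =>
    rw [e1] at hi
    exact ((h.dg i).neg (h1 i e1)).2 r hr fun e2 => hi (decide_eq_true e2)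

theorem Nice.memA (h : Nice ζ Y P R sP sR) {v : LK} {f : Fin 4 → Bool} (hf : evb f = true)
    (h0 : ∀ i, f i = false → aK (Y i) v = v) (h1 : ∀ i, f i = true → Ng (Y i) v) : v ∈ St ev :=
  St_mono (fun r _ e => by unfold ev; rw [e]; exact hf) (h.pat h0 h1)

theorem Nice.zeroA (h : Nice ζ Y P R sP sR) {v : LK} {f : Fin 4 → Bool} (hf : evb f = false)
    (h0 : ∀ i, f i = false → aK (Y i) v = v) (h1 : ∀ i, f i = true → Ng (Y i) v) (hv : v ∈ St ev) : v = 0 := by
  have e : ∀ f : Fin 4 → Bool, evb f = false → ∃ i, f i = true := by decide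
  obtain ⟨i, hi⟩ := e f hf
  refine eq_zero_of ((h.dg i).neg (h1 i hi)).1 fun r hr => ?_
  by_cases e1 : ev r
  · refine h.pat h0 h1 r hr fun e2 => ?_
    unfold ev at e1
    rw [e2, hf] at e1
    exact Bool.noConfusion e1
  · exact hv r hr e1

/-- the first pattern -/
def f8 : Fin 4 → Bool := ![false, false, false, true]

/-- the second pattern -/
def f48 : Fin 4 → Bool := ![true, true, true, false]

/-- a vector with the given pattern -/
def Pt (Y : Fin 4 → GK) (f : Fin 4 → Bool) (v : LK) : Prop :=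
  (∀ i, f i = false → aK (Y i) v = v) ∧ ∀ i, f i = true → Ng (Y i) v

theorem Nice.sup3 (h : Nice ζ Y P R sP sR) {v : LK} (hv : Pt Y f8 v) : v ∈ Sp (· ∈ L3) := by
  have e : ((List.range 240).all fun r => decide ((fun i => decide (w3 i r ≠ 0)) = f8 → r ∈ L3)) = true := by decide +kernel
  exact ⟨((h.dg 3).neg (hv.2 3 rfl)).1, St_mono (fun r hr => of_decide_eq_true (all_lt e hr)) (h.pat hv.1 hv.2)⟩

theorem Nice.fixz (h : Nice ζ Y P R sP sR) (j : Fin 4) : aK (P j) zz = zz := by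
  have e : ∀ j, ([121, 126, 141, 135].map (pw (lP j))).Perm [121, 126, 141, 135] := by decide +kernel
  have h1 : zz = ([121, 126, 141, 135].map hr).sum := by simp only [zz, List.map_cons, List.map_nil, List.sum_cons,
    List.sum_nil, add_zero, add_assoc]
  conv_rhs => rw [h1, ← ((e j).map hr).sum_eq]
  rw [zz, aK_add, aK_add, aK_add, (h.mP j).hr (by norm_num), (h.mP j).hr (by norm_num), (h.mP j).hr (by norm_num),
    (h.mP j).hr (by norm_num)]
  simp only [List.map_cons, List.map_nil, List.sum_cons, List.sum_nil, add_zero, add_assoc]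

theorem Nice.t1 (h : Nice ζ Y P R sP sR) {v : LK} (hv : Pt Y f48 v) : v ∈ Eg zz 1 := by
  have e : ((List.range 240).all fun r => decide ((fun i => decide (w3 i r ≠ 0)) = f48 → od r = true)) = true := by
    decide +kernel
  exact L1_of ⟨((h.dg 0).neg (hv.2 0 rfl)).1, St_mono (fun r hr => of_decide_eq_true (all_lt e hr)) (h.pat hv.1 hv.2)⟩

theorem Nice.t2 (h : Nice ζ Y P R sP sR) {v : LK} (hv : Pt Y f8 v) (hn : Ng R v) : v ∈ Eg zz 1 := by
  have h1 : co 239 v = 0 := hn.co fun u => by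
    have h2 := h.mR.co (r := 239) (by norm_num) u
    rwa [show pw lR 239 = 239 by decide +kernel, h.c1, one_mul] at h2
  have h2 : co 0 v = 0 := hn.co fun u => by
    have h2 := h.mR.co (r := 0) (by norm_num) u
    have h3 := chi_neg h.mR.2.1 (r := 239) (by norm_num)
    rw [h.c1, one_mul] at h3
    rwa [show pw lR 0 = 0 by decide +kernel, show chi sR 0 = 1 from h3, one_mul] at h2
  have h3 := h.sup3 hv
  refine L1_of ⟨h3.1, fun r hr e => ?_⟩
  by_cases e1 : r ∈ L3
  · have e2 : ∀ r ∈ L3, od r = true ∨ r = 239 ∨ r = 0 := by decide +kernel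
    rcases e2 r e1 with e3 | rfl | rfl
    exacts [absurd e3 e, h1, h2]
  · exact h3.2 r hr e1

/-! ### dimension 8 -/

theorem Nice.fin8 (h : Nice ζ Y P R sP sR) {v : LK} {l w : List ℕ} (hw : okW w = true)
    (e : ∀ j, ∀ r ∈ l, 120 ≤ pw w (pw (lP j) r)) (hv : v ∈ Sp (· ∈ l)) (j : Fin 4) :
    InN (aK (gw w) (aK (P j) v)) ∧ InN (aK (gw w) (aK (P j) (aK (Y 3) v))) := by
  have key : ∀ u ∈ Sp (· ∈ l), InN (aK (gw w) (aK (P j) u)) := fun u hu =>
    inN_of ((mn_gw hw).sp (A := fun r => 120 ≤ pw w r) (fun r _ h1 => h1) ((h.mP j).sp (fun r _ h1 => e j r h1) hu))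
  exact ⟨key v hv, key _ (Sp_tor (h.dg 3).mem hv)⟩

theorem Sp_drop {l l' : List ℕ} {v : LK} (hv : v ∈ Sp (· ∈ l)) (h : ∀ r ∈ l, r ∈ l' ∨ co r v = 0) : v ∈ Sp (· ∈ l') :=
  ⟨hv.1, fun r hr e => by
    by_cases e1 : r ∈ l
    · exact (h r e1).resolve_left e
    · exact hv.2 r hr e1⟩

theorem Nice.kk (h : Nice ζ Y P R sP sR) {v : LK} {l : List ℕ} (e : (okL l && decide (prh l l 1 = [239, 0])) = true)
    (hv : v ∈ Sp (· ∈ l)) (hb : brK v (aK (Y 3) v) = 0) : co 239 v = 0 ∨ co 0 v = 0 := by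
  have h1 := bf_hr_br e hv (St_tor (h.dg 3).mem hv.2)
  rw [hb, bf_zero_r] at h1
  simp only [List.map_cons, List.map_nil, List.sum_cons, List.sum_nil, add_zero] at h1
  rw [(h.dg 3).co (by norm_num), (h.dg 3).co (by norm_num), show w3 3 (239 - 239) = 1 by decide +kernel,
    show w3 3 (239 - 0) = 2 by decide +kernel] at h1
  have h2 := h.prim.geom_sum_eq_zero (by norm_num)
  rw [Finset.sum_range_succ, Finset.sum_range_succ, Finset.sum_range_one] at h2
  refine mul_eq_zero.1 ?_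
  show co 239 v * co 0 v = 0
  have e1 : co (239 - 239) v = co 0 v := rfl
  have e2 : co (239 - 0) v = co 239 v := rfl
  rw [e1, e2] at h1
  linear_combination h1 + co 239 v * co 0 v * h2

theorem Nice.pos8 (h : Nice ζ Y P R sP sR) {v : LK} (hb : brK v (aK (Y 3) v) = 0)
    (hv : v ∈ Sp (· ∈ [212, 202, 209, 211, 41, 31, 38, 40, 239, 0]) ∨ v ∈ Sp (· ∈ [199, 201, 208, 198, 28, 30, 37, 27, 239, 0])) :
    ∃ g : GK, ∀ j, InN (aK g (aK (P j) v)) ∧ InN (aK g (aK (P j) (aK (Y 3) v))) := by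
  rcases hv with hv | hv
  · rcases h.kk (by decide +kernel) hv hb with e | e
    · exact ⟨_, h.fin8 (l := [212, 202, 209, 211, 41, 31, 38, 40, 0]) (w := [133, 136, 161, 175, 196, 237]) rfl
        (by decide +kernel) (Sp_drop hv (by simp [e]))⟩
    · exact ⟨_, h.fin8 (l := [212, 202, 209, 211, 41, 31, 38, 40, 239]) (w := [120, 121, 129, 138, 149, 155, 175, 231]) rfl
        (by decide +kernel) (Sp_drop hv (by simp [e]))⟩
  · rcases h.kk (by decide +kernel) hv hb with e | e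
    · exact ⟨_, h.fin8 (l := [199, 201, 208, 198, 28, 30, 37, 27, 0]) (w := [120, 122, 123, 132, 141, 168, 205, 223]) rfl
        (by decide +kernel) (Sp_drop hv (by simp [e]))⟩
    · exact ⟨_, h.fin8 (l := [199, 201, 208, 198, 28, 30, 37, 27, 239]) (w := [120, 125, 129, 135, 145, 158, 189, 234]) rfl
        (by decide +kernel) (Sp_drop hv (by simp [e]))⟩

/-- the negative roots `- b j` -/
def NB : List ℕ := [118, 113, 98, 104]

theorem NB_pw : NB.Pairwise fun a b => a < 240 ∧ b < 240 ∧ b ≠ 239 - a ∧ tf a b = 240 := by decide +kernel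

theorem Nice.commP (h : Nice ζ Y P R sP sR) (j : Fin 4) (t : KK) : P j * xl NB t = xl NB t * P j := by
  have e : ∀ j, NB.Perm (NB.map (pw (lP j))) := by decide +kernel
  have e1 : ∀ r ∈ NB, r < 240 ∧ ∃ k, r = 239 - ipj k := by decide
  refine comm_xl (σ := pw (lP j)) t (fun r hr => ?_) (e j) NB_pw
  obtain ⟨h1, k, h2⟩ := e1 r hr
  exact ⟨h1, (h.mP j).lt h1, (h.mP j).b k (Or.inr h2)⟩

theorem Nice.commY (h : Nice ζ Y P R sP sR) (i : Fin 4) (t : KK) : Y i * xl NB t = xl NB t * Y i := by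
  have e1 : ∀ i, ∀ r ∈ NB, r < 240 ∧ w3 i r = 0 := by decide +kernel
  refine comm_xl (σ := id) t (fun r hr => ⟨(e1 i r hr).1, (e1 i r hr).1, ?_⟩) (by rw [List.map_id]) NB_pw
  rw [(h.dg i).er (e1 i r hr).1, (e1 i r hr).2, pow_zero, one_smul, id]

/-- **an abelian submodule of dimension 8** -/
theorem Nice.n8 (h : Nice ζ Y P R sP sR) {v : LK} (hv : Pt Y f8 v) (hR : aK R v = v) (b1 : brK v (aK (P 2) v) = 0)
    (b2 : brK v (aK (Y 3) v) = 0) : ∃ g : GK, ∀ j, InN (aK g (aK (P j) v)) ∧ InN (aK g (aK (P j) (aK (Y 3) v))) := by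
  have s3 := h.sup3 hv
  have c3 : chi sR 41 = 1 := by
    have h1 := chi_ky2 h.mR.2.1 (a := 41) (b := 239) (c := 212) (by unfold ky2; decide +kernel)
    rwa [h.c1, h.c2, mul_one] at h1
  have r1 := h.mR.cos (a := 212) (L := [(202, 211), (211, 209), (208, 199), (199, 201)]) (by decide +kernel) v
  have r2 := h.mR.cos (a := 41) (L := [(31, 40), (40, 38), (37, 28), (28, 30)]) (by decide +kernel) v
  have p1 := (h.mP 2).cos (a := 212) (L := [(212, 189), (202, 179), (209, 188), (199, 178), (211, 186), (201, 176), (208, 185),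
    (198, 175)]) (by decide +kernel) v
  have p2 := (h.mP 2).cos (a := 41) (L := [(41, 64), (31, 54), (38, 63), (28, 53), (40, 61), (30, 51), (37, 60), (27, 50)])
    (by decide +kernel) v
  rw [hR, h.c2] at r1
  rw [hR, c3] at r2
  simp only [List.forall_mem_cons, List.not_mem_nil, false_imp_iff, implies_true, and_true, one_mul] at r1 r2 p1 p2
  obtain ⟨r11, r12, r13, r14⟩ := r1
  obtain ⟨r21, r22, r23, r24⟩ := r2
  obtain ⟨p11, p12, p13, p14, p15, p16, p17, p18⟩ := p1
  obtain ⟨p21, p22, p23, p24, p25, p26, p27, p28⟩ := p2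
  have s2 : aK (P 2) v ∈ St (· ∈ [189, 179, 188, 178, 186, 176, 185, 175, 64, 54, 63, 53, 61, 51, 60, 50, 226, 13]) :=
    ((h.mP 2).sp (fun r _ hr => (by revert r; decide +kernel : ∀ r ∈ L3, pw (lP 2) r ∈ _) r hr) s3).2
  have e1 := co_br (γ := 233) (ps := [(212, 175), (209, 178), (211, 176), (208, 179)]) (by decide +kernel) s3 s2
  have e2 := co_br (γ := 151) (ps := [(212, 60), (209, 63), (211, 61), (208, 64)]) (by decide +kernel) s3 s2
  have e3 := co_br (γ := 146) (ps := [(212, 50), (209, 53), (211, 51), (208, 54)]) (by decide +kernel) s3 s2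
  have e4 := co_br (γ := 140) (ps := [(202, 60), (199, 63), (201, 61), (198, 64)]) (by decide +kernel) s3 s2
  have e5 := co_br (γ := 134) (ps := [(202, 50), (199, 53), (201, 51), (198, 54)]) (by decide +kernel) s3 s2
  have e6 := co_br (γ := 7) (ps := [(41, 50), (38, 53), (40, 51), (37, 54)]) (by decide +kernel) s3 s2
  rw [b1, co_zero] at e1 e2 e3 e4 e5 e6
  simp only [List.map_cons, List.map_nil, List.sum_cons, List.sum_nil, add_zero, p11, p12, p13, p14, p15, p16, p17, p18, p21, p22,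
    p23, p24, p25, p26, p27, p28, r11, r12, r13, r14, r21, r22, r23, r24] at e1 e2 e3 e4 e5 e6
  have k1 := chi_ne (h.mP 2).2.1 212
  have k2 := chi_ne (h.mP 2).2.1 41
  have t2 := two_zero
  have q1 : co 212 v * co 198 v + co 208 v * co 202 v = 0 :=
    mul_left_cancel₀ k1 (by linear_combination -e1 - chi (sP 2) 212 * co 202 v * co 208 v * t2)
  have q2 : co 212 v * co 37 v + co 208 v * co 41 v = 0 :=
    mul_left_cancel₀ k2 (by linear_combination -e2 - chi (sP 2) 41 * co 202 v * co 31 v * t2)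
  have q3 : co 212 v * co 27 v + co 208 v * co 31 v = 0 :=
    mul_left_cancel₀ k2 (by linear_combination -e3 - chi (sP 2) 41 * co 202 v * co 37 v * t2)
  have q4 : co 202 v * co 37 v + co 198 v * co 41 v = 0 :=
    mul_left_cancel₀ k2 (by linear_combination -e4 - chi (sP 2) 41 * co 208 v * co 31 v * t2)
  have q5 : co 202 v * co 27 v + co 198 v * co 31 v = 0 :=
    mul_left_cancel₀ k2 (by linear_combination -e5 - chi (sP 2) 41 * co 208 v * co 37 v * t2)
  have q6 : co 41 v * co 27 v + co 37 v * co 31 v = 0 :=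
    mul_left_cancel₀ k2 (by linear_combination -e6 - chi (sP 2) 41 * co 31 v * co 37 v * t2)
  rcases exists_t (X := ![co 212 v, co 202 v, co 41 v, co 31 v]) (Z := ![co 208 v, co 198 v, co 37 v, co 27 v]) (fun i j => by
    fin_cases i <;> fin_cases j <;> simp only [Fin.zero_eta, Fin.mk_one, Fin.reduceFinMk, Matrix.cons_val] <;>
      first
        | assumption
        | exact (congrArg₂ _ rfl (mul_comm _ _)).trans (two_mul_K _)
        | (rw [add_comm, mul_comm, mul_comm (_ : KK) (co _ v)]; first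
            | linear_combination q1 | linear_combination q2 | linear_combination q3 | linear_combination q4
            | linear_combination q5 | linear_combination q6)) with e | ⟨t, e⟩
  · have a0 : co 212 v = 0 := e 0
    have a1 : co 202 v = 0 := e 1
    have a2 : co 41 v = 0 := e 2
    have a3 : co 31 v = 0 := e 3
    exact h.pos8 b2 (Or.inr (Sp_drop s3 (by simp [L3, r11, r12, r21, r22, a0, a1, a2, a3])))
  · have a0 : co 208 v = t ^ 2 * co 212 v := e 0
    have a1 : co 198 v = t ^ 2 * co 202 v := e 1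
    have a2 : co 37 v = t ^ 2 * co 41 v := e 2
    have a3 : co 27 v = t ^ 2 * co 31 v := e 3
    have hv' : Pt Y f8 (aK (xl NB t) v) :=
      ⟨fun i hi => fix_conj (hv.1 i hi) (h.commY i t).symm, fun i hi => (hv.2 i hi).conj (h.commY i t).symm⟩
    have cY : aK (Y 3) (aK (xl NB t) v) = aK (xl NB t) (aK (Y 3) v) := by rw [← aK_mul, h.commY, aK_mul]
    have d1 := co_xl (l := NB) (γ := 199) (ps := [(0, 199), (1, 209), (1, 202), (2, 212)]) (by decide +kernel) t s3.2
    have d2 := co_xl (l := NB) (γ := 201) (ps := [(0, 201), (1, 211), (1, 202), (2, 212)]) (by decide +kernel) t s3.2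
    have d3 := co_xl (l := NB) (γ := 208) (ps := [(0, 208), (1, 211), (1, 209), (2, 212)]) (by decide +kernel) t s3.2
    have d4 := co_xl (l := NB) (γ := 198) (ps := [(0, 198), (1, 208), (1, 201), (2, 211), (1, 199), (2, 209), (2, 202), (3, 212)])
      (by decide +kernel) t s3.2
    have d5 := co_xl (l := NB) (γ := 28) (ps := [(0, 28), (1, 38), (1, 31), (2, 41)]) (by decide +kernel) t s3.2
    have d6 := co_xl (l := NB) (γ := 30) (ps := [(0, 30), (1, 40), (1, 31), (2, 41)]) (by decide +kernel) t s3.2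
    have d7 := co_xl (l := NB) (γ := 37) (ps := [(0, 37), (1, 40), (1, 38), (2, 41)]) (by decide +kernel) t s3.2
    have d8 := co_xl (l := NB) (γ := 27) (ps := [(0, 27), (1, 37), (1, 30), (2, 40), (1, 28), (2, 38), (2, 31), (3, 41)])
      (by decide +kernel) t s3.2
    simp only [List.map_cons, List.map_nil, List.sum_cons, List.sum_nil, add_zero, r11, r12, r13, r14, r21, r22, r23, r24, a0, a1,
      a2, a3] at d1 d2 d3 d4 d5 d6 d7 d8
    have z1 : co 199 (aK (xl NB t) v) = 0 := by linear_combination d1 + (t ^ 2 * co 212 v + t * co 202 v) * t2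
    have z2 : co 201 (aK (xl NB t) v) = 0 := by linear_combination d2 + (t ^ 2 * co 212 v + t * co 202 v) * t2
    have z3 : co 208 (aK (xl NB t) v) = 0 := by linear_combination d3 + (t ^ 2 * co 212 v + t * co 202 v) * t2
    have z4 : co 198 (aK (xl NB t) v) = 0 := by linear_combination d4 + (2 * t ^ 3 * co 212 v + 2 * t ^ 2 * co 202 v) * t2
    have z5 : co 28 (aK (xl NB t) v) = 0 := by linear_combination d5 + (t ^ 2 * co 41 v + t * co 31 v) * t2
    have z6 : co 30 (aK (xl NB t) v) = 0 := by linear_combination d6 + (t ^ 2 * co 41 v + t * co 31 v) * t2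
    have z7 : co 37 (aK (xl NB t) v) = 0 := by linear_combination d7 + (t ^ 2 * co 41 v + t * co 31 v) * t2
    have z8 : co 27 (aK (xl NB t) v) = 0 := by linear_combination d8 + (2 * t ^ 3 * co 41 v + 2 * t ^ 2 * co 31 v) * t2
    obtain ⟨g, hg⟩ := h.pos8 (v := aK (xl NB t) v) (by rw [cY, ← aK_brK, b2, aK_zero])
      (Or.inl (Sp_drop (h.sup3 hv') (by simp [L3, z1, z2, z3, z4, z5, z6, z7, z8])))
    refine ⟨g * xl NB t, fun j => ?_⟩
    have cP : ∀ u, aK (g * xl NB t) (aK (P j) u) = aK g (aK (P j) (aK (xl NB t) u)) := fun u => by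
      rw [aK_mul, ← aK_mul (xl NB t), ← h.commP, aK_mul]
    rw [cP, cP, ← cY]
    exact hg j

/-! ### dimension 48 -/

/-- the check for a pair of roots -/
def ck2 (a b d e : ℕ) : Bool := (okL [a, b] && decide (135 < 240) && !([a, b].contains 135) &&
    decide (prs [a, b] [239 - a, 239 - b] 135 = [(a, 239 - b)])) &&
  (okL [a, b] && decide (104 < 240) && !([a, b].contains 104) && decide (prs [a, b] [239 - a, 239 - b] 104 = [(b, 239 - a)])) &&
  (okL [a, b] && decide (prh [a, b] [239 - a, 239 - b] d = [a])) && (okL [a, b] && decide (prh [a, b] [239 - a, 239 - b] e = [b]))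

theorem br_ne {a b d e : ℕ} (h : ck2 a b d e = true) {x y : LK} (hx : x ∈ Sp (· ∈ [a, b])) (hy : y ∈ Sp (· ∈ [239 - a, 239 - b]))
    (hb : brK x y = 0) : x = 0 ∨ y = 0 := by
  simp only [ck2, Bool.and_eq_true (_ && _) (_ && _)] at h
  obtain ⟨⟨⟨h1, h2⟩, h3⟩, h4⟩ := h
  have e1 := co_br h1 hx hy.2
  have e2 := co_br h2 hx hy.2
  have e3 := bf_hr_br h3 hx hy.2
  have e4 := bf_hr_br h4 hx hy.2
  rw [hb, co_zero] at e1 e2
  rw [hb, bf_zero_r] at e3 e4
  simp only [List.map_cons, List.map_nil, List.sum_cons, List.sum_nil, add_zero] at e1 e2 e3 e4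
  have key : ∀ {p q : ℕ} {u : LK}, u ∈ Sp (· ∈ [p, q]) → co p u = 0 → co q u = 0 → u = 0 := fun {p q u} hu k1 k2 =>
    eq_zero_of hu.1 fun r hr => (Sp_drop (l' := []) hu (by simp [k1, k2])).2 r hr List.not_mem_nil
  by_cases k1 : co a x = 0
  · by_cases k2 : co b x = 0
    · exact Or.inl (key hx k1 k2)
    · exact Or.inr (key hy ((mul_eq_zero.1 e2.symm).resolve_left k2) ((mul_eq_zero.1 e4.symm).resolve_left k2))
  · exact Or.inr (key hy ((mul_eq_zero.1 e3.symm).resolve_left k1) ((mul_eq_zero.1 e1.symm).resolve_left k1))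

/-- the projection to an eigenspace -/
noncomputable def prj (ζ : KK) (t : GK) (m : ℕ) (u : LK) : LK := u + ζ ^ (2 * m) • aK t u + ζ ^ m • aK t (aK t u)

theorem Dg.prj {t : GK} {w : ℕ → ℕ} (h : Dg t ζ w) (hζ : IsPrimitiveRoot ζ 3) {m r : ℕ} (hm : m < 3) (hr : r < 240) (hw : w r < 3)
    (u : LK) : Soc.co r (Soc.prj ζ t m u) = if w r = m then Soc.co r u else 0 := by
  have h2 := hζ.geom_sum_eq_zero (by norm_num)
  rw [Finset.sum_range_succ, Finset.sum_range_succ, Finset.sum_range_one] at h2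
  have h3 := hζ.pow_eq_one
  have t2 := two_zero
  rw [Soc.prj, co_add, co_add, co_smul, co_smul, h.co hr (aK t u), h.co hr u]
  generalize w r = n at hw
  generalize Soc.co r u = c
  interval_cases m <;> interval_cases n <;> simp only [if_true, if_false, OfNat.ofNat_ne_one, OfNat.one_ne_ofNat,
    OfNat.ofNat_ne_zero, OfNat.zero_ne_ofNat, one_ne_zero, zero_ne_one]
  · linear_combination c * t2
  · linear_combination c * h2
  · linear_combination c * h2 + c * ζ * h3
  · linear_combination c * h2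
  · linear_combination c * t2 + 2 * c * h3
  · linear_combination c * h2 + c * (ζ + ζ ^ 2) * h3
  · linear_combination c * h2 + c * ζ * h3
  · linear_combination c * h2 + c * (ζ + ζ ^ 2) * h3
  · linear_combination c * t2 + 2 * c * (ζ ^ 3 + 1) * h3

theorem T0_prj {t : GK} (ht : t ∈ TT chevE8 KK) (m : ℕ) {u : LK} (hu : T0 u) : T0 (prj ζ t m u) := fun i => by
  rw [prj, Pi.add_apply, Pi.add_apply, Pi.smul_apply, Pi.smul_apply, tp_tor ht, tp_tor ht, tp_tor ht, hu i, smul_zero, smul_zero,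
    add_zero, add_zero]

/-- **a submodule of dimension 48 is not abelian** -/
theorem Nice.n48 (h : Nice ζ Y P R sP sR) {T : GK} (hT : ∀ i, i ≠ 3 → T * Y i = Y i * Y i * T) (hT3 : T * Y 3 = Y 3 * T)
    {W : Submodule KK LK} (hY : ∀ i, ∀ x ∈ W, aK (Y i) x ∈ W) (hTW : ∀ x ∈ W, aK T x ∈ W) {v : LK} (hW : v ∈ W)
    (hv : Pt Y f48 v) (hb : ∀ x ∈ W, ∀ y ∈ W, brK x y = 0) : v = 0 := by
  by_contra h0
  have v0 := ((h.dg 0).neg (hv.2 0 rfl)).1
  obtain ⟨r, hr, h1⟩ := exists_co v0 h0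
  have h2 : (fun i => decide (w3 i r ≠ 0)) = f48 := by
    by_contra e
    exact h1 (h.pat hv.1 hv.2 r hr e)
  have tab : ((List.range 240).all fun r => decide ((fun i => decide (w3 i r ≠ 0)) ≠ f48) ||
      [(219, 214, 5, 6), (77, 76, 6, 5), (184, 174, 5, 6), (58, 48, 6, 5), (191, 181, 5, 6), (65, 55, 6, 5), (163, 162, 5, 6),
        (25, 20, 6, 5)].any fun q : ℕ × ℕ × ℕ × ℕ => ck2 q.1 q.2.1 q.2.2.1 q.2.2.2 && (List.range 240).all fun s =>
        decide ((w3 0 s = w3 0 r ∧ w3 1 s = w3 1 r ∧ w3 2 s = w3 2 r ∧ w3 3 s = 0 → s ∈ [q.1, q.2.1]) ∧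
          (w3 0 s = 3 - w3 0 r ∧ w3 1 s = 3 - w3 1 r ∧ w3 2 s = 3 - w3 2 r ∧ w3 3 s = 0 → s ∈ [239 - q.1, 239 - q.2.1]))) = true := by
    decide +kernel
  have h3 := all_lt tab hr
  rw [decide_eq_false (not_not.2 h2), Bool.false_or, List.any_eq_true] at h3
  obtain ⟨q, -, h3⟩ := h3
  rw [Bool.and_eq_true] at h3
  have nz : ∀ i, i ≠ 3 → w3 i r ≠ 0 := fun i hi => by
    have e := congrFun h2 i
    have e1 : f48 i = true := (by decide : ∀ i : Fin 4, i ≠ 3 → f48 i = true) i hi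
    rw [e1] at e
    exact of_decide_eq_true e
  have pW : ∀ i m, ∀ u ∈ W, prj ζ (Y i) m u ∈ W := fun i m u hu =>
    add_mem (add_mem hu (W.smul_mem _ (hY i u hu))) (W.smul_mem _ (hY i _ (hY i u hu)))
  obtain ⟨x, hx⟩ : ∃ x, x = prj ζ (Y 0) (w3 0 r) (prj ζ (Y 1) (w3 1 r) (prj ζ (Y 2) (w3 2 r) v)) := ⟨_, rfl⟩
  have xW : x ∈ W := by rw [hx]; exact pW _ _ _ (pW _ _ _ (pW _ _ _ hW))
  have x0 : T0 x := by rw [hx]; exact T0_prj (h.dg 0).mem _ (T0_prj (h.dg 1).mem _ (T0_prj (h.dg 2).mem _ v0))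
  have xc : ∀ s < 240, co s x = if w3 0 s = w3 0 r then if w3 1 s = w3 1 r then if w3 2 s = w3 2 r then co s v else 0 else 0
      else 0 := fun s hs => by
    rw [hx, (h.dg 0).prj h.prim (w3_lt 0 hr) hs (w3_lt 0 hs), (h.dg 1).prj h.prim (w3_lt 1 hr) hs (w3_lt 1 hs),
      (h.dg 2).prj h.prim (w3_lt 2 hr) hs (w3_lt 2 hs)]
  have xs : x ∈ Sp fun s => w3 0 s = w3 0 r ∧ w3 1 s = w3 1 r ∧ w3 2 s = w3 2 r ∧ w3 3 s = 0 := ⟨x0, fun s hs e => by
    rw [xc s hs]
    split_ifs with e0 e1 e2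
    · exact (h.dg 3).fix h.prim (hv.1 3 rfl) hs (w3_lt 3 hs) fun e3 => e ⟨e0, e1, e2, e3⟩
    all_goals rfl⟩
  have xne : x ≠ 0 := fun e => h1 (by
    have e1 := xc r hr
    rw [if_pos rfl, if_pos rfl, if_pos rfl, e, co_zero] at e1
    exact e1.symm)
  have ei : ∀ i, i ≠ 3 → aK (Y i) x = ζ ^ w3 i r • x → aK (Y i) (aK T x) = ζ ^ (3 - w3 i r) • aK T x := by
    intro i hi e
    have e1 : aK (Y i) (aK (Y i) (aK T x)) = ζ ^ w3 i r • aK T x := by
      rw [← aK_mul, ← aK_mul, ← hT i hi, aK_mul, e, aK_smul]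
    have e2 : aK (Y i) (aK (Y i) (aK (Y i) (aK (Y i) (aK T x)))) = (ζ ^ w3 i r * ζ ^ w3 i r) • aK T x := by
      rw [e1, aK_smul, aK_smul, e1, smul_smul]
    have e3 : ∀ u, aK (Y i) (aK (Y i) (aK (Y i) u)) = u := fun u =>
      ext_co (fun k => by rw [tp_tor (h.dg i).mem, tp_tor (h.dg i).mem, tp_tor (h.dg i).mem]) fun s hs => by
        rw [(h.dg i).co hs, (h.dg i).co hs, (h.dg i).co hs, ← mul_assoc, ← mul_assoc, ← pow_add, ← pow_add,
          show w3 i s + w3 i s + w3 i s = 3 * w3 i s by ring, pow_mul, h.prim.pow_eq_one, one_pow, one_mul]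
    rw [e3] at e2
    rw [e2]
    congr 1
    have e4 := nz i hi
    have e5 := w3_lt i hr
    have e6 := h.prim.pow_eq_one
    generalize w3 i r = n at e4 e5
    interval_cases n
    · exact absurd rfl e4
    · ring
    · linear_combination ζ * e6
  have y0 := ei 0 (by decide) ((h.dg 0).of_Sp (Sp_mono (fun s _ e => e.1) xs))
  have y1 := ei 1 (by decide) ((h.dg 1).of_Sp (Sp_mono (fun s _ e => e.2.1) xs))
  have y2 := ei 2 (by decide) ((h.dg 2).of_Sp (Sp_mono (fun s _ e => e.2.2.1) xs))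
  have y3 : aK (Y 3) (aK T x) = aK T x := fix_conj ((h.dg 3).of_St (St_mono (fun s _ e => e.2.2.2) xs.2)) hT3
  have l0 := nz 0 (by decide)
  have l1 := nz 1 (by decide)
  have l2 := nz 2 (by decide)
  have m0 := w3_lt 0 hr
  have ys : aK T x ∈ Sp (· ∈ [239 - q.1, 239 - q.2.1]) := by
    refine ⟨(h.dg 0).eig_T0 h.prim (by omega) (by omega) y0, fun s hs e => ?_⟩
    by_contra e1
    refine e ((of_decide_eq_true (all_lt h3.2 hs)).2 ⟨?_, ?_, ?_, ?_⟩)
    · by_contra e2
      exact e1 ((h.dg 0).eig h.prim (by omega) y0 hs (w3_lt 0 hs) e2)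
    · by_contra e2
      exact e1 ((h.dg 1).eig h.prim (by omega) y1 hs (w3_lt 1 hs) e2)
    · by_contra e2
      exact e1 ((h.dg 2).eig h.prim (by omega) y2 hs (w3_lt 2 hs) e2)
    · by_contra e2
      exact e1 ((h.dg 3).fix h.prim y3 hs (w3_lt 3 hs) e2)
  rcases br_ne h3.1 (Sp_mono (fun s hs e => (of_decide_eq_true (all_lt h3.2 hs)).1 e) xs) ys (hb x xW _ (hTW x xW)) with e | e
  · exact xne e
  · exact xne (by rw [← aK_inv' T x, e, aK_zero])

end

end Cfsg.Agent.E82.Soc
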