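import Cfsg.Agent.E82.Soc.S8b
import Cfsg.Agent.E82.Soc.Core

/-!
# S3369, `Sp₈(2)`: the socle argument (helper92)

`Nice.par8` : if every non-zero stable rational subgroup contains a module of dimension 8, 26 or 48, then a subspace of a
nilradical is stable.
-/

set_option autoImplicit false
set_option maxRecDepth 100000
set_option maxHeartbeats 400000

namespace Cfsg.Agent.E82.Soc

open Cfsg Cfsg.Lie
open Cfsg.Agent.H939.L64 (KK LK aK brK)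
open Cfsg.Agent.H876.L64 (aK_mul aK_one aK_add aK_smul aK_zero aK_brK aK_inv aK_inv' two_zero)
open Cfsg.Agent.H413.L16 (br_comm add_self')
open Cfsg.Agent.H201.L34 (br_add_l br_add_r br_zero_l br_zero_r br_self')

variable {ζ : KK} {Y P : Fin 4 → GK} {R : GK} {sP : Fin 4 → GK} {sR : GK} {Γ : Type} {φ : Γ → GK}

/-- a submodule of dimension 26 -/
def T26 (Y P : Fin 4 → GK) (R : GK) : Prop := ∃ w, w ≠ 0 ∧ (∀ i, aK (Y i) w = w) ∧ (∀ j, aK (P j) w = w) ∧ Ng R w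

/-- a submodule of dimension 8 -/
def T8 (φ : Γ → GK) (Y P : Fin 4 → GK) (R : GK) (U : AddSubgroup LK) : Prop :=
  ∃ W ≤ U, Stb φ W ∧ ∃ v ∈ W, v ≠ 0 ∧ Pt Y f8 v ∧ aK R v = v ∧
    W ≤ AddSubgroup.closure {x | ∃ j, x = aK (P j) v ∨ x = aK (P j) (aK (Y 3) v)}

/-- a submodule of dimension 48 -/
def T48 (φ : Γ → GK) (Y P : Fin 4 → GK) (R : GK) (U : AddSubgroup LK) : Prop :=
  ∃ W ≤ U, Stb φ W ∧ (∃ v ∈ W, v ≠ 0 ∧ Pt Y f48 v) ∧
    W ≤ AddSubgroup.closure {x | ∃ j u, x = aK (P j) u ∧ (Pt Y f48 u ∨ Pt Y f8 u ∧ Ng R u)}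

theorem Pt.tor (hc : ∀ i j, Y i * Y j = Y j * Y i) {f : Fin 4 → Bool} {v : LK} (h : Pt Y f v) (j : Fin 4) : Pt Y f (aK (Y j) v) :=
  ⟨fun i e => fix_conj (h.1 i e) (hc j i), fun i e => (h.2 i e).conj (hc j i)⟩

theorem Pt.mov (hp : ∀ j i, P j * Y i = Y (pp j i) * P j) {f g : Fin 4 → Bool} {j : Fin 4} (e : ∀ i, g i = f (pp j i)) {v : LK}
    (h : Pt Y f v) : Pt Y g (aK (P j) v) := by
  have e1 : ∀ j i, pp j (pp j i) = i := by decide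
  have e2 : ∀ i, P j * Y (pp j i) = Y i * P j := fun i => by rw [hp, e1]
  exact ⟨fun i e3 => fix_conj (h.1 _ (e i ▸ e3)) (e2 i), fun i e3 => (h.2 _ (e i ▸ e3)).conj (e2 i)⟩

theorem Ng.br_l {t : GK} {x y : LK} (hx : Ng t x) (hy : aK t y = y) : Ng t (brK x y) := by
  unfold Ng
  rw [aK_brK, aK_brK, hy, hy, ← br_add_l, ← br_add_l, hx, br_zero_l]

theorem Pt.br {f g : Fin 4 → Bool} (e : ∀ i, f i = true → g i = false) {x y : LK} (hx : Pt Y f x) (hy : Pt Y g y) :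
    Pt Y (fun i => f i || g i) (brK x y) := by
  refine ⟨fun i e1 => ?_, fun i e1 => ?_⟩
  · have e2 := Bool.or_eq_false_iff.1 e1
    rw [aK_brK, hx.1 i e2.1, hy.1 i e2.2]
  · cases e2 : f i with
    | true => exact (hx.2 i e2).br_l (hy.1 i (e i e2))
    | false =>
      rw [br_comm]
      exact (hy.2 i (by simpa [e2] using e1)).br_l (hx.1 i e2)

theorem Pt.diag (hc : ∀ i j, Y i * Y j = Y j * Y i) {v : LK} (h : Pt Y f8 v) : Pt Y (fun _ => false) (brK v (aK (Y 3) v)) := by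
  refine ⟨fun i _ => ?_, fun _ e => Bool.noConfusion e⟩
  by_cases e : i = 3
  · have h1 : aK (Y 3) (aK (Y 3) v) = v + aK (Y 3) v := by
      have h2 : v + aK (Y 3) v + aK (Y 3) (aK (Y 3) v) = 0 := h.2 3 rfl
      rw [← neg_LK (v + _)]
      exact (neg_eq_of_add_eq_zero_right h2).symm
    rw [e, aK_brK, h1, br_add_r, br_self', add_zero, br_comm]
  · have e1 : f8 i = false := (by decide : ∀ i : Fin 4, i ≠ 3 → f8 i = false) i e
    rw [aK_brK, h.1 i e1, (h.tor hc 3).1 i e1]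

theorem Nice.br8 (h : Nice ζ Y P R sP sR) (hc : ∀ i j, Y i * Y j = Y j * Y i) (hp : ∀ j i, P j * Y i = Y (pp j i) * P j)
    {v : LK} (hv : Pt Y f8 v) : ∀ x ∈ {x | ∃ j, x = aK (P j) v ∨ x = aK (P j) (aK (Y 3) v)},
      ∀ y ∈ {x | ∃ j, x = aK (P j) v ∨ x = aK (P j) (aK (Y 3) v)}, brK x y ∈ St ev := by
  rintro x ⟨i, hx⟩ y ⟨j, hy⟩
  by_cases e : i = j
  · subst e
    have h1 := (hv.diag hc).mov hp (g := fun _ => false) (j := i) fun _ => rfl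
    have h2 := h.memA rfl h1.1 h1.2
    rcases hx with rfl | rfl <;> rcases hy with rfl | rfl
    · rw [br_self']; exact zero_mem _
    · rw [← aK_brK]; exact h2
    · rw [← aK_brK, br_comm]; exact h2
    · rw [br_self']; exact zero_mem _
  · have e1 : ∀ j i, decide (i = j) = f8 (pp j i) := by decide
    have k : ∀ {x j}, x = aK (P j) v ∨ x = aK (P j) (aK (Y 3) v) → Pt Y (fun i => decide (i = j)) x := by
      rintro x j (rfl | rfl)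
      exacts [hv.mov hp (e1 j), (hv.tor hc 3).mov hp (e1 j)]
    have h1 := (k hx).br (fun l e2 => decide_eq_false fun e3 => e ((of_decide_eq_true e2).symm.trans e3)) (k hy)
    exact h.memA ((by decide : ∀ i j : Fin 4, i ≠ j → evb (fun l => decide (l = i) || decide (l = j)) = true) i j e) h1.1 h1.2

/-- **the socle argument** -/
theorem Nice.par8 (h : Nice ζ Y P R sP sR) (hc : ∀ i j, Y i * Y j = Y j * Y i) (hp : ∀ j i, P j * Y i = Y (pp j i) * P j)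
    {T : GK} (hT : ∀ i, i ≠ 3 → T * Y i = Y i * Y i * T) (hT3 : T * Y 3 = Y 3 * T) (hY : ∀ i, ∃ s, Y i = φ s)
    (hP : ∃ s, P 2 = φ s) (hTs : ∃ s, T = φ s) {A : AddSubgroup LK} (h0 : A ≠ ⊥) (h1 : Stb φ A)
    (h2 : ∀ x ∈ A, ∀ y ∈ A, brK x y ∈ A)
    (soc : ∀ U ≤ A, Stb φ U → U ≠ ⊥ → T26 Y P R ∨ T8 φ Y P R U ∨ T48 φ Y P R U) : PAR φ := by
  by_contra hn
  have n26 : ¬ T26 Y P R := fun ⟨w, k0, k1, k2, k3⟩ => k0 (h.n26 k1 k2 k3)
  have cA : ∀ U ≤ A, Stb φ U → (∀ x ∈ U, x ∈ St ev) → U = ⊥ := fun U k1 k2 k3 => by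
    by_contra k4
    rcases soc U k1 k2 k4 with k | ⟨W, k5, -, v, k6, k7, k8, -⟩ | ⟨W, k5, -, ⟨v, k6, k7, k8⟩, -⟩
    · exact n26 k
    · exact k7 (h.zeroA rfl k8.1 k8.2 (k3 v (k5 k6)))
    · exact k7 (h.zeroA rfl k8.1 k8.2 (k3 v (k5 k6)))
  have n8 : ∀ U ≤ A, ¬ T8 φ Y P R U := by
    rintro U k0 ⟨W, k1, k2, v, k3, k4, k5, k6, k7⟩
    have k8 := br_of_bot (cA (brS W) (brS_le fun x hx y hy => h2 x (k0 (k1 hx)) y (k0 (k1 hy))) k2.brS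
      (brS_le (U := (St ev).toAddSubgroup) fun x hx y hy => cl_br (C := (St ev).toAddSubgroup) (h.br8 hc hp k5) x (k7 hx) y (k7 hy)))
    obtain ⟨s, hs⟩ := hP
    obtain ⟨s', hs'⟩ := hY 3
    obtain ⟨g, hg⟩ := h.n8 k5 k6 (k8 v k3 _ (by rw [hs]; exact k2 s v k3)) (k8 v k3 _ (by rw [hs']; exact k2 s' v k3))
    refine hn (par_of k2 k3 k4 k7 (g := g) ?_)
    rintro _ ⟨j, rfl | rfl⟩
    exacts [(hg j).1, (hg j).2]
  have all48 : ∀ U ≤ A, Stb φ U → U ≠ ⊥ → ∃ W ≤ U, Stb φ W ∧ (∃ v ∈ W, v ≠ 0 ∧ Pt Y f48 v) ∧ ∀ x ∈ W, x ∈ Eg zz 1 := by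
    intro U k1 k2 k3
    obtain ⟨W, k4, k5, k6, k7⟩ := ((soc U k1 k2 k3).resolve_left n26).resolve_left (n8 U k1)
    refine ⟨W, k4, k5, k6, fun x hx => cl_ind (p := (· ∈ Eg zz 1)) (zero_mem _) ?_ (fun _ _ => add_mem) (k7 hx)⟩
    rintro _ ⟨j, u, rfl, e | e⟩
    exacts [Eg_aK (h.fixz j) (h.t1 e), Eg_aK (h.fixz j) (h.t2 e.1 e.2)]
  obtain ⟨W, k1, k2, ⟨v, k3, k4, k5⟩, k6⟩ := all48 A le_rfl h1 h0
  have k7 : brS W = ⊥ := by
    by_contra k7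
    obtain ⟨W', l1, -, ⟨u, l2, l3, -⟩, l4⟩ := all48 _ (brS_le fun x hx y hy => h2 x (k1 hx) y (k1 hy)) k2.brS k7
    exact l3 (Eg_zero (l4 u l2) (brS_le (U := (Eg zz 0).toAddSubgroup) (fun x hx y hy => Eg_br11 (k6 x hx) (k6 y hy)) (l1 l2)))
  obtain ⟨s, hs⟩ := hTs
  refine k4 (h.n48 hT hT3 (W := Submodule.span KK (W : Set LK)) (fun i => ?_) (by rw [hs]; exact k2.span s)
    (Submodule.subset_span k3) k5 (span_ab (br_of_bot k7)))
  obtain ⟨s', hs'⟩ := hY i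
  rw [hs']
  exact k2.span s'

end Cfsg.Agent.E82.Soc
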